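import Mathlib
import Cfsg.Agent.H07.KGV
import Cfsg.Agent.H04.Metacyclic
import Cfsg.Agent.H04.Class2
import Cfsg.Agent.H03.Tate
import Cfsg.Agent.H03.Frobenius
import Cfsg.Agent.H27.Zsigmondy
import Cfsg.Agent.H02.Thompson
import Cfsg.Agent.H01.Generation
import Cfsg.Agent.S0205

/-!
Groups in which `G' ∖ K` is one conjugacy class for a normal subgroup `K` (namespace H20): `OC.solvable`.
-/

set_option autoImplicit false
set_option linter.unusedSectionVars false
set_option linter.unusedVariables false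

open Cfsg Classical
open scoped commutatorElement

local notation "𝐂[" x "]" => Subgroup.centralizer ({x} : Set _)

namespace H20

universe u
variable {G : Type u} [Group G] [Finite G] {p : ℕ} {K : Subgroup G} [hK : K.Normal] {g : G}

structure OC (K : Subgroup G) (g : G) : Prop where
  le : K ≤ commutator G
  gD : g ∈ commutator G
  gK : g ∉ K
  conj : ∀ x ∈ commutator G, x ∉ K → IsConj g x
  cen : ∀ z : G, (∀ y : G, ⁅y, z⁆ ∈ K) → z ∈ commutator G

theorem comm_mem_iff {a b : G} : ⁅a, b⁆ ∈ K ↔ Commute (a : G ⧸ K) b := by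
  rw [← QuotientGroup.eq_one_iff, ← commutatorElement_eq_one_iff_commute]; rfl

theorem comm_mem_comm (a b : G) : ⁅a, b⁆ ∈ commutator G :=
  Subgroup.commutator_mem_commutator (Subgroup.mem_top _) (Subgroup.mem_top _)

def cc (K : Subgroup G) [K.Normal] (g : G) : Subgroup G := (𝐂[(g : G ⧸ K)]).comap (QuotientGroup.mk' K)

theorem mem_cc {c : G} : c ∈ cc K g ↔ Commute (c : G ⧸ K) g := Subgroup.mem_centralizer_singleton_iff

theorem card_map_mk (X : Subgroup G) : Nat.card (X.map (QuotientGroup.mk' K)) = K.relIndex X := by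
  rw [← Subgroup.relIndex_ker, QuotientGroup.ker_mk']

namespace OC
variable (h : OC K g)
include h

theorem map {H : Type*} [Group H] (f : G →* H) (hf : Function.Surjective f) (hk : f.ker ≤ K) :
    OC (K.map f) (f g) := by
  have e : (commutator G).map f = commutator H := by
    rw [commutator, Subgroup.map_commutator, Subgroup.map_top_of_surjective f hf, commutator]
  have m : ∀ x, f x ∈ K.map f ↔ x ∈ K := fun x => by
    rw [← Subgroup.mem_comap, Subgroup.comap_map_eq, sup_of_le_left hk]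
  refine ⟨e ▸ Subgroup.map_mono h.le, e ▸ Subgroup.mem_map_of_mem f h.gD, fun x => h.gK ((m g).1 x), ?_, ?_⟩
  · rw [← e]
    rintro _ ⟨x, hx, rfl⟩ h1
    exact f.map_isConj (h.conj x hx fun h2 => h1 ((m x).2 h2))
  · intro z hz
    obtain ⟨z, rfl⟩ := hf z
    rw [← e]
    exact Subgroup.mem_map_of_mem f (h.cen z fun y => (m _).1 (by rw [map_commutatorElement]; exact hz _))

theorem le_of_mem {E : Subgroup G} [hE : E.Normal] {x : G} (h1 : x ∈ E) (h2 : x ∈ commutator G) (h3 : x ∉ K) :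
    commutator G ≤ E := by
  have k : ∀ y ∈ commutator G, y ∉ K → y ∈ E := fun y hy hy' => by
    obtain ⟨c, rfl⟩ := isConj_iff.1 ((h.conj x h2 h3).symm.trans (h.conj y hy hy'))
    exact hE.conj_mem x h1 c
  intro y hy
  by_cases hy' : y ∈ K
  · have := k (x * y) (mul_mem h2 hy) fun h4 => h3 (by simpa using mul_mem h4 (inv_mem hy'))
    simpa using mul_mem (inv_mem h1) this
  · exact k y hy hy'

theorem exists_prime : ∃ p : ℕ, p.Prime ∧ ∀ x ∈ commutator G, x ^ p ∈ K := by
  have h1 : orderOf (g : G ⧸ K) ≠ 1 := by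
    rw [Ne, orderOf_eq_one_iff, QuotientGroup.eq_one_iff]; exact h.gK
  obtain ⟨p, hp, hd⟩ := Nat.exists_prime_and_dvd h1
  have h2 := orderOf_pow_orderOf_div (orderOf_pos (g : G ⧸ K)).ne' hd
  rw [← QuotientGroup.mk_pow] at h2
  set x := g ^ (orderOf (g : G ⧸ K) / p)
  have h3 : x ∉ K := fun h4 => by
    rw [(QuotientGroup.eq_one_iff x).2 h4, orderOf_one] at h2
    exact hp.one_lt.ne h2
  have h4 : x ^ p ∈ K := by
    rw [← QuotientGroup.eq_one_iff, QuotientGroup.mk_pow, ← h2, pow_orderOf_eq_one]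
  refine ⟨p, hp, fun y hy => ?_⟩
  by_cases hy' : y ∈ K
  · exact pow_mem hy' p
  · obtain ⟨c, rfl⟩ := isConj_iff.1 ((h.conj x (pow_mem h.gD _) h3).symm.trans (h.conj y hy hy'))
    rw [conj_pow]; exact hK.conj_mem _ h4 c

theorem card_cc : Nat.card K * Nat.card 𝐂[g] = Nat.card (cc K g) := by
  have h1 : 𝐂[g] ≤ cc K g := fun c hc =>
    mem_cc.2 (Commute.map (Subgroup.mem_centralizer_singleton_iff.1 hc) (QuotientGroup.mk' K))
  rw [← H07.card_conj_mul (cc K g) g, inf_of_le_right h1]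
  congr 1
  refine Nat.card_congr (Equiv.subtypeEquiv (Equiv.mulLeft g) fun k => ⟨fun hk => ?_, ?_⟩)
  · obtain ⟨c, hc⟩ := isConj_iff.1 (h.conj (g * k) (mul_mem h.gD (h.le hk))
      fun h2 => h.gK (by simpa using mul_mem h2 (inv_mem hk))).symm
    refine ⟨c, mem_cc.2 ?_, hc⟩
    have := congrArg (QuotientGroup.mk (s := K)) hc
    simp only [QuotientGroup.mk_mul, (QuotientGroup.eq_one_iff k).2 hk, mul_one, QuotientGroup.mk_inv] at this
    exact mul_inv_eq_iff_eq_mul.1 this
  · rintro ⟨c, hc, e⟩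
    have := congrArg (QuotientGroup.mk (s := K)) e
    simp only [Equiv.coe_mulLeft, QuotientGroup.mk_mul, QuotientGroup.mk_inv] at this
    rw [← mul_assoc, (mem_cc.1 hc).eq, mul_assoc, mul_assoc, mul_eq_left, ← mul_assoc, mul_inv_eq_one,
      mul_eq_left, QuotientGroup.eq_one_iff] at this
    exact this

theorem le_cc : K ≤ cc K g := fun k hk => mem_cc.2 (by rw [(QuotientGroup.eq_one_iff k).2 hk]; exact Commute.one_left _)

theorem card_cent : Nat.card 𝐂[g] = K.relIndex (cc K g) :=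
  Nat.eq_of_mul_eq_mul_left Nat.card_pos (h.card_cc.trans (H01.card_mul_relIndex h.le_cc).symm)

theorem index_cc : (cc K g).index + 1 = K.relIndex (commutator G) := by
  have h1 := H07.card_conj_mul ⊤ g
  rw [top_inf_eq, Subgroup.card_top, ← (cc K g).card_mul_index, ← h.card_cc] at h1
  have h2 : Nat.card {v : G // ∃ c ∈ (⊤ : Subgroup G), c * v * c⁻¹ = g} + Nat.card K = Nat.card (commutator G) := by
    have : {v : G | ∃ c ∈ (⊤ : Subgroup G), c * v * c⁻¹ = g} = (commutator G : Set G) \ K := by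
      ext v
      constructor
      · rintro ⟨c, -, e⟩
        have e' : v = c⁻¹ * g * c⁻¹⁻¹ := by rw [← e]; group
        exact ⟨e' ▸ (inferInstance : (commutator G).Normal).conj_mem g h.gD _,
          fun hv => h.gK (e ▸ hK.conj_mem v hv c)⟩
      · rintro ⟨h1, h2⟩
        obtain ⟨c, hc⟩ := isConj_iff.1 (h.conj v h1 h2).symm
        exact ⟨c, trivial, hc⟩
    change Nat.card {v : G | ∃ c ∈ (⊤ : Subgroup G), c * v * c⁻¹ = g} + _ = _
    rw [this]
    exact Set.ncard_sdiff_add_ncard_of_subset (s := (K : Set G)) (t := (commutator G : Set G)) h.le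
  rw [← H01.card_mul_relIndex h.le] at h2
  have h3 : Nat.card {v : G // ∃ c ∈ (⊤ : Subgroup G), c * v * c⁻¹ = g} = Nat.card K * (cc K g).index :=
    Nat.eq_of_mul_eq_mul_right (Nat.card_pos (α := 𝐂[g])) (by rw [h1]; ring)
  exact Nat.eq_of_mul_eq_mul_left (Nat.card_pos (α := K)) (by rw [← h2, h3]; ring)

variable [hp : Fact p.Prime] (e : ∀ x ∈ commutator G, x ^ p ∈ K)
include e

theorem pD : IsPGroup p ((commutator G).map (QuotientGroup.mk' K)) := by
  rintro ⟨_, x, hx, rfl⟩
  exact ⟨1, Subtype.ext (by simpa [← QuotientGroup.mk_pow] using e x hx)⟩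

theorem comm {x y : G} (hx : x ∈ commutator G) (hy : y ∈ commutator G) : Commute (x : G ⧸ K) y := by
  by_contra h1
  rw [← comm_mem_iff] at h1
  have h2 := h.le_of_mem (E := ⁅commutator G, commutator G⁆) (Subgroup.commutator_mem_commutator hx hy)
    (comm_mem_comm _ _) h1
  have h3 := H01.commutator_lt_of_isPGroup (h.pD e) (h.pD e) Subgroup.le_normalizer (fun h4 => h.gK (by
    have := Subgroup.mem_map_of_mem (QuotientGroup.mk' K) h.gD
    rw [h4] at this
    simpa using this))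
  rw [← Subgroup.map_commutator] at h3
  exact h3.not_ge (Subgroup.map_mono h2)

theorem D_le : commutator G ≤ cc K g := fun x hx => mem_cc.2 (h.comm e hx h.gD)

theorem normal_cc : (cc K g).Normal := Subgroup.Normal.of_commutator_le _ (h.D_le e)

theorem mem_cc_iff {c x : G} (hx : x ∈ commutator G) (hx' : x ∉ K) : c ∈ cc K g ↔ Commute (c : G ⧸ K) x := by
  obtain ⟨y, rfl⟩ := isConj_iff.1 (h.conj x hx hx')
  have h1 : c ∈ cc K g ↔ y⁻¹ * c * y⁻¹⁻¹ ∈ cc K g :=
    ⟨fun hc => (h.normal_cc e).conj_mem _ hc _, fun hc => by simpa [mul_assoc] using (h.normal_cc e).conj_mem _ hc y⟩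
  have h2 : ⁅y⁻¹ * c * y⁻¹⁻¹, g⁆ = y⁻¹ * (⁅c, y * g * y⁻¹⁆ * y) := by
    simp only [commutatorElement_def]; group
  rw [h1, mem_cc, ← comm_mem_iff, ← comm_mem_iff, h2, hK.mem_comm_iff, mul_inv_cancel_right]

theorem cc_comm {c x : G} (hc : c ∈ cc K g) (hx : x ∈ commutator G) : Commute (c : G ⧸ K) x := by
  by_cases hx' : x ∈ K
  · rw [(QuotientGroup.eq_one_iff x).2 hx']; exact Commute.one_right _
  · exact (h.mem_cc_iff e hx hx').1 hc

theorem pC : IsPGroup p ((cc K g).map (QuotientGroup.mk' K)) := by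
  rintro ⟨_, c, hc, rfl⟩
  have h1 : c ^ p ∈ commutator G := h.cen _ fun y => by
    rw [comm_mem_iff, QuotientGroup.mk_pow]
    have h2 := h.cc_comm e hc (comm_mem_comm y c)
    have h3 : ((⁅y, c⁆ : G) : G ⧸ K) ^ p = 1 := by
      rw [← QuotientGroup.mk_pow, QuotientGroup.eq_one_iff]; exact e _ (comm_mem_comm y c)
    have h4 : (y : G ⧸ K) * c * (y : G ⧸ K)⁻¹ = (⁅y, c⁆ : G) * c := by
      simp [commutatorElement_def]
    rw [Commute, SemiconjBy, ← mul_inv_eq_iff_eq_mul, ← conj_pow, h4, h2.symm.mul_pow, h3, one_mul]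
  exact ⟨2, Subtype.ext (by simpa [← QuotientGroup.mk_pow, pow_two, pow_mul] using e _ h1)⟩

theorem pCent : IsPGroup p 𝐂[g] := by
  obtain ⟨k, hk⟩ := (h.pC e).exists_card_eq
  exact IsPGroup.of_card (by rw [h.card_cent, ← card_map_mk, hk])

theorem exists_q : ∃ n, n ≠ 0 ∧ K.relIndex (commutator G) = p ^ n := by
  obtain ⟨k, hk⟩ := (h.pD e).exists_card_eq
  rw [card_map_mk] at hk
  refine ⟨k, ?_, hk⟩
  rintro rfl
  exact h.gK (Subgroup.relIndex_eq_one.1 (by simpa using hk) h.gD)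

theorem cop_index : p.Coprime (cc K g).index := by
  obtain ⟨n, h0, hn⟩ := h.exists_q e
  rw [← h.index_cc] at hn
  exact (Nat.Prime.coprime_iff_not_dvd hp.out).2 fun hd => hp.out.one_lt.ne'
    (Nat.dvd_one.1 ((Nat.dvd_add_right hd).1 (hn ▸ dvd_pow_self p h0)))

theorem npc : HasNormalPComplement p K := by
  obtain ⟨P, hP⟩ := (h.pCent e).exists_le_sylow
  have hn := h.normal_cc e
  have h1 : (P : Subgroup G) ≤ cc K g := fun x hx => by
    obtain ⟨k, hk⟩ := P.2 ⟨x, hx⟩
    rw [← QuotientGroup.eq_one_iff, ← orderOf_eq_one_iff]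
    refine Nat.eq_one_of_dvd_coprimes ((h.cop_index e).pow_left k) (orderOf_dvd_of_pow_eq_one ?_)
      (orderOf_dvd_natCard _)
    rw [← QuotientGroup.mk_pow, show x ^ p ^ k = 1 from congrArg Subtype.val hk, QuotientGroup.mk_one]
  have hs := QuotientGroup.mk'_surjective K
  have h2 : K.relIndex (cc K g) ≤ K.relIndex P := by
    rw [← card_map_mk, ← card_map_mk]
    have := hn.map _ hs
    exact Subgroup.card_le_of_le ((h.pC e).le_sylow_of_normal (P.mapSurjective hs))
  have h3 := H07.card_conj_mul P g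
  rw [inf_of_le_right hP, ← H01.card_mul_relIndex (inf_le_right : K ⊓ P ≤ P), Subgroup.inf_relIndex_right,
    h.card_cent] at h3
  have hg : g ∈ (P : Subgroup G) := hP (Subgroup.mem_centralizer_singleton_iff.2 rfl)
  have h4 : {v : G | ∃ c ∈ (P : Subgroup G), c * v * c⁻¹ = g} = (g * ·) '' (K ⊓ P : Subgroup G) := by
    refine Set.eq_of_subset_of_ncard_le ?_ ?_
    · rintro v ⟨c, hc, rfl⟩
      refine ⟨(c * v * c⁻¹)⁻¹ * v, Subgroup.mem_inf.2 ⟨?_, mul_mem (inv_mem hg) ?_⟩, mul_inv_cancel_left _ _⟩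
      · have := comm_mem_iff.2 (mem_cc.1 (inv_mem (h1 hc))).symm.inv_left
        simpa [commutatorElement_def, mul_assoc] using this
      · simpa [mul_assoc] using mul_mem (mul_mem (inv_mem hc) hg) hc
    · rw [Set.ncard_image_of_injective _ (mul_right_injective g)]
      refine Nat.le_of_mul_le_mul_right ?_ (h.card_cent ▸ Nat.card_pos)
      exact (Nat.mul_le_mul_left _ h2).trans h3.ge
  have := P.2.isNilpotent
  refine H03.hasNPC_of_inf_le_frattini P K fun k hk => ?_
  obtain ⟨c, hc, h5⟩ : g * k ∈ {v : G | ∃ c ∈ (P : Subgroup G), c * v * c⁻¹ = g} := h4 ▸ ⟨k, hk, rfl⟩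
  refine ⟨⁅(⟨g, hg⟩ : P)⁻¹, (⟨c, hc⟩ : P)⁻¹⁆, H02.commutator_le_frattini_of_isNilpotent _ (comm_mem_comm _ _), ?_⟩
  change g⁻¹ * c⁻¹ * g⁻¹⁻¹ * c⁻¹⁻¹ = k
  rw [inv_inv, inv_inv, mul_assoc g⁻¹, mul_assoc g⁻¹, inv_mul_eq_iff_eq_mul]
  conv_lhs => rw [← h5]
  group

theorem cc_eq {t : G} (ht : t ∉ cc K g) : cc K g = commutator G := by
  refine le_antisymm (fun c hc => ?_) (h.D_le e)
  have hn := h.normal_cc e
  have fpf : ∀ x ∈ commutator G, Commute (t : G ⧸ K) x → x ∈ K := fun x hx h1 => by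
    by_contra h2
    exact ht ((h.mem_cc_iff e hx h2).2 h1)
  let D := (commutator G).map (QuotientGroup.mk' K)
  have : D.Normal := Subgroup.Normal.map inferInstance _ (QuotientGroup.mk'_surjective K)
  have h1 : MonoidHom.FixedPointFree (MulAut.conjNormal (H := D) (t : G ⧸ K)) := by
    rintro ⟨_, x, hx, rfl⟩ h2
    refine Subtype.ext ((QuotientGroup.eq_one_iff x).2 (fpf x hx ?_))
    exact mul_inv_eq_iff_eq_mul.1 (congrArg Subtype.val h2)
  obtain ⟨⟨_, u, hu, rfl⟩, h2⟩ := h1.commutatorMap_surjective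
    ⟨_, Subgroup.mem_map_of_mem (QuotientGroup.mk' K) (comm_mem_comm t c)⟩
  replace h2 : (u : G ⧸ K) / (t * u * (t : G ⧸ K)⁻¹) = t * c * (t : G ⧸ K)⁻¹ * (c : G ⧸ K)⁻¹ :=
    congrArg Subtype.val h2
  have h3 : Commute (t : G ⧸ K) (c * u : G) := by
    have h4 := h.cc_comm e hc hu
    have h5 := h.cc_comm e (hn.conj_mem c hc t) ((inferInstance : (commutator G).Normal).conj_mem u hu t)
    have h6 := h.cc_comm e hc ((inferInstance : (commutator G).Normal).conj_mem u hu t)
    simp only [QuotientGroup.mk_mul, QuotientGroup.mk_inv] at h5 h6 ⊢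
    rw [div_eq_mul_inv, eq_mul_inv_iff_mul_eq, mul_assoc, h6.inv_right.symm.eq, ← mul_assoc,
      mul_inv_eq_iff_eq_mul, ← h4.eq] at h2
    rw [Commute, SemiconjBy, ← mul_inv_eq_iff_eq_mul]
    conv_rhs => rw [h2]
    group
  have hb : c * u ∈ cc K g := mul_mem hc (h.D_le e hu)
  generalize hcu : c * u = b at h3 hb
  have h4 : b ∈ commutator G := h.cen b fun y => fpf _ (comm_mem_comm y b) (by
    have h5 := h.cc_comm e (hn.conj_mem b hb y) (comm_mem_comm t y)
    have h6 : ((⁅y, b⁆ : G) : G ⧸ K) = (y * b * y⁻¹ : G) * ((b : G ⧸ K))⁻¹ := rfl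
    rw [h6]
    refine Commute.mul_right ?_ h3.inv_right
    rw [Commute, SemiconjBy, ← mul_inv_eq_iff_eq_mul] at h3 h5 ⊢
    rw [mul_inv_eq_iff_eq_mul, eq_comm, ← mul_inv_eq_iff_eq_mul] at h5
    refine Eq.trans ?_ h5
    simp only [commutatorElement_def, QuotientGroup.mk_mul, QuotientGroup.mk_inv]
    conv_lhs => rw [show (t : G ⧸ K) * (y * b * (y : G ⧸ K)⁻¹) * (t : G ⧸ K)⁻¹ =
      t * y * (t : G ⧸ K)⁻¹ * (t * b * (t : G ⧸ K)⁻¹) * (t * (y : G ⧸ K)⁻¹ * (t : G ⧸ K)⁻¹) by group, h3]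
    group)
  simpa [← hcu] using mul_mem h4 (inv_mem hu)

theorem pow_of_triv (hp2 : p ≠ 2) (hKp : IsPGroup p K) {t : G} (ht : t ∉ cc K g) (hc : (orderOf t).Coprime p)
    (H : ∀ (B : Subgroup G) [B.Normal] (X : Subgroup (G ⧸ B)), X.Normal → IsPGroup p X →
      Nat.card X < K.relIndex (commutator G) → (t : G ⧸ B) ∈ Subgroup.centralizer (X : Set (G ⧸ B))) :
    g ^ p = 1 := by
  have hCD := h.cc_eq e ht
  have hD : IsPGroup p (commutator G) := ((h.pD e).comap_of_ker_isPGroup (QuotientGroup.mk' K)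
    (by rwa [QuotientGroup.ker_mk'])).to_le (Subgroup.le_comap_map _ _)
  have hcop : (Nat.card (Subgroup.zpowers t)).Coprime (Nat.card K) := by
    obtain ⟨k, hk⟩ := hKp.exists_card_eq
    rw [hk, Nat.card_zpowers]; exact hc.pow_right _
  have h1 := H01.commutator_commutator_eq (A := Subgroup.zpowers t) (K := K) (Subgroup.le_normalizer_of_normal)
    hcop (Or.inr (H01.isSolvable_of_isPGroup hKp))
  obtain ⟨B, hBK, ⟨hB, hB1⟩, hmin⟩ := Finite.exists_le_minimal
    (p := fun B : Subgroup G => B.Normal ∧ ⁅K, Subgroup.zpowers t⁆ ≤ B) (a := K)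
    ⟨hK, Subgroup.commutator_le_left _ _⟩
  have h2 : B = ⊥ := by
    by_contra h0
    have h3 := H01.commutator_lt_of_isPGroup hD (hKp.to_le hBK) Subgroup.le_normalizer_of_normal h0
    refine h3.not_ge (hmin ⟨inferInstance, ?_⟩ h3.le)
    rw [← h1]
    refine (Subgroup.commutator_mono hB1 le_rfl).trans ?_
    set B' := ⁅B, commutator G⁆
    have h4 : B.map (QuotientGroup.mk' B') < 𝐂[(g : G ⧸ B')] := by
      refine lt_of_le_of_ne ?_ fun h5 => h.gK ?_
      · rintro _ ⟨b, hb, rfl⟩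
        exact Subgroup.mem_centralizer_singleton_iff.2 (comm_mem_iff.1 (Subgroup.commutator_mem_commutator hb h.gD))
      · have h6 : (g : G ⧸ B') ∈ B.map (QuotientGroup.mk' B') := h5 ▸ Subgroup.mem_centralizer_singleton_iff.2 rfl
        have h7 : g ∈ (B.map (QuotientGroup.mk' B')).comap (QuotientGroup.mk' B') := h6
        rw [Subgroup.comap_map_eq, QuotientGroup.ker_mk', sup_of_le_left h3.le] at h7
        exact hBK h7
    have h5 := H B' (B.map (QuotientGroup.mk' B')) (hB.map _ (QuotientGroup.mk'_surjective _))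
      ((hKp.to_le hBK).map _) ((Set.Finite.card_lt_card (Set.toFinite _) h4).trans_le ((H04.card_centralizer_quotient_le B' g).trans
        (by rw [h.card_cent, hCD])))
    rw [← QuotientGroup.ker_mk' B', ← Subgroup.map_eq_bot_iff, Subgroup.map_commutator, Subgroup.commutator_comm,
      Subgroup.commutator_eq_bot_iff_le_centralizer, MonoidHom.map_zpowers, Subgroup.zpowers_le]
    exact h5
  rw [h2, le_bot_iff, Subgroup.commutator_comm, Subgroup.commutator_eq_bot_iff_le_centralizer,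
    Subgroup.zpowers_le] at hB1
  have h3 : ⁅t, g⁆ ∉ K := fun h4 => ht (mem_cc.2 (comm_mem_iff.1 h4))
  have h4 : commutator G ≤ Subgroup.centralizer K := h.le_of_mem (x := ⁅t, g⁆)
    (by
      rw [commutatorElement_def, mul_assoc, mul_assoc, ← mul_assoc g]
      exact mul_mem hB1 ((inferInstance : (Subgroup.centralizer (K : Set G)).Normal).conj_mem _ (inv_mem hB1) g))
    (comm_mem_comm _ _) h3
  have h5 := H04.mul_pow_eq_of_critical (p := p) hp2 (H := commutator G)
    (fun x hx y hy => (h4 hy _ (e x hx)).symm)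
    (Subgroup.commutator_le.2 fun x hx y hy z hz => (h4 hz _ (comm_mem_iff.2 (h.comm e hx hy))).symm)
    ((inferInstance : (commutator G).Normal).conj_mem g h.gD t) (inv_mem h.gD)
  rw [conj_pow, ← hB1 _ (e g h.gD), mul_inv_cancel_right, inv_pow, mul_inv_cancel] at h5
  obtain ⟨c, hc⟩ := isConj_iff.1 (h.conj _ (comm_mem_comm t g) h3)
  rw [← commutatorElement_def, ← hc, conj_pow] at h5
  simpa using h5

theorem pow_eq_one (hp2 : p ≠ 2) (hKp : IsPGroup p K) : g ^ p = 1 := by
  obtain ⟨n, h0, hn⟩ := h.exists_q e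
  have h3p : 3 ≤ p := by have := hp.out.two_le; omega
  have hi := h.index_cc
  have hle : p ≤ p ^ n := Nat.le_self_pow h0 p
  obtain ⟨t₀, ht₀⟩ : ∃ t, t ∉ cc K g := by
    by_contra h1
    push Not at h1
    rw [(Subgroup.eq_top_iff' _).2 h1, Subgroup.index_top] at hi
    omega
  have hCD := h.cc_eq e ht₀
  have hD : IsPGroup p (commutator G) := ((h.pD e).comap_of_ker_isPGroup (QuotientGroup.mk' K)
    (by rwa [QuotientGroup.ker_mk'])).to_le (Subgroup.le_comap_map _ _)
  rcases (by omega : n = 1 ∨ n = 2 ∨ 3 ≤ n) with rfl | rfl | h3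
  · have h1 := h.card_cent
    rw [hCD, hn, pow_one] at h1
    have := pow_card_eq_one' (x := (⟨g, Subgroup.mem_centralizer_singleton_iff.2 rfl⟩ : 𝐂[g]))
    rw [h1] at this
    exact congrArg Subtype.val this
  · obtain ⟨k, hk⟩ := hD.exists_card_eq
    obtain ⟨T, hT⟩ := Subgroup.exists_right_complement'_of_coprime (N := commutator G)
      (by rw [hk]; exact (hCD ▸ h.cop_index e).pow_left k)
    have hT1 : ∀ a ∈ T, a ∈ commutator G → a = 1 := fun a ha ha' =>
      Subgroup.disjoint_def.1 hT.disjoint ha' ha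
    let π := QuotientGroup.mk' K
    have : IsMulCommutative (T.map π) := ⟨⟨by
      rintro ⟨_, a, ha, rfl⟩ ⟨_, b, hb, rfl⟩
      refine Subtype.ext (comm_mem_iff.1 ?_)
      rw [hT1 ⁅a, b⁆ (mul_mem (mul_mem (mul_mem ha hb) (inv_mem ha)) (inv_mem hb)) (comm_mem_comm _ _)]
      exact one_mem _⟩⟩
    have := (h.pD e).isNilpotent
    have hn' : ((commutator G).map π).Normal := Subgroup.Normal.map inferInstance _ (QuotientGroup.mk'_surjective K)
    have hcyc : IsCyclic (T.map π) := H01.isCyclic_of_semiregular (K := (commutator G).map π) (fun h4 => h.gK (by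
        have := Subgroup.mem_map_of_mem π h.gD
        rw [h4] at this
        simpa [π] using this)) Subgroup.le_normalizer_of_normal (by
      rintro _ ⟨a, ha, rfl⟩ h1
      rw [eq_bot_iff]
      rintro _ ⟨⟨x, hx, rfl⟩, h2⟩
      by_contra h3
      have h4 := (h.mem_cc_iff e hx fun h5 => h3 ((QuotientGroup.eq_one_iff x).2 h5)).2
        (Commute.symm (Subgroup.mem_centralizer_singleton_iff.1 h2))
      exact h1 (by rw [hT1 a ha (hCD ▸ h4), map_one]))
    obtain ⟨⟨_, u, hu, rfl⟩, hu'⟩ := hcyc.exists_ofOrder_eq_natCard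
    have hTc : Nat.card T + 1 = p ^ 2 := by rw [← hn, ← hi, hCD, hT.symm.index_eq_card]
    have hu2 : orderOf (π u) + 1 = p ^ 2 := by
      rw [← hTc, ← Subgroup.orderOf_mk (ha := Subgroup.mem_map_of_mem π hu), hu', card_map_mk,
        ← Subgroup.inf_relIndex_right, show K ⊓ T = ⊥ from eq_bot_iff.2 fun a ha => hT1 a ha.2 (h.le ha.1),
        Subgroup.relIndex_bot_left]
    refine h.pow_of_triv e hp2 hKp (t := u ^ (p - 1)) (fun h1 => ?_) ?_ fun B _ X hX hXp hc => ?_
    · have h2 := hT1 _ (pow_mem hu _) (hCD ▸ h1)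
      have h3 := Nat.le_of_dvd (by omega) (orderOf_dvd_of_pow_eq_one (show π u ^ (p - 1) = 1 by rw [← map_pow, h2, map_one]))
      have : p * 3 ≤ p * p := Nat.mul_le_mul_left p h3p
      rw [pow_two] at hu2
      omega
    · refine Nat.Coprime.coprime_dvd_left (Subgroup.orderOf_dvd_natCard T (pow_mem hu _)) ?_
      rw [← hT.symm.index_eq_card, ← hCD]; exact (h.cop_index e).symm
    · obtain ⟨j, hj⟩ := hXp.exists_card_eq
      rw [hn, hj, Nat.pow_lt_pow_iff_right hp.out.one_lt] at hc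
      rcases (by omega : j = 0 ∨ j = 1) with rfl | rfl
      · rw [Subgroup.card_eq_one.1 (hj.trans (pow_zero p))]; simp
      · rw [pow_one] at hj
        have := isCyclic_of_prime_card hj
        have h1 := pow_card_eq_one' (x := MulAut.conjNormal (H := X) (u : G ⧸ B))
        rw [IsCyclic.card_mulAut, hj, Nat.totient_prime hp.out, ← map_pow] at h1
        intro x hx
        have := congrArg Subtype.val (DFunLike.congr_fun h1 ⟨x, hx⟩)
        exact (mul_inv_eq_iff_eq_mul.1 this).symm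
  · obtain ⟨r, hr, h1, h2⟩ := H27.zsigmondy_of_three_le hp.out.two_le h3 (fun h => hp2 h.1)
    have := Fact.mk hr
    have hri : r ∣ (cc K g).index := by rwa [← hn, ← hi, Nat.add_sub_cancel] at h1
    have hrp : r ≠ p := by
      rintro rfl
      exact (Nat.Prime.coprime_iff_not_dvd hr).1 (h.cop_index e) hri
    obtain ⟨t, ht⟩ := exists_prime_orderOf_dvd_card' r (hri.trans (cc K g).index_dvd_card)
    refine h.pow_of_triv e hp2 hKp (t := t) (fun h4 => ?_) (ht ▸ (Nat.coprime_primes hr hp.out).2 hrp)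
      fun B _ X hX hXp hc => ?_
    · obtain ⟨k, hk⟩ := hD ⟨t, hCD ▸ h4⟩
      exact hrp ((Nat.prime_dvd_prime_iff_eq hr hp.out).1 (hr.dvd_of_dvd_pow
        (ht ▸ orderOf_dvd_of_pow_eq_one (congrArg Subtype.val hk))))
    · by_contra h4
      obtain ⟨j, h5, h6, h7⟩ := H03.dvd_pow_sub_one_of_normalizes hXp hr hrp
        (Subgroup.le_normalizer_of_normal (Subgroup.mem_top _)) (by
          obtain ⟨k, -, hk⟩ := (Nat.dvd_prime_pow hr).1
            (show orderOf (t : G ⧸ B) ∣ r ^ 1 by rw [pow_one, ← ht]; exact orderOf_map_dvd (QuotientGroup.mk' B) t)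
          exact ⟨k, hk⟩) h4
      have := (Nat.le_of_dvd Nat.card_pos h6).trans_lt hc
      rw [hn, Nat.pow_lt_pow_iff_right hp.out.one_lt] at this
      exact h2 j h5 this h7

omit e hp in
theorem solvable : Group.IsSolvable G := by
  obtain ⟨p, hp, e⟩ := h.exists_prime
  have := Fact.mk hp
  let L := (pResidual p K).map K.subtype
  have hL : (Nat.card L).Coprime p := by
    rw [Subgroup.card_subtype]; exact H03.hasNPC_iff_coprime.1 (h.npc e)
  have hLK : L ≤ K := Subgroup.map_subtype_le _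
  let π := QuotientGroup.mk' L
  have hs := QuotientGroup.mk'_surjective L
  have h' := h.map π hs (by rwa [QuotientGroup.ker_mk'])
  have := hK.map π hs
  have eD : (commutator G).map π = commutator (G ⧸ L) := by
    rw [commutator, Subgroup.map_commutator, Subgroup.map_top_of_surjective π hs, commutator]
  have e' : ∀ x ∈ commutator (G ⧸ L), x ^ p ∈ K.map π := by
    rw [← eD]
    rintro _ ⟨x, hx, rfl⟩
    exact ⟨_, e x hx, map_pow _ _ _⟩
  have hKp : IsPGroup p (K.map π) := by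
    rintro ⟨_, x, hx, rfl⟩
    obtain ⟨k, hk⟩ := H03.isPGroup_quotient_pResidual (p := p) (G := K) (⟨x, hx⟩ : K)
    rw [← QuotientGroup.mk_pow, QuotientGroup.eq_one_iff] at hk
    exact ⟨k, Subtype.ext ((QuotientGroup.eq_one_iff (x ^ p ^ k)).2 ⟨_, hk, rfl⟩)⟩
  have hD : IsPGroup p (commutator (G ⧸ L)) := ((h'.pD e').comap_of_ker_isPGroup (QuotientGroup.mk' _)
    (by rwa [QuotientGroup.ker_mk'])).to_le (Subgroup.le_comap_map _ _)
  have h1 : Group.IsSolvable (G ⧸ L) := by
    have := H01.isSolvable_of_isPGroup hD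
    exact Group.isSolvable_of_ker_le_range (commutator (G ⧸ L)).subtype Abelianization.of
      (by rw [Abelianization.ker_of, Subgroup.range_subtype])
  have h2 : Group.IsSolvable L := by
    by_cases hp2 : p = 2
    · subst hp2
      exact Cfsg.Agent.S0205.result (Nat.coprime_two_right.1 hL)
    · have h3 := h'.pow_eq_one e' hp2 hKp
      rw [← map_pow, QuotientGroup.mk'_apply, QuotientGroup.eq_one_iff] at h3
      have cen : L ⊓ 𝐂[g] = ⊥ := by
        obtain ⟨k, hk⟩ := (h.pCent e).exists_card_eq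
        exact (Subgroup.disjoint_of_coprime_natCard (hk ▸ hL.pow_right k)).eq_bot
      have h4 : g ^ p = 1 := Subgroup.mem_bot.1 (cen ▸ ⟨h3, Subgroup.mem_centralizer_singleton_iff.2
        (Commute.self_pow g p).symm⟩)
      have := H02.isNilpotent_of_fpf hp (Subgroup.le_normalizer_of_normal (Subgroup.mem_top g)) h4 cen
      infer_instance
  exact Group.isSolvable_of_ker_le_range L.subtype π (by rw [QuotientGroup.ker_mk', Subgroup.range_subtype])

end OC

end H20
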