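import Mathlib
import Cfsg.Agent.H20.OneBlk
import Cfsg.Agent.H14.PK3

/-!
Kernel checks (on top of the permutation kit `H14.PK`) for the hypotheses of `H20.principal_or_zero` and `H20.SO_lower`.
-/

namespace H20

open H13 H14.PK H14.PK.TS

variable {G : Type*} [Group G] {w n : ℕ} {S : TS G w n}

/-- the tables commute -/
noncomputable def cmT (w n a b : ℕ) : Bool := Nat.beq (tm w n a b) (tm w n b a)

theorem cmT_iff (a b : G) : cmT w n (S.tb a) (S.tb b) = true ↔ a * b = b * a := by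
  rw [cmT, Nat.beq_eq, ← S.tb_mul, ← S.tb_mul, S.tb_eq_iff]

theorem cmT_el {a b : ℕ} (ha : S.In ⊤ a) (hb : S.In ⊤ b) : cmT w n a b = true ↔ S.el a * S.el b = S.el b * S.el a := by
  rw [← cmT_iff (S := S), ha.tb_el, hb.tb_el]

theorem comm_cl {Ls : List ℕ} (h : ∀ t ∈ Ls, S.In ⊤ t) (e : allL (fun a => allL (cmT w n a) Ls) Ls = true) :
    ∀ a ∈ S.cl Ls, ∀ b ∈ S.cl Ls, a * b = b * a := by
  have h1 : S.cl Ls ≤ Subgroup.centralizer (S.cl Ls : Set G) := by
    refine cl_le' fun t ht => ?_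
    rw [TS.cl, Subgroup.centralizer_closure, Subgroup.mem_centralizer_iff]
    rintro _ ⟨u, hu, rfl⟩
    exact ((cmT_el (h t ht) (h u hu)).1 (allL_iff.1 (allL_iff.1 e t ht) u hu)).symm
  exact fun a ha b hb => (h1 hb a ha)

/-- the group with the chain `cq` and the generators `Ns` is a normal `2`-subgroup of the centraliser of `A` (chain `ch`)
whose centraliser there has exponent two -/
noncomputable def conOk (w n A k : ℕ) (Ns : List ℕ) (cq ch : Ch) : Bool :=
  band (band (Nat.beq (chN cq) (2 ^ k)) (allL (fun t => cmT w n t A) Ns))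
    (band (allCh (fun g => allL (fun a => siftC w n cq (cjT w n g a)) Ns) ch)
      (eall w n (fun F v b q => anyL (fun B => prC w B (ti w n B) B F v b q) Ns)
        (fun f => force (mkT w n f) fun T => bor (anyL (fun B => bn (cmT w n T B)) Ns) (Nat.beq (tm w n T T) (idv w n)))
        ch 0 (idv w n) (idv w n)))

theorem constr_of {A k : ℕ} {Ns : List ℕ} {cq ch : Ch} (hA : S.In ⊤ A) (hN : ∀ t ∈ Ns, S.In ⊤ t)
    (hq : S.Full (S.cl Ns) cq) (hc : S.Full (Subgroup.centralizer {S.el A}) ch) (e : conOk w n A k Ns cq ch = true) :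
    ∃ Q : Subgroup G, IsPGroup 2 Q ∧ Q ≤ Subgroup.centralizer {S.el A} ∧
      Subgroup.centralizer {S.el A} ≤ Subgroup.normalizer (Q : Set G) ∧
      ∀ g ∈ Subgroup.centralizer {S.el A}, g ∈ Subgroup.centralizer (Q : Set G) → ¬ 2 ∣ orderOf g → g = 1 := by
  have := S.finite
  simp only [conOk, band_eq_true, Nat.beq_eq] at e
  obtain ⟨⟨e1, e2⟩, e3, e4⟩ := e
  refine ⟨S.cl Ns, IsPGroup.of_card (hq.card.trans e1), cl_le' fun t ht => ?_, hc.le fun l hl t ht => ?_, ?_⟩
  · exact Subgroup.mem_centralizer_singleton_iff.2 ((cmT_el (hN t ht) hA).1 (allL_iff.1 e2 t ht))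
  · have h1 := hc.mem l hl t ht
    refine h1.of_el (mem_normalizer_cl fun a ha => ?_)
    rw [← h1.top.el_cjT (hN a ha)]
    exact ((h1.top.cj (hN a ha)).of_siftC hq.mem (allL_iff.1 (allCh_iff.1 e3 l hl t ht) a ha)).el_mem
  · have key : ∀ x, ∀ B ∈ Ns, x ∈ Subgroup.centralizer (S.cl Ns : Set G) → x * S.el B = S.el B * x := fun x B hB hx =>
      (hx _ ((hN B hB).cl hB).el_mem).symm
    have := hc.forall (Q := fun x => x ∈ Subgroup.centralizer (S.cl Ns : Set G) → x * x = 1)
      (fun x F v b q a c d => by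
        obtain ⟨B, hB, c⟩ := anyL_iff.1 c
        rw [← (hN B hB).tb_el] at c
        exact absurd (key x B hB d) (prC_spec a c))
      (fun x f hf c d => by
        rw [force_eq, mkT_eq hf, bor_eq_true] at c
        rcases c with c | c
        · obtain ⟨B, hB, c⟩ := anyL_iff.1 c
          rw [← (hN B hB).tb_el] at c
          exact absurd ((cmT_iff _ _).2 (key x B hB d)) (bn_iff.1 c)
        · rwa [Nat.beq_eq, ← S.tb_mul, ← S.tb_one, S.tb_eq_iff] at c) e4
    intro g hg hg' h2
    have h3 : orderOf g ∣ 2 := orderOf_dvd_of_pow_eq_one (by rw [pow_two]; exact this g hg hg')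
    rcases (Nat.dvd_prime Nat.prime_two).1 h3 with h4 | h4
    · exact orderOf_eq_one_iff.1 h4
    · exact absurd (h4 ▸ dvd_rfl) h2

/-- the number of elements conjugating `A` to a power of `A` -/
noncomputable def nzN (w n A p : ℕ) (bs : List ℕ) (ch : Ch) : ℕ :=
  sumL (fun k => force (tp w n A k) fun C => esum w n (prC w A (ti w n A) C)
    (fun f => Bool.rec (nat_lit 0) (nat_lit 1) (trF w bs A C f)) ch 0 (idv w n) (idv w n)) (List.range p)

theorem card_normz_le {ch : Ch} (h : S.Full ⊤ ch) {bs : List ℕ} (hb : S.Base bs) {A p N : ℕ} (ha : S.In ⊤ A)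
    (hp : orderOf (S.el A) = p) (e : Nat.ble (nzN w n A p bs ch) N = true) :
    Nat.card (Subgroup.normalizer (Subgroup.zpowers (S.el A) : Set G)) ≤ N := by
  classical
  have := S.finite
  refine le_trans ?_ (Nat.le_of_ble_eq_true e)
  have e1 : nzN w n A p bs ch = ∑ k ∈ Finset.range p, {x | x ∈ (⊤ : Subgroup G) ∧ x * S.el A = S.el A ^ k * x}.ncard := by
    rw [nzN, sumL_eq, Finset.sum_range, ← List.sum_toFinset _ List.nodup_range, List.toFinset_range, Finset.sum_range]
    refine Finset.sum_congr rfl fun k _ => ?_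
    rw [force_eq, ← ha.el_tp]
    exact (h.card_transp hb ha (ha.pow k) (Nat.beq_refl _)).symm
  rw [e1]
  refine le_trans ?_ (Finset.set_ncard_biUnion_le _ _)
  refine Set.ncard_le_ncard (s := (Subgroup.normalizer (Subgroup.zpowers (S.el A) : Set G) : Set G)) (fun x hx => ?_)
    (Set.toFinite _)
  obtain ⟨k, a, b⟩ := Finset.mem_image.1 (mem_zpowers_iff_mem_range_orderOf.1
    ((Subgroup.mem_normalizer_iff.1 hx _).1 (Subgroup.mem_zpowers _)))
  simp only [Set.mem_iUnion]
  exact ⟨k, hp ▸ a, trivial, by rw [b, inv_mul_cancel_right]⟩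

end H20
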