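import Mathlib
import Cfsg.Agent.H07.Glb4
import Cfsg.Agent.H06.Monomial
import Cfsg.Agent.H06.ChiefNil
import Cfsg.Agent.H02.MinNormal

/-!
Fixed points in cosets and degrees of primitive characters of solvable groups (namespace H20).
* `prod_fx_coset` : a coset of an abelian normal `p'`-subgroup without fixed points has on average fixed spaces of
  at most half the dimension; `prod_fx_irred` (solvable irreducible groups);
* `exists_class_weight` : `χ(1)_p` divides `|cl(g)|_p` on average, for `χ` primitive.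
-/

set_option autoImplicit false
set_option linter.unusedSectionVars false
set_option linter.unusedVariables false

open Cfsg H05

namespace H20

section fx

variable {H V : Type*} [Group H] [Finite H] [CommGroup V] [Finite V] [MulDistribMulAction H V] {p : ℕ}

/-- the fixed points of an element -/
def fx (V : Type*) [Group V] [MulDistribMulAction H V] (x : H) : Subgroup V where
  carrier := {v | x • v = v}
  one_mem' := smul_one x
  mul_mem' {a b} ha hb := by
    show x • (a * b) = a * b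
    rw [smul_mul', show x • a = a from ha, show x • b = b from hb]
  inv_mem' {a} ha := by
    show x • a⁻¹ = a⁻¹
    rw [smul_inv', show x • a = a from ha]

theorem card_mul_le_of_inj {A B C W : Subgroup V} (hA : A ≤ W) (hB : B ≤ W) (hC : C ≤ W)
    (h : ∀ a ∈ A, ∀ b ∈ B, ∀ c ∈ C, a * b * c = 1 → a = 1 ∧ b = 1) :
    Nat.card A * Nat.card B * Nat.card C ≤ Nat.card W := by
  rw [← Nat.card_prod, ← Nat.card_prod]
  refine Nat.card_le_card_of_injective (fun x => ⟨x.1.1 * x.1.2 * x.2,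
    W.mul_mem (W.mul_mem (hA x.1.1.2) (hB x.1.2.2)) (hC x.2.2)⟩) ?_
  rintro ⟨⟨a, b⟩, c⟩ ⟨⟨a', b'⟩, c'⟩ e
  have e' : (a : V) * b * c = a' * b' * c' := congrArg Subtype.val e
  obtain ⟨h1, h2⟩ := h _ (a / a').2 _ (b / b').2 _ (c / c').2 (by
    simp only [Subgroup.coe_div]
    rw [div_mul_div_comm, div_mul_div_comm, e', div_self'])
  obtain rfl : a = a' := div_eq_one.1 (Subtype.ext h1)
  obtain rfl : b = b' := div_eq_one.1 (Subtype.ext h2)
  obtain rfl : c = c' := Subtype.ext (mul_left_cancel e')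
  rfl

theorem prod_fx_coset [hp : Fact p.Prime] (hV : IsPGroup p V) (N : Subgroup H) [hN : N.Normal] [Fintype N]
    (hab : ∀ a ∈ N, ∀ b ∈ N, a * b = b * a) (hc : ¬ p ∣ Nat.card N)
    (hfix : ∀ v : V, (∀ n ∈ N, n • v = v) → v = 1) (g : H) (W : Subgroup V)
    (h1 : ∀ n ∈ N, ∀ w ∈ W, n • w ∈ W) (h2 : ∀ w ∈ W, g • w ∈ W) :
    ∏ n : N, Nat.card ↥(W ⊓ fx V (n * g)) ^ 2 ≤ Nat.card W ^ Fintype.card N := by
  classical
  induction W using WellFoundedLT.induction with | ind W ih => ?_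
  by_cases hW : W = ⊥
  · simp [hW]
  obtain ⟨M, ⟨hMN, u, huW, hu1, huM⟩, hmax⟩ := Set.Finite.exists_maximal (Set.toFinite
    {M : Subgroup H | M ≤ N ∧ ∃ u ∈ W, u ≠ 1 ∧ ∀ m ∈ M, m • u = u})
    ⟨⊥, bot_le, by
      obtain ⟨u, hu⟩ := Subgroup.ne_bot_iff_exists_ne_one.1 hW
      exact ⟨u, u.2, fun h => hu (Subtype.ext h), fun m hm => by rw [Subgroup.mem_bot.1 hm, one_smul]⟩⟩
  have := Fintype.ofFinite M
  let π : V →* V := ∏ m : M, MulDistribMulAction.toMonoidHom V (m : H)
  have hπ : ∀ v, π v = ∏ m : M, (m : H) • v := fun v => by simp [π]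
  have hπn : ∀ n ∈ N, ∀ v, π (n • v) = n • π v := fun n hn v => by
    rw [hπ, hπ, Finset.smul_prod']
    exact Finset.prod_congr rfl fun m _ => by rw [smul_smul, smul_smul, hab _ (hMN m.2) _ hn]
  have hπM : ∀ m ∈ M, ∀ v, m • π v = π v := fun m hm v => by
    rw [hπ, Finset.smul_prod']
    exact Fintype.prod_equiv (Equiv.mulLeft (⟨m, hm⟩ : M)) _ _ fun x => by simp [smul_smul]
  have hπW : ∀ w ∈ W, π w ∈ W := fun w hw => hπ w ▸ W.prod_mem fun m _ => h1 _ (hMN m.2) _ hw
  have hπi : ∀ v, (∀ m ∈ M, m • v = v) → π v = 1 → v = 1 := fun v hv e => by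
    rw [hπ, Finset.prod_congr rfl fun (m : M) _ => hv m m.2, Finset.prod_const, Finset.card_univ,
      ← Nat.card_eq_fintype_card] at e
    obtain ⟨k, hk⟩ := hV v
    exact orderOf_eq_one_iff.1 (Nat.eq_one_of_dvd_coprimes (((hp.out.coprime_iff_not_dvd.2 fun h =>
      hc (h.trans (Subgroup.card_dvd_of_le hMN)))).pow_left k) (orderOf_dvd_of_pow_eq_one hk)
      (orderOf_dvd_of_pow_eq_one e))
  have hM : ∀ v ∈ W, ∀ x ∈ N, x ∉ M → (∀ m ∈ M, m • v = v) → x • v = v → v = 1 := fun v hv x hx hxM e1 e2 => by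
    by_contra hne
    refine hxM (hmax (y := N ⊓ MulAction.stabilizer H v) ⟨inf_le_left, v, hv, hne, fun m hm => hm.2⟩
      (fun m hm => ⟨hMN hm, e1 m hm⟩) ⟨hx, e2⟩)
  let W' : Subgroup V := W ⊓ ⨅ i : ℕ, ((π.comp (MulDistribMulAction.toMonoidHom V (g ^ i))).ker)
  have hW' : ∀ w, w ∈ W' ↔ w ∈ W ∧ ∀ i : ℕ, π (g ^ i • w) = 1 := fun w => by
    simp [W', Subgroup.mem_iInf]
  have h3 : ∀ n ∈ N, ∀ w ∈ W', n • w ∈ W' := fun n hn w hw => (hW' _).2 ⟨h1 n hn w hw.1, fun i => by
    rw [smul_smul, show g ^ i * n = (g ^ i * n * (g ^ i)⁻¹) * g ^ i by group, mul_smul,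
      hπn _ (hN.conj_mem n hn _), ((hW' _).1 hw).2, smul_one]⟩
  have h4 : ∀ w ∈ W', g • w ∈ W' := fun w hw => (hW' _).2 ⟨h2 w hw.1, fun i => by
    rw [smul_smul, ← pow_succ, ((hW' _).1 hw).2]⟩
  have h5 : ∀ w ∈ W', (∀ m ∈ M, m • w = w) → w = 1 := fun w hw e =>
    hπi w e (by simpa using ((hW' _).1 hw).2 0)
  have hlt : W' < W := lt_of_le_of_ne inf_le_left fun e => hu1 (h5 u (e ▸ huW) huM)
  let I : H → Subgroup V := fun x => (W ⊓ fx V x).map π
  have hI : ∀ x, ∀ a ∈ I x, a ∈ W ∧ ∀ m ∈ M, m • a = a := by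
    rintro x _ ⟨w, hw, rfl⟩
    exact ⟨hπW w hw.1, fun m hm => hπM m hm w⟩
  have h6 : ∀ n ∈ N, Nat.card ↥(W ⊓ fx V (n * g)) ≤ Nat.card ↥(W' ⊓ fx V (n * g)) * Nat.card (I (n * g)) := by
    intro n hn
    rw [← Subgroup.relIndex_ker, ← Subgroup.relIndex_bot_left, ← Subgroup.relIndex_bot_left,
      ← Subgroup.inf_relIndex_right π.ker, ← Subgroup.relIndex_mul_relIndex ⊥ (π.ker ⊓ (W ⊓ fx V (n * g))) _ bot_le
        inf_le_right, Subgroup.relIndex_bot_left, Subgroup.relIndex_bot_left]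
    refine Nat.mul_le_mul_right _ (Subgroup.card_le_of_le fun w hw => ⟨(hW' w).2 ⟨hw.2.1, fun i => ?_⟩, hw.2.2⟩)
    have h7 : ∀ i : ℕ, ∃ m ∈ N, g ^ i • w = m • w := fun i => by
      induction i with
      | zero => exact ⟨1, N.one_mem, by simp⟩
      | succ i ih =>
        obtain ⟨m, hm, e⟩ := ih
        refine ⟨g * m * g⁻¹ * n⁻¹, N.mul_mem (hN.conj_mem m hm g) (N.inv_mem hn), ?_⟩
        conv_rhs => rw [← show (n * g) • w = w from hw.2.2]
        rw [pow_succ', mul_smul, e, smul_smul, smul_smul]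
        group
    obtain ⟨m, hm, e⟩ := h7 i
    rw [e, hπn m hm, show π w = 1 from hw.1, smul_one]
  obtain ⟨n₀, h7⟩ : ∃ n₀ : N, ∀ n : N, Nat.card (I (n * g)) * Nat.card (I ((n₀ * n : N) * g)) * Nat.card W' ≤
      Nat.card W := by
    by_cases hg : ∀ m ∈ M, g * m * g⁻¹ ∈ M
    · obtain ⟨n₀, hn₀, hn₀'⟩ : ∃ n₀ ∈ N, n₀ ∉ M := by
        by_contra! h
        exact hu1 (hfix u fun n hn => huM n (h n hn))
      have h8 : ∀ n ∈ N, ∀ a ∈ I (n * g), (n * g) • a = a := by
        rintro n hn _ ⟨w, hw, rfl⟩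
        conv_rhs => rw [← show (n * g) • w = w from hw.2]
        rw [mul_smul, mul_smul, hπn n hn, hπ, hπ, Finset.smul_prod']
        congr 1
        refine Fintype.prod_bijective (fun m : M => (⟨_, hg m m.2⟩ : M)) (Finite.injective_iff_bijective.1
          fun a b e => Subtype.ext (by simpa using e)) _ _ fun m => by simp [smul_smul]
      refine ⟨⟨n₀, hn₀⟩, fun n => card_mul_le_of_inj (fun a ha => (hI _ a ha).1) (fun a ha => (hI _ a ha).1)
        hlt.le fun a ha b hb c hc e => ?_⟩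
      obtain rfl : c = 1 := h5 c hc fun m hm => by
        rw [eq_inv_of_mul_eq_one_right e, smul_inv', smul_mul', (hI _ a ha).2 m hm, (hI _ b hb).2 m hm]
      obtain rfl : a = b⁻¹ := eq_inv_of_mul_eq_one_left (by simpa using e)
      have h9 := h8 _ (N.mul_mem hn₀ n.2) b hb
      have h10 := h8 _ n.2 _ ha
      rw [smul_inv', inv_inj] at h10
      rw [mul_assoc, mul_smul, h10] at h9
      simp [hM b (hI _ b hb).1 n₀ hn₀ hn₀' (hI _ b hb).2 h9]
    · push Not at hg
      obtain ⟨m₀, hm₀, hg⟩ := hg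
      refine ⟨1, fun n => ?_⟩
      rw [one_mul]
      have := card_mul_le_of_inj (A := I (n * g)) (B := (I (n * g)).map (MulDistribMulAction.toMonoidHom V g))
        (fun a ha => (hI _ a ha).1) (by rintro _ ⟨a, ha, rfl⟩; exact h2 a (hI _ a ha).1) hlt.le ?_
      · rwa [Subgroup.card_map_of_injective (f := MulDistribMulAction.toMonoidHom V g) (MulAction.injective g)] at this
      rintro a ha _ ⟨b, hb, rfl⟩ c hc e
      simp only [MulDistribMulAction.toMonoidHom_apply] at e ⊢
      have h8 : π (g • b) = 1 := hM _ (hπW _ (h2 _ (hI _ b hb).1)) _ (hN.conj_mem _ (hMN hm₀) g) hg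
        (fun m hm => hπM m hm _) (by
          rw [← hπn _ (hN.conj_mem _ (hMN hm₀) g), smul_smul, inv_mul_cancel_right, mul_smul, (hI _ b hb).2 _ hm₀])
      have h9 := congrArg π e
      rw [map_mul, map_mul, h8, map_one, show π c = 1 by simpa using ((hW' _).1 hc).2 0, mul_one, mul_one] at h9
      obtain rfl := hπi a (hI _ a ha).2 h9
      have h10 := ((hW' _).1 (W'.inv_mem hc)).2 (orderOf g - 1)
      rw [← eq_inv_of_mul_eq_one_left (by simpa using e), smul_smul, ← pow_succ,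
        Nat.sub_add_cancel (orderOf_pos g), pow_orderOf_eq_one, one_smul] at h10
      simp [hπi b (hI _ b hb).2 h10]
  have key : ∀ F : H → ℕ, ∏ n : N, F (n * g) ^ 2 = ∏ n : N, F (n * g) * F ((n₀ * n : N) * g) := fun F => by
    simp only [pow_two, Finset.prod_mul_distrib]
    rw [Fintype.prod_equiv (Equiv.mulLeft n₀) (fun n : N => F ((n₀ * n : N) * g)) (fun n : N => F (n * g)) fun _ => rfl]
  calc ∏ n : N, Nat.card ↥(W ⊓ fx V (n * g)) ^ 2
      ≤ ∏ n : N, (Nat.card ↥(W' ⊓ fx V (n * g)) * Nat.card (I (n * g))) ^ 2 :=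
        Finset.prod_le_prod' fun n _ => Nat.pow_le_pow_left (h6 n n.2) 2
    _ = (∏ n : N, Nat.card ↥(W' ⊓ fx V (n * g)) ^ 2) * ∏ n : N, Nat.card (I (n * g)) ^ 2 := by
        simp only [mul_pow, Finset.prod_mul_distrib]
    _ ≤ Nat.card W' ^ Fintype.card N * ∏ n : N, Nat.card (I (n * g)) ^ 2 :=
        Nat.mul_le_mul_right _ (ih W' hlt h3 h4)
    _ = ∏ n : N, Nat.card (I (n * g)) * Nat.card (I ((n₀ * n : N) * g)) * Nat.card W' := by
        rw [key fun x => Nat.card (I x), Finset.prod_mul_distrib (g := fun _ => Nat.card W'), Finset.prod_const,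
          mul_comm, Finset.card_univ]
    _ ≤ ∏ n : N, Nat.card W := Finset.prod_le_prod' fun n _ => h7 n
    _ = _ := by rw [Finset.prod_const, Finset.card_univ]

theorem eq_one_of_pgroup [hp : Fact p.Prime] (hV : IsPGroup p V)
    (hirr : ∀ W : Subgroup V, (∀ h : H, ∀ w ∈ W, h • w ∈ W) → W = ⊥ ∨ W = ⊤) {N : Subgroup H} [hN : N.Normal]
    (h : IsPGroup p N) {n : H} (hn : n ∈ N) (v : V) : n • v = v := by
  rcases hirr (FixedPoints.subgroup N V) (fun g w hw m => by
    have := hw ⟨_, hN.conj_mem _ m.2 g⁻¹⟩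
    rw [Subgroup.smul_def] at this ⊢
    conv_rhs => rw [← this]
    simp [smul_smul, mul_assoc]) with e | e
  · rcases subsingleton_or_nontrivial V with hs | hs
    · exact Subsingleton.elim _ _
    have h1 := h.card_modEq_card_fixedPoints V
    rw [show Nat.card (MulAction.fixedPoints N V) = Nat.card (FixedPoints.subgroup N V) from rfl, e,
      Subgroup.card_bot] at h1
    obtain ⟨k, hk, h2⟩ := (hV.nontrivial_iff_card).1 hs
    exact (hp.out.not_dvd_one ((h1.dvd_iff dvd_rfl).1 (h2 ▸ dvd_pow_self p hk.ne'))).elim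
  · exact (show v ∈ FixedPoints.subgroup N V from e ▸ trivial) ⟨n, hn⟩

theorem prod_fx_irred [hp : Fact p.Prime] [Group.IsSolvable H] [Nontrivial H] [FaithfulSMul H V] (hV : IsPGroup p V)
    (hirr : ∀ W : Subgroup V, (∀ h : H, ∀ w ∈ W, h • w ∈ W) → W = ⊥ ∨ W = ⊤)
    {G : Type*} [Group G] [Fintype G] (f : G →* H) (hf : Function.Surjective f) :
    ∏ g, Nat.card (fx V (f g)) ^ 2 ≤ Nat.card V ^ Fintype.card G := by
  obtain ⟨N, hN, h1, -, h2, q, hq, h3⟩ := H02.exists_minimal_normal_elementary (G := H)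
  have := Fintype.ofFinite N
  have h4 : ¬ ∀ n ∈ N, ∀ v : V, n • v = v := fun h => h1 (eq_bot_iff.2 fun n hn =>
    FaithfulSMul.eq_of_smul_eq_smul (α := V) fun v => by rw [h n hn, one_smul])
  have h5 := fun g => prod_fx_coset hV N (fun a ha b hb => congrArg Subtype.val (h2.is_comm.comm ⟨a, ha⟩ ⟨b, hb⟩))
    (fun hd => h4 fun n hn v => ?_) (fun v hv => ?_) (f g) ⊤ (fun _ _ _ _ => trivial) (fun _ _ => trivial)
  · simp only [top_inf_eq, Subgroup.card_top] at h5
    refine (Nat.pow_le_pow_iff_left (Fintype.card_pos (α := N)).ne').1 ?_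
    rw [← pow_mul, mul_comm, pow_mul, ← Finset.card_univ (α := G), ← Finset.prod_const]
    refine le_trans (le_of_eq ?_) (Finset.prod_le_prod' fun g _ => h5 g)
    rw [Finset.prod_comm, ← Finset.card_univ, ← Finset.prod_const]
    refine Finset.prod_congr rfl fun n _ => ?_
    obtain ⟨y, hy⟩ := hf n
    exact (Fintype.prod_equiv (Equiv.mulLeft y) _ _ fun g => by simp [hy]).symm
  · have : Fact q.Prime := ⟨hq⟩
    have h6 : IsPGroup q N := fun x => ⟨1, Subtype.ext (by simpa using h3 x x.2)⟩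
    obtain ⟨k, hk⟩ := h6.exists_card_eq
    obtain rfl := (Nat.prime_dvd_prime_iff_eq hp.out hq).1 (hp.out.dvd_of_dvd_pow (hk ▸ hd))
    exact eq_one_of_pgroup hV hirr h6 hn v
  · rcases hirr (FixedPoints.subgroup N V) (fun g w hw m => by
      have := hw ⟨_, hN.conj_mem _ m.2 g⁻¹⟩
      rw [Subgroup.smul_def] at this ⊢
      conv_rhs => rw [← this]
      simp [smul_smul, mul_assoc]) with e | e
    · exact Subgroup.mem_bot.1 (e ▸ fun n => hv n n.2)
    · exact (h4 fun n hn v => (show v ∈ FixedPoints.subgroup N V from e ▸ trivial) ⟨n, hn⟩).elim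

end fx

variable {G : Type*} [Group G] [Fintype G] {p : ℕ} [hp : Fact p.Prime]

theorem exists_chief_weight [Group.IsSolvable G] {L K F Y : Subgroup G} [L.Normal] [hK : K.Normal] [Y.Normal]
    (hLK : L < K) (hch : ∀ N : Subgroup G, N.Normal → L ≤ N → N ≤ K → N = L ∨ N = K) (hF : ⁅K, F⁆ ≤ L)
    (hY : ∀ y ∈ Y, ∃ k, y ^ p ^ k ∈ F) : ∃ b : G → ℕ,
      (∀ g, b g ≤ ((L ⊔ K ⊓ Subgroup.centralizer {g}).relIndex K).factorization p) ∧
      (IsCyclic (K ⧸ L.subgroupOf K) ∨ ∀ e, e ∣ L.relIndex K → e ^ 2 ≤ L.relIndex K →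
        Fintype.card G * e.factorization p ≤ ∑ g, b g) ∧
      ∀ y ∈ Y, ∀ g, b (y * g) = b g := by
  by_cases hd : ¬ p ∣ L.relIndex K
  · exact ⟨0, fun _ => Nat.zero_le _, .inr fun e h _ => by
      simp [Nat.factorization_eq_zero_of_not_dvd fun h' => hd (h'.trans h)], fun _ _ _ => rfl⟩
  let V := K.map (QuotientGroup.mk' L)
  have hV : V.Normal := hK.map _ (QuotientGroup.mk'_surjective L)
  let ψ : K →* V := (QuotientGroup.mk' L).subgroupMap K
  have hψ : Function.Surjective ψ := MonoidHom.subgroupMap_surjective _ _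
  have hk : ψ.ker = L.subgroupOf K := by
    ext x
    rw [MonoidHom.mem_ker, Subtype.ext_iff]
    exact QuotientGroup.eq_one_iff _
  have hc : Nat.card V = L.relIndex K := by
    rw [Subgroup.relIndex, ← hk, Subgroup.index_ker, MonoidHom.range_eq_top.2 hψ, Subgroup.card_top]
  have hmin : ∀ W : Subgroup (G ⧸ L), W.Normal → W ≤ V → W = ⊥ ∨ W = V := fun W hW h => by
    have h1 := Subgroup.map_comap_eq_self_of_surjective (QuotientGroup.mk'_surjective L) W
    refine (hch (W.comap (QuotientGroup.mk' L)) inferInstance (QuotientGroup.le_comap_mk' L W) ?_).imp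
      (fun e => ?_) fun e => by rw [← h1, e]
    · simpa [V, Subgroup.comap_map_eq, hLK.le] using Subgroup.comap_mono (f := QuotientGroup.mk' L) h
    · rw [← h1, e, QuotientGroup.map_mk'_self]
  obtain ⟨h1, q, hq, h2⟩ := H02.minimal_normal_elementary_of_isSolvable (N := V)
    (fun h => hd (by rw [← hc, h, Subgroup.card_bot] at hd; exact (hd hp.out.not_dvd_one).elim)) hmin
  have hVp : IsPGroup p V := by
    have : Fact q.Prime := ⟨hq⟩
    have h6 : IsPGroup q V := fun x => ⟨1, Subtype.ext (by simpa using h2 x x.2)⟩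
    obtain ⟨k, hk⟩ := h6.exists_card_eq
    rwa [(Nat.prime_dvd_prime_iff_eq hp.out hq).1 (hp.out.dvd_of_dvd_pow (hk ▸ hc ▸ not_not.1 hd))]
  let : CommGroup V := { (inferInstance : Group V) with mul_comm := h1.is_comm.comm }
  let f := ((MulAut.conjNormal (H := V)).comp (QuotientGroup.mk' L)).rangeRestrict
  have hf : Function.Surjective f := MonoidHom.rangeRestrict_surjective _
  have hfa : ∀ g (x : K), f g • ψ x = ψ ⟨_, hK.conj_mem _ x.2 g⟩ := fun g x => rfl
  have hirr : ∀ W : Subgroup V, (∀ g, ∀ w ∈ W, f g • w ∈ W) → W = ⊥ ∨ W = ⊤ := fun W h => by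
    refine (hmin (W.map V.subtype) ⟨?_⟩ (Subgroup.map_subtype_le W)).imp (fun e => ?_) fun e => ?_
    · rintro _ ⟨w, hw, rfl⟩ g
      obtain ⟨g, rfl⟩ := QuotientGroup.mk'_surjective L g
      exact ⟨_, h g w hw, rfl⟩
    · exact (Subgroup.map_eq_bot_iff_of_injective W V.subtype_injective).1 e
    · exact Subgroup.map_injective V.subtype_injective (by rw [e, ← MonoidHom.range_eq_map, V.range_subtype])
  have hirr' := fun W (h : ∀ h : ((MulAut.conjNormal (H := V)).comp (QuotientGroup.mk' L)).range, ∀ w ∈ W,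
    h • w ∈ W) => hirr W fun g => h (f g)
  refine ⟨fun g => ((fx V (f g)).index).factorization p, fun g => ?_, ?_, fun y hy g => ?_⟩
  · refine (Nat.factorization_le_iff_dvd Subgroup.index_ne_zero_of_finite Subgroup.index_ne_zero_of_finite).2 ?_ p
    rw [← Subgroup.index_comap_of_surjective _ hψ]
    refine Subgroup.index_dvd_of_le ?_
    rw [Subgroup.subgroupOf_sup hLK.le inf_le_left, ← hk]
    refine sup_le (Subgroup.ker_le_comap _ _) fun x hx => (hfa g x).trans (congrArg ψ (Subtype.ext ?_))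
    show g * x * g⁻¹ = x
    rw [show g * x = x * g from hx.2 g rfl, mul_inv_cancel_right]
  · rcases subsingleton_or_nontrivial ((MulAut.conjNormal (H := V)).comp (QuotientGroup.mk' L)).range with h | h
    · left
      have : Nontrivial V := Finite.one_lt_card_iff_nontrivial.1 (hc ▸ H06.one_lt_relIndex_of_not_le hLK.not_ge)
      have : IsSimpleGroup V := ⟨fun W _ => hirr W fun g w hw => by rwa [Subsingleton.elim (f g) 1, one_smul]⟩
      exact isCyclic_of_surjective _ ((QuotientGroup.quotientKerEquivOfSurjective ψ hψ).symm.trans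
        (QuotientGroup.quotientMulEquivOfEq hk)).surjective
    · right
      have : Group.IsSolvable _ := Group.isSolvable_of_surjective hf
      have h3 := prod_fx_irred hVp hirr' f hf
      obtain ⟨n, hn⟩ := hVp.exists_card_eq
      have h4 : ∀ g, ∃ a, Nat.card (fx V (f g)) = p ^ a ∧ a + ((fx V (f g)).index).factorization p = n := fun g => by
        obtain ⟨a, ha⟩ := (hVp.to_subgroup (fx V (f g))).exists_card_eq
        have := congrArg (Nat.factorization · p) (fx V (f g)).card_mul_index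
        simp only [Nat.factorization_mul (Nat.card_pos (α := fx V (f g))).ne' Subgroup.index_ne_zero_of_finite] at this
        simp only [ha, hn, hp.out.factorization_pow, Finsupp.add_apply, Finsupp.single_eq_same] at this
        exact ⟨a, ha, this⟩
      choose a h4 h5 using h4
      simp only [h4, hn, ← pow_mul, Finset.prod_pow_eq_pow_sum, Nat.pow_le_pow_iff_right hp.out.one_lt,
        ← Finset.sum_mul] at h3
      have h6 := Finset.sum_congr (rfl : Finset.univ = _) fun g _ => h5 g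
      rw [Finset.sum_add_distrib, Finset.sum_const, Finset.card_univ, smul_eq_mul] at h6
      intro e e1 e2
      rw [← hc, hn] at e1 e2
      obtain ⟨j, -, rfl⟩ := (Nat.dvd_prime_pow hp.out).1 e1
      rw [← pow_mul, Nat.pow_le_pow_iff_right hp.out.one_lt] at e2
      rw [hp.out.factorization_pow, Finsupp.single_eq_same]
      have h7 := Nat.mul_le_mul_left (Fintype.card G) e2
      rw [mul_comm n] at h3
      rw [← mul_assoc] at h7
      beta_reduce
      omega
  · have := Subgroup.Normal.map (H := Y) inferInstance f hf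
    have h3 : IsPGroup p (Y.map f) := by
      rintro ⟨_, z, hz, rfl⟩
      obtain ⟨k, hk'⟩ := hY z hz
      refine ⟨k, Subtype.ext (FaithfulSMul.eq_of_smul_eq_smul (α := V) fun v => ?_)⟩
      obtain ⟨x, rfl⟩ := hψ v
      simp only [SubgroupClass.coe_pow, ← map_pow, OneMemClass.coe_one, one_smul, hfa]
      rw [← div_eq_one, ← map_div, ← MonoidHom.mem_ker, hk, Subgroup.mem_subgroupOf]
      simpa [div_eq_mul_inv, commutatorElement_def, mul_assoc] using
        L.inv_mem (hF (Subgroup.commutator_mem_commutator x.2 hk'))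
    refine congrArg (fun W : Subgroup V => W.index.factorization p) (Subgroup.ext fun v => ?_)
    show f (y * g) • v = v ↔ f g • v = v
    rw [map_mul, mul_smul, eq_one_of_pgroup hVp hirr' h3 (Subgroup.mem_map_of_mem f hy)]

theorem factorization_relIndex_add {L K C : Subgroup G} [L.Normal] (h : L ≤ K) :
    (C.relIndex K).factorization p = (C.relIndex L).factorization p + ((L ⊔ K ⊓ C).relIndex K).factorization p := by
  have h1 := Subgroup.relIndex_mul_relIndex (K ⊓ C) (L ⊔ K ⊓ C) K le_sup_right (sup_le h inf_le_left)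
  have h2 : (K ⊓ C).relIndex (L ⊔ K ⊓ C) = C.relIndex L := by
    have a := Subgroup.relIndex_mul_relIndex (L ⊓ (K ⊓ C)) L (L ⊔ K ⊓ C) inf_le_left le_sup_left
    have b := Subgroup.relIndex_mul_relIndex (L ⊓ (K ⊓ C)) (K ⊓ C) (L ⊔ K ⊓ C) inf_le_right le_sup_right
    rw [Subgroup.inf_relIndex_right, ← a, Subgroup.relIndex_sup_left, mul_comm, ← inf_assoc, inf_eq_left.2 h,
      Subgroup.inf_relIndex_left] at b
    exact Nat.eq_of_mul_eq_mul_right (H06.relIndex_pos _ _) b
  rw [← Subgroup.inf_relIndex_left, ← h1, h2, Nat.factorization_mul (H06.relIndex_pos _ _).ne'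
    (H06.relIndex_pos _ _).ne', Finsupp.add_apply]

theorem exists_class_weight [Group.IsSolvable G] {χ : G → ℂ} (hχ : H06.IsPrimitiveChar χ) {F Y : Subgroup G}
    [F.Normal] [Y.Normal] (hF : Group.IsNilpotent F) (hY : ∀ y ∈ Y, ∃ k, y ^ p ^ k ∈ F) : ∃ a : G → ℕ,
      (∀ g, a g ≤ (Subgroup.centralizer {g}).index.factorization p) ∧
      Fintype.card G * (charDegree χ).factorization p ≤ ∑ g, a g ∧ ∀ y ∈ Y, ∀ g, a (y * g) = a g := by
  suffices h : ∀ K : Subgroup G, K.Normal → ∀ θ, IsIrrCharacter K θ → H07.mult K.subtype χ θ ≠ 0 → ∃ a : G → ℕ,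
      (∀ g, a g ≤ ((Subgroup.centralizer {g}).relIndex K).factorization p) ∧
      Fintype.card G * (charDegree θ).factorization p ≤ ∑ g, a g ∧ ∀ y ∈ Y, ∀ g, a (y * g) = a g by
    have h1 := hχ.1.comp_of_surjective (⊤ : Subgroup G).subtype fun g => ⟨⟨g, trivial⟩, rfl⟩
    simpa [charDegree] using h ⊤ inferInstance _ h1 (by rw [H07.mult_of_comp_eq h1 fun _ => rfl]; exact one_ne_zero)
  intro K
  induction K using WellFoundedLT.induction with | ind K ih => ?_
  intro hK θ hθ h1
  rcases eq_or_ne K ⊥ with rfl | hb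
  · refine ⟨0, fun _ => Nat.zero_le _, ?_, fun _ _ _ => rfl⟩
    have := hθ.charDegree_dvd_card
    rw [Subgroup.card_bot, Nat.dvd_one] at this
    simp [this]
  obtain ⟨L, hL, -, hLK, hch⟩ := H06.exists_chief_below (M := ⊥) hb.bot_lt
  obtain ⟨φ, hφ, h2⟩ := H07.exists_mult_under (Subgroup.inclusion hLK.le) hθ
  have h3 : H07.mult L.subtype χ φ ≠ 0 := H07.mult_trans hχ.1.isCharacter hθ hφ.isCharacter h1 h2 fun _ => rfl
  obtain ⟨a, a1, a2, a3⟩ := ih L hLK hL φ hφ h3
  have hF' : ⁅K, F⁆ ≤ L := by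
    rcases hch (K ⊓ (L ⊔ F)) inferInstance (le_inf hLK.le le_sup_left) inf_le_left with h | h
    · exact le_trans (le_inf (Subgroup.commutator_le_left _ _)
        ((Subgroup.commutator_le_right _ _).trans le_sup_right)) h.le
    · refine le_trans (Subgroup.commutator_mono le_rfl (le_sup_right : F ≤ L ⊔ F))
        (H06.NilMod.commutator_le_of_chief (H06.nilMod_of_map ?_) (inf_eq_left.1 h) hLK hch)
      rw [Subgroup.map_sup, QuotientGroup.map_mk'_self, bot_sup_eq]
      exact Group.nilpotent_of_surjective _ (MonoidHom.subgroupMap_surjective _ _)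
  obtain ⟨b, b1, b2, b3⟩ := exists_chief_weight (p := p) hLK hch hF' hY
  refine ⟨a + b, fun g => ?_, ?_, fun y hy g => by simp [a3 y hy, b3 y hy]⟩
  · rw [factorization_relIndex_add hLK.le]
    exact add_le_add (a1 g) (b1 g)
  have := Fintype.ofFinite K
  have := Fintype.ofFinite L
  have := Fintype.ofFinite (L.subgroupOf K)
  have hφ' := (H07.isIrr_subgroupOf_iff L K hLK.le φ).2 hφ
  rw [← H07.mult_subgroupOf] at h2
  have hi := (H07.conjFun_eq_iff L).1 (hχ.conjFun_eq L hφ ((H07.mult_sub_ne_zero L hχ.1.isCharacter hφ.isCharacter).1 h3))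
  have hi' := (H07.conjFun_eq_iff (L.subgroupOf K)
    (θ := fun n => φ (Subgroup.subgroupOfEquivOfLe hLK.le n))).2 fun g n => hi g ⟨n, n.2⟩
  obtain ⟨e, e1, -, e2⟩ := H07.exists_res_eq_smul_dvd _ hθ hφ'
    ((H07.mult_sub_ne_zero _ hθ.isCharacter hφ'.isCharacter).1 h2) hi'
  have e3 := H07.sq_le_index _ hθ hφ' e2
  have e4 : charDegree θ = e * charDegree φ := by
    have := congrFun e2 1
    simp only [OneMemClass.coe_one, Pi.smul_apply, map_one, smul_eq_mul, ← hθ.charDegree_eq, ← hφ.charDegree_eq] at this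
    exact_mod_cast this
  have e5 : e ≠ 0 := fun h => hθ.charDegree_pos.ne' (by rw [e4, h, zero_mul])
  simp only [Pi.add_apply, Finset.sum_add_distrib]
  rw [e4, Nat.factorization_mul e5 hφ.charDegree_pos.ne', Finsupp.add_apply, mul_add, add_comm]
  refine add_le_add a2 ?_
  rcases b2 with b2 | b2
  · obtain ⟨ψ, h4, h5⟩ := H07.exists_ext_of_cyclic _ b2 hφ' hi'
    obtain ⟨lam, -, h6⟩ := H07.exists_hom_mul_of_over (L.subgroupOf K)
      (Subgroup.Normal.quotient_commutative_iff_commutator_le.1 inferInstance) h4 hθ hφ'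
      (by rw [H07.mult_of_comp_eq hφ' h5]; exact one_ne_zero) h2
    have h7 := congrFun e2 1
    simp only [h6, OneMemClass.coe_one, map_one, Units.val_one, mul_one, Pi.smul_apply, smul_eq_mul,
      show ψ 1 = φ 1 by simpa using h5 1] at h7
    obtain rfl : e = 1 := by exact_mod_cast (mul_right_cancel₀ hφ.apply_one_ne_zero (h7.symm.trans (one_mul _).symm))
    simp
  · exact b2 e e1 e3

theorem exists_le_of_sum_le {α : Type*} [Fintype α] [Nonempty α] {a : α → ℕ} {n : ℕ}
    (h : Fintype.card α * n ≤ ∑ g, a g) : ∃ g, n ≤ a g := by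
  obtain ⟨g, -, h⟩ := Finset.exists_le_of_sum_le Finset.univ_nonempty (f := fun _ => n) (g := a) (by simpa using h)
  exact ⟨g, h⟩

theorem isPrimitiveChar_of {χ : G → ℂ} (hχ : IsIrrCharacter G χ)
    (h : ¬ ∃ H : Subgroup G, H ≠ ⊤ ∧ ∃ θ : H → ℂ, IsCharacter H θ ∧ indFun H θ = χ) : H06.IsPrimitiveChar χ :=
  ⟨hχ, fun L φ h1 h2 => by_contra fun h3 => h ⟨L, h3, φ, h1, by convert h2⟩⟩

theorem exists_class_of_primitive [Group.IsSolvable G] {χ : G → ℂ} (hχ : H06.IsPrimitiveChar χ) :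
    ∃ g : G, (charDegree χ).factorization p ≤ (Subgroup.centralizer {g}).index.factorization p := by
  obtain ⟨a, h1, h2, -⟩ := exists_class_weight (p := p) hχ (F := ⊥) (Y := ⊥) inferInstance fun y hy => ⟨0, by simpa⟩
  obtain ⟨g, h⟩ := exists_le_of_sum_le h2
  exact ⟨g, h.trans (h1 g)⟩

end H20
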