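import Cfsg.Agent.H06.PT1
import Cfsg.Agent.H06.HS1
set_option autoImplicit false
set_option linter.unusedSectionVars false
open Cfsg BG Subgroup
open scoped commutatorElement
universe u
namespace H20.PtJ
open Cfsg.Agent.H06 Cfsg.Agent.H06.PT
open Cfsg.Agent.H06.FV (pr2 idx_dvd fact_of comm_le_of_fact)
variable {Γ : Type u} [Group Γ] [Finite Γ] {p r q s t : ℕ} {G A B H K R X V W F : Subgroup Γ} {a b : Γ}

theorem gk (h : R2 r A G) (gl : GLS.{u}) (hs : s.Prime) (ht : t.Prime) (st : s ≠ t) (hV : V ≤ G) (hW : W ≤ G) (pV : IsPGroup s V)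
    (pW : IsPGroup t W) (nV : A ≤ N_(V)) (nW : A ≤ N_(W)) (hn : W ≤ N_(V)) (i : Ind A a b) (Wa : W ≤ C_[a]) (WA : ⁅W, A⁆ = W)
    (nK : A ≤ N_(K)) (WK : W ≤ K) (hK : ⁅V ⊓ C_[b], A⁆ ≤ K) : ⁅V, W⁆ ≤ K :=
  h.gk gl hs ht st i ((comm_le_left hn).trans hV) (pg_le pV (comm_le_left hn)) (norm_comm nV nW) (le_inf hW Wa) pW nW WA
    (right_le_norm_comm _ _) (coprime_comm_comm hn (pg_coprime_ne ht hs pW pV st.symm) (.inl (pg_sol ht pW))) nK WK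
    ((comm_mono (inf_le_inf_right _ (comm_le_left hn)) le_rfl).trans hK)

theorem gc (h : R2 r A G) (gl : GLS.{u}) (hs : s.Prime) (ht : t.Prime) (st : s ≠ t) (hV : V ≤ G) (hW : W ≤ G) (pV : IsPGroup s V)
    (pW : IsPGroup t W) (nV : A ≤ N_(V)) (nW : A ≤ N_(W)) (hn : W ≤ N_(V)) (i : Ind A a b) (Wa : W ≤ C_[a]) (WA : ⁅W, A⁆ = W)
    (hp : p.Prime) (ps : p ≠ s) (hF : F ≤ G) (pF : IsPGroup p F) (nF : A ≤ N_(F)) (Fb : F ≤ C_[b]) (FA : ⁅F, A⁆ = F)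
    (WF : W ≤ C_(F)) : ⁅V, W⁆ ≤ C_(F) :=
  h.gc gl hs ht hp st ps.symm i ((comm_le_left hn).trans hV) (pg_le pV (comm_le_left hn)) (norm_comm nV nW) (le_inf hW Wa) pW nW WA
    (right_le_norm_comm _ _) (coprime_comm_comm hn (pg_coprime_ne ht hs pW pV st.symm) (.inl (pg_sol ht pW))) (le_inf hF Fb) pF nF
    FA WF

theorem lg (hs : Group.IsSolvable R) (hc : (Nat.card R).Coprime (Nat.card H)) (hK : K ≤ H) (nK : R ≤ N_(K))
    (h : ∀ q : ℕ, q.Prime → ∃ S, IsSylowIn q S H ∧ R ≤ N_(S) ∧ ⁅S, R⁆ ≤ K) : ⁅H, R⁆ ≤ K := by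
  refine (comm_le_of_fact nK fun x hx => fact_of hK (Nat.le_of_dvd (Nat.pos_of_ne_zero (relIndex_ne_zero _ _))
    (idx_dvd fun q hq => ?_)) hx).trans (comm_le_left nK)
  obtain ⟨S, hS, nS, l⟩ := h q hq
  refine ⟨S, hS, ?_⟩
  rw [HS.idx_comm hs nS (coprime_mono hc le_rfl hS.le)]
  exact HS.idx_sub hq hs nK (coprime_mono hc le_rfl hK) (pg_le (hS.pg hq) (comm_le_left nS)) l (right_le_norm_comm _ _)

theorem norm_biSup {S : Set ℕ} {f : ℕ → Subgroup Γ} (h : ∀ q ∈ S, B ≤ N_(f q)) : B ≤ N_(⨆ q ∈ S, f q) :=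
  le_norm_of_cj_le fun _ hg => cj_le_iff.2 (iSup₂_le fun q hq =>
    cj_le_iff.1 ((cj_of_mem_norm (h q hq hg)).le.trans (le_iSup₂_of_le (f := fun q _ => f q) q hq le_rfl)))

theorem iib : IIb.{u} := by
  intro Γ _ _ r A G h hL hZ hN
  have s := h.toMn.toSt
  have hT := s.syl pr2
  have nT := s.syl_n pr2
  have t1 := h.t1
  have vt := fun q => vq_T (A := A) (G := G) (q := q)
  have lv := fun q X => le_vq (A := A) (G := G) (q := q) (X := X)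
  have nV : ∀ q : ℕ, q.Prime → A ≤ N_(Vq A G q) := fun q hq => s.vq_A hq
  have sT : ∀ K : Subgroup Γ, K ≤ G → Syl 2 A G ≤ K → Syl 2 A K = Syl 2 A G := fun K hK hT' =>
    le_antisymm (sSup_le_sSup fun X hX => ⟨hX.1.trans hK, hX.2⟩) (le_sSup ⟨hT', hT.pg pr2, nT⟩)
  unfold ZT LL VV at *
  generalize Syl 2 A G = T at *
  have pT := hT.pg pr2
  have pV : ∀ q : ℕ, q.Prime → IsPGroup q (Vq A G q) := fun q hq => s.vq_pg hq
  have VG : ∀ q : ℕ, q.Prime → Vq A G q ≤ G := fun q _ => vq_G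
  have nC : ∀ a ∈ A, A ≤ N_(C_[a]) := fun a ha => s.nc ha
  have c2 : ∀ X : Subgroup Γ, X ≤ T → A ≤ N_(X) → ⁅X, A⁆ = X := fun X hX nX => s.two' (hX.trans hT.le) (pg_le pT hX) nX
  have nZ : A ≤ N_(T ⊓ C_(T)) := norm_inf nT (norm_cent nT)
  have WT : ∀ a : Γ, T ⊓ C_(T) ⊓ C_[a] ≤ T := fun a => inf_le_left.trans inf_le_left
  have WC : ∀ a : Γ, T ⊓ C_(T) ⊓ C_[a] ≤ C_(T) := fun a => inf_le_left.trans inf_le_right
  have nW : ∀ a ∈ A, A ≤ N_(T ⊓ C_(T) ⊓ C_[a]) := fun a ha => norm_inf nZ (nC a ha)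
  have c1 : ∀ q : ℕ, q.Prime → q ≠ 2 → ∀ a b, Ind A a b → ⁅Vq A G q, T ⊓ C_(T) ⊓ C_[a]⁆ ≤ C_(T ⊓ C_[b]) := fun q hq h2 a b i =>
    gc h.r2 h.gl hq pr2 h2 (VG q hq) ((WT a).trans hT.le) (pV q hq) (pg_le pT (WT a)) (nV q hq) (nW a i.l) ((WT a).trans (vt q)) i
      inf_le_right (c2 _ (WT a) (nW a i.l)) pr2 h2.symm (inf_le_left.trans hT.le) (pg_le pT inf_le_left)
      (norm_inf nT (nC b i.rr)) inf_le_right (c2 _ inf_le_left (norm_inf nT (nC b i.rr))) ((WC a).trans (cent_anti inf_le_left))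
  have cp : ∀ q : ℕ, q.Prime → q ≠ 2 → ∀ U W : Subgroup Γ, U ≤ Vq A G q → W ≤ T → (Nat.card W).Coprime (Nat.card U) :=
    fun q hq h2 U W hU hW => pg_coprime_ne pr2 hq (pg_le pT hW) (pg_le (pV q hq) hU) h2.symm
  have dV : ∀ q : ℕ, q.Prime → q ≠ 2 → ∀ U W : Subgroup Γ, U ≤ Vq A G q → W ≤ T → W ≤ N_(U) → ⁅U, W⁆ ⊔ (U ⊓ C_(W)) = U :=
    fun q hq h2 U W hU hW hn => coprime_comm_sup_cent hn (cp q hq h2 U W hU hW) (.inl (pg_sol pr2 (pg_le pT hW)))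
  have k0 : ∀ Z : Subgroup Γ, Z ≤ T ⊓ C_(T) → (∀ q : ℕ, q.Prime → q ≠ 2 → Vq A G q ≤ C_(Z)) → Z = ⊥ := fun Z h1 h2 =>
    le_bot_iff.1 (hZ ▸ le_inf h1 (cent_symm (iSup₂_le fun q hq => h2 q hq.1 hq.2)))
  have hne : ∀ a ∈ A, a ≠ 1 → ¬ T ⊓ C_(T) ≤ C_[a] := fun a ha a1 hz => by
    have n1 : zpowers a ≤ N_(T) := (zpowers_le.2 ha).trans nT
    have z1 : ⁅T, zpowers a⁆ ⊓ C_(T) ≤ T ⊓ C_(T) := inf_le_inf_right _ (comm_le_left n1)
    refine nil_meet_center (pg_nil pr2 pT) (comm_le_left n1) (left_le_norm_comm _ _)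
      (fun e => t1 a ha a1 (cent_zpowers a ▸ comm_eq_bot.1 e)) (k0 _ z1 fun q hq h2 => ?_)
    rw [← dV q hq h2 _ _ le_rfl (WT a) ((WT a).trans (vt q))]
    exact sup_le (cent_symm (inf_le_left.trans (h.r2.dec2 pr2 hT.le pT nT ha a1 fun b i =>
      (comm_le_left (norm_inf nT (nC b i.rr))).trans (cent_symm (c1 q hq h2 a b i)))))
      (inf_le_right.trans (cent_anti (le_inf z1 (z1.trans hz))))
  have ZG : T ⊓ C_(T) ≤ G := inf_le_left.trans hT.le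
  obtain ⟨c, hc, c1'⟩ : ∃ c ∈ A, c ≠ 1 := by
    by_contra! e
    have := h.r2.c2
    rw [(eq_bot_iff_forall A).2 e, card_bot] at this
    exact (Nat.one_lt_pow two_ne_zero s.rp.one_lt).ne this
  have ex : ∀ a ∈ A, a ≠ 1 → ∃ b ∈ A, b ≠ 1 ∧ ¬ T ⊓ C_(T) ⊓ C_[b] ≤ C_[a] := fun a ha a1 => by
    by_contra! e
    exact hne a ha a1 (h.r2.dec ZG nZ e)
  obtain ⟨a, ha, a1, ea⟩ := ex c hc c1'
  obtain ⟨b, hb, b1, eb⟩ := ex a ha a1
  have i := (h.r2.or ha a1 hb b1).resolve_right fun e => eb (inf_le_right.trans e.ge)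
  have a0 : T ⊓ C_(T) ⊓ C_[a] ≠ ⊥ := fun e => ea (e.le.trans bot_le)
  have b0 : T ⊓ C_(T) ⊓ C_[b] ≠ ⊥ := fun e => eb (e.le.trans bot_le)
  have hX := fun q hq h2 => (c1 q hq h2 a b i).trans (cent_anti (inf_le_inf_right _ (inf_le_left (b := C_(T)))))
  have Na := hN a ha
  have Nb := hN b hb
  have Wa : T ⊓ C_(T) ⊓ C_[a] ≤ C_[a] := inf_le_right
  have Wb : T ⊓ C_(T) ⊓ C_[b] ≤ C_[b] := inf_le_right
  have WZ : T ⊓ C_(T) ⊓ C_[a] ≤ T ⊓ C_(T) := inf_le_left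
  have na := nW a ha
  have nb := nW b hb
  have Ta := WT a
  have Tb := WT b
  have ab := (WC b).trans (cent_anti Ta)
  generalize T ⊓ C_(T) ⊓ C_[a] = W at *
  generalize T ⊓ C_(T) ⊓ C_[b] = W' at *
  have hK := h.toMn.lt (Tb.trans hT.le) b0 (pg_sol pr2 (pg_le pT Tb))
  have nK : A ≤ N_(G ⊓ N_(W')) := norm_inf s.nG (norm_norm nb)
  have NK : G ⊓ N_(T) ≤ G ⊓ N_(W') := le_inf inf_le_left Nb
  have CK : G ⊓ C_(W') ≤ G ⊓ N_(W') := inf_le_inf_left _ (cent_le_norm _)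
  generalize G ⊓ N_(W') = K at *
  have TK : T ≤ K := (le_inf hT.le (le_norm T)).trans NK
  have l2 := h.l2 K hK nK
  rw [sT K hK.le TK] at l2
  have OK := pcore_le {2}ᶜ K
  have KO := le_norm_pcore {2}ᶜ K
  have o2 := pcore_not_dvd pr2 K
  have nO := norm_pcore {2}ᶜ nK
  generalize piCoreOf {2}ᶜ K = O at *
  have OG := OK.trans hK.le
  have hall : IsPiHallOf {2}ᶜ O (T ⊔ O) := isPiHallOf_mk le_sup_right ((isPi_compl pr2).2 o2) fun p hp hd e => e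
    (pg_prime_eq pr2 pT hp (hd.trans (by
      rw [sup_comm, relIndex_sup (TK.trans KO)]; exact BG.relIndex_dvd_card _ _)))
  have nX : ∀ q, W ≤ N_(Vq A G q) := fun q => Ta.trans (vt q)
  have XV : ∀ q, ⁅Vq A G q, W⁆ ≤ Vq A G q := fun q => comm_le_left (nX q)
  have cc : ∀ q : ℕ, q.Prime → q ≠ 2 → ⁅⁅Vq A G q, W⁆, W⁆ = ⁅Vq A G q, W⁆ := fun q hq h2 =>
    coprime_comm_comm (nX q) (cp q hq h2 _ _ le_rfl Ta) (.inl (pg_sol pr2 (pg_le pT Ta)))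
  have XO : ∀ q : ℕ, q.Prime → q ≠ 2 → ⁅Vq A G q, W⁆ ≤ O := fun q hq h2 =>
    hall.le_of_normal (sup_le_norm_right (TK.trans KO)) (isPi_of_pg hq (pg_le (pV q hq) (XV q)) h2) ((cc q hq h2).ge.trans
      ((comm_mono le_rfl (Ta.trans le_sup_left)).trans (comm_le_right ((le_inf ((XV q).trans (VG q hq)) (hX q hq h2)).trans
        (CK.trans l2)))))
  have Xθ : ∀ q : ℕ, q.Prime → q ≠ 2 → ⁅Vq A G q, W⁆ ≤ ⁅O, W⁆ := fun q hq h2 =>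
    (cc q hq h2).ge.trans (comm_mono (XO q hq h2) le_rfl)
  have WO : W ≤ N_(O) := Ta.trans (TK.trans KO)
  have e : ⁅O, W⁆ = ⨆ q ∈ {q : ℕ | q.Prime ∧ q ≠ 2}, ⁅Vq A G q, W⁆ := by
    refine le_antisymm (lg (pg_sol pr2 (pg_le pT Ta)) (pg_coprime pr2 (pg_le pT Ta) o2) (iSup₂_le fun q hq => XO q hq.1 hq.2)
      (norm_biSup fun q _ => right_le_norm_comm _ _) fun q hq => ?_) (iSup₂_le fun q hq => Xθ q hq.1 hq.2)
    by_cases h2 : q = 2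
    · exact ⟨⊥, sylow_bot hq (h2 ▸ o2), le_norm_bot, by simp⟩
    have n2 := (s.sub OG nO).syl_n2 hq (sol_of_le (h.sol K hK nK) OK) (TK.trans KO) nT (pg_coprime pr2 pT o2)
    exact ⟨_, (s.sub OG nO).syl hq, Ta.trans n2, (comm_mono (lv q _ (sSup_le_sSup fun X hX => ⟨hX.1.trans OG, hX.2⟩) n2) le_rfl).trans
      (le_iSup₂_of_le (f := fun q (_ : q ∈ {q : ℕ | q.Prime ∧ q ≠ 2}) => ⁅Vq A G q, W⁆) q ⟨hq, h2⟩ le_rfl)⟩
  have θO : ⁅O, W⁆ ≤ O := comm_le_left WO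
  refine (h.toMn.lt (θO.trans OG) (fun e0 => a0 (k0 W WZ fun q hq h2 => comm_eq_bot.1 (le_bot_iff.1 (e0 ▸ Xθ q hq h2))))
    (sol_of_le (h.sol K hK nK) (θO.trans OK))).not_ge (le_inf le_rfl (hL.ge.trans (sup_le (norm_comm (NK.trans KO) Na)
      (iSup₂_le fun p ⟨hp, p2⟩ => ?_))))
  have UV : Vq A G p ⊓ C_(W) ≤ Vq A G p := inf_le_left
  have nU : W' ≤ N_(Vq A G p ⊓ C_(W)) := norm_inf (Tb.trans (vt p)) (ab.trans (le_norm _))
  have AU : A ≤ N_(Vq A G p ⊓ C_(W)) := norm_inf (nV p hp) (norm_cent na)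
  rw [← dV p hp p2 _ W le_rfl Ta (nX p), ← dV p hp p2 _ W' UV Tb nU]
  refine sup_le ((Xθ p hp p2).trans (le_norm _)) (sup_le ?_ (norm_comm ((inf_le_inf_right _ (UV.trans (VG p hp))).trans (CK.trans KO))
    (inf_le_left.trans (inf_le_right.trans (cent_le_norm _)))))
  rw [e]
  refine norm_biSup fun q ⟨hq, q2⟩ => ?_
  by_cases pq : q = p
  · subst pq; exact (comm_le_left nU).trans (UV.trans (left_le_norm_comm _ _))
  have hd := i.mul.rr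
  have AX : A ≤ N_(⁅Vq A G q, W⁆) := norm_comm (nV q hq) na
  have AF : A ≤ N_(⁅Vq A G q, W⁆ ⊓ C_[a * b]) := norm_inf AX (nC _ hd)
  have FX : ⁅⁅Vq A G q, W⁆ ⊓ C_[a * b], A⁆ ≤ ⁅Vq A G q, W⁆ := (comm_le_left AF).trans inf_le_left
  have XG := (XV q).trans (VG q hq)
  have y1 := gc h.r2 h.gl hp pr2 p2 (UV.trans (VG p hp)) (Tb.trans hT.le) (pg_le (pV p hp) UV) (pg_le pT Tb) AU nb nU i.mul' Wb
    (c2 _ Tb nb) hq pq (FX.trans XG) (pg_le (pV q hq) (FX.trans (XV q))) (right_le_norm_comm _ _) ((comm_le_left AF).trans inf_le_right)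
    (s.cc (inf_le_left.trans XG) AF) (cent_symm (FX.trans (hX q hq q2)))
  exact le_norm_of_cent (cent_symm ((cc q hq q2).ge.trans (gk h.r2 h.gl hq pr2 q2 XG (Ta.trans hT.le) (pg_le (pV q hq) (XV q))
    (pg_le pT Ta) AX na (right_le_norm_comm _ _) i.mul Wa (c2 _ Ta na) (norm_cent (norm_comm AU nb))
    (cent_symm ((comm_le_left nU).trans inf_le_right)) (cent_symm y1))))

end H20.PtJ
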