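import Cfsg.Agent.H24.Real
import Cfsg.Agent.H27.ClassSize
import Cfsg.Agent.H08.Simp2

/-! Real class sizes I (namespace `H20.RC`): lifting real elements, involutions with `π`-class size. -/

set_option autoImplicit false
set_option linter.unusedSectionVars false

open H27 Subgroup

namespace H20.RC
open _root_.Cfsg

variable {G : Type*} [Group G] [Finite G] {π : Set ℕ}

/-- `n` is a `π`-number -/
def P (π : Set ℕ) (n : ℕ) : Prop := ∀ q, q.Prime → q ∣ n → q ∈ π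

theorem P.dvd {m n : ℕ} (h : P π n) (d : m ∣ n) : P π m := fun q hq e => h q hq (e.trans d)

theorem P.cop {m n : ℕ} (h : P πᶜ m) (h' : P π n) : m.Coprime n :=
  Nat.coprime_of_dvd fun q hq e e' => h q hq e (h' q hq e')

theorem P.one : P π 1 := fun _ hq e => absurd (Nat.dvd_one.1 e) hq.one_lt.ne'

theorem P.odd {n : ℕ} (h : P π n) (h2 : 2 ∉ π) : Odd n :=
  Nat.not_even_iff_odd.1 fun e => h2 (h 2 Nat.prime_two e.two_dvd)

theorem fp {α : Type*} [Finite α] {A : Set α} {f : α → α} (hf : ∀ a ∈ A, f a ∈ A) {k : ℕ}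
    (h : ∀ a ∈ A, f^[2 ^ k] a = a) (ho : Odd A.ncard) : ∃ a ∈ A, f a = a := by
  classical
  have := Fact.mk Nat.prime_two
  have := Fintype.ofFinite A
  have h1 := Equiv.Perm.card_fixedPoints_modEq (f := (Set.MapsTo.restrict f A A hf : A → A)) (p := 2) (n := k) (by
    funext a
    change (Set.MapsTo.restrict f A A hf)^[2 ^ k] a = a
    rw [Set.MapsTo.iterate_restrict (f := f) (s := A) hf]
    exact Subtype.ext (h a a.2))
  by_contra hn
  have : IsEmpty (Function.fixedPoints (Set.MapsTo.restrict f A A hf)) :=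
    ⟨fun a => hn ⟨a.1, a.1.2, congrArg Subtype.val a.2⟩⟩
  rw [Fintype.card_eq_zero (α := Function.fixedPoints _), ← Nat.card_eq_fintype_card, Nat.card_coe_set_eq] at h1
  exact Nat.not_even_iff_odd.2 ho (even_iff_two_dvd.2 ((Nat.modEq_zero_iff_dvd).1 h1))

theorem conj_inv' {a b : G} (h : IsConj a b) : IsConj a⁻¹ b⁻¹ := by
  obtain ⟨c, rfl⟩ := isConj_iff.1 h
  exact isConj_iff.2 ⟨c, by group⟩

theorem sq_of_odd {x : G} (hx : IsConj x x⁻¹) (ho : Odd (cs x)) : x * x = 1 := by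
  obtain ⟨y, hy, e⟩ := fp (A := {y | IsConj x y}) (f := fun y => y⁻¹) (k := 1)
    (fun y hy => hx.trans (conj_inv' hy)) (fun y _ => by simp) (by rwa [ncard_isConj])
  obtain ⟨c, rfl⟩ := isConj_iff.1 hy
  have : c * (x * x) * c⁻¹ = 1 := by
    calc _ = c * x * c⁻¹ * (c * x * c⁻¹) := by group
      _ = 1 := by nth_rewrite 1 [← e]; exact inv_mul_cancel _
  simpa using this

theorem eq_one_of_odd {x : G} (h : x * x = 1) (ho : Odd (orderOf x)) : x = 1 :=
  orderOf_eq_one_iff.1 (ho.coprime_two_right.eq_one_of_dvd (orderOf_dvd_of_pow_eq_one ((sq x).trans h)))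

theorem trans_one {v e : G} (ho : Odd (cs v)) (he : e * e = 1) (h : ∀ y, IsConj v y → IsConj v (y * e)) : e = 1 := by
  obtain ⟨y, -, h⟩ := fp (A := {y | IsConj v y}) (f := fun y => y * e) (k := 1) h
    (fun y _ => by simp [mul_assoc, he]) (by rwa [ncard_isConj])
  simpa using h

theorem ncard_fib {H : Type*} [Group H] (f : G →* H) (Q : Subgroup G) {a : G} (ha : a ∈ Q) :
    {b | b ∈ Q ∧ f b = f a}.ncard = Nat.card (Q ⊓ f.ker : Subgroup G) := by
  rw [← Nat.card_coe_set_eq]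
  refine Nat.card_congr ⟨fun b => ⟨a⁻¹ * b, Q.mul_mem (Q.inv_mem ha) b.2.1, by simp [b.2.2]⟩,
    fun c => ⟨a * c, mul_mem ha c.2.1, by simp [MonoidHom.mem_ker.1 c.2.2]⟩, fun b => by simp, fun c => by simp⟩

theorem lift_core {H : Type*} [Group H] (f : G →* H) {Q : Subgroup G} (ho : Odd (Nat.card (Q ⊓ f.ker : Subgroup G)))
    {g a : G} (hg : g ∈ normalizer (Q : Set G)) (ha : a ∈ Q) (h : f g * f a * (f g)⁻¹ = (f a)⁻¹) :
    ∃ b ∈ Q, f b = f a ∧ IsConj b b⁻¹ := by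
  classical
  obtain ⟨u, z, hu, hz, e, hc, h2, h2'⟩ := H27.exists_pi_decomp {2} g
  obtain ⟨k, hk⟩ := (H27.isPiElt_singleton_iff Nat.prime_two).1 h2
  have : Finite f.range := .of_surjective _ f.rangeRestrict_surjective
  have hodd : Odd (orderOf z) := by
    rw [← Nat.not_even_iff_odd, even_iff_two_dvd]
    exact (H27.isPiElt_compl_singleton_iff Nat.prime_two).1 h2'
  have h3 : f u * f a * (f u)⁻¹ = (f a)⁻¹ := by
    have c2 : Commute (f g * f g) (f a) := by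
      calc f g * f g * f a = f g * (f g * f a * (f g)⁻¹) * f g := by group
        _ = (f g * f a * (f g)⁻¹)⁻¹ * f g * f g := by nth_rewrite 1 [h]; group
        _ = _ := by rw [h]; group
    have cz : Commute (f z) (f a) := by
      obtain ⟨j, rfl⟩ := hz
      obtain ⟨m, hm⟩ := hodd
      have : g ^ j = (g * g) ^ (j * (m + 1 : ℕ)) := by
        rw [← sq, ← zpow_natCast, ← zpow_mul, show (2 : ℕ) * (j * (m + 1 : ℕ)) = j * (2 * m + 1 + 1 : ℕ) by push_cast; ring,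
          zpow_mul, zpow_natCast, ← hm, pow_succ, pow_orderOf_eq_one, one_mul]
      change Commute (f (g ^ j)) _
      rw [this, map_zpow, map_mul]
      exact c2.zpow_left _
    rw [← h, e, map_mul]
    calc f u * f a * (f u)⁻¹ = f u * (f a * f z) * (f z)⁻¹ * (f u)⁻¹ := by group
      _ = _ := by rw [← cz.eq]; group
  have hu' : u ∈ normalizer (Q : Set G) := zpowers_le.2 hg hu
  have it : ∀ n b, (fun b => u * b⁻¹ * u⁻¹)^[2 * n] b = u ^ (2 * n) * b * (u ^ (2 * n))⁻¹ := fun n => by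
    induction n with
    | zero => simp
    | succ n ih =>
      intro b
      rw [Nat.mul_succ, Function.iterate_add_apply, ih]
      simp only [Function.iterate_succ, Function.iterate_zero, Function.comp, id]
      group
  obtain ⟨b, hb, e⟩ := fp (A := {b | b ∈ Q ∧ f b = f a}) (f := fun b => u * b⁻¹ * u⁻¹) (k := k + 1)
    (fun b hb => ⟨(mem_normalizer_iff.1 hu' _).1 (inv_mem hb.1), by
      rw [map_mul, map_mul, map_inv, map_inv, hb.2, ← inv_inj]; nth_rewrite 2 [← h3]; group⟩)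
    (fun b _ => by rw [pow_succ', it, ← pow_succ', pow_succ, pow_mul, ← hk, pow_orderOf_eq_one]; simp)
    (by rwa [ncard_fib f Q ha])
  exact ⟨b, hb.1, hb.2, (isConj_iff.2 ⟨u, e⟩).symm⟩

theorem lift_odd {H : Type*} [Group H] {f : G →* H} (hf : Function.Surjective f) (ho : Odd (Nat.card f.ker)) {y : H}
    (hy : IsConj y y⁻¹) : ∃ x, f x = y ∧ IsConj x x⁻¹ := by
  obtain ⟨t, ht⟩ := isConj_iff.1 hy
  obtain ⟨g, rfl⟩ := hf t
  obtain ⟨a, rfl⟩ := hf y
  obtain ⟨b, -, h⟩ := lift_core f (Q := ⊤) (by rwa [top_inf_eq]) (le_normalizer (mem_top g)) (mem_top a) ht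
  exact ⟨b, h⟩

/-- a real element of odd prime power order -/
def RP (y : G) : Prop := IsConj y y⁻¹ ∧ ∃ r k : ℕ, r.Prime ∧ r ≠ 2 ∧ orderOf y = r ^ k

theorem RP.odd {y : G} (h : RP y) : Odd (orderOf y) := by
  obtain ⟨-, r, k, hr, h2, e⟩ := h
  exact e ▸ (hr.odd_of_ne_two h2).pow

theorem lift_rp {H : Type*} [Group H] [Finite H] {f : G →* H} (hf : Function.Surjective f) {y : H} (hy : RP y) :
    ∃ x, f x = y ∧ RP x := by
  obtain ⟨hy, r, k, hr, h2, e⟩ := hy
  have := Fact.mk hr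
  obtain ⟨Q, h1, h3, h4⟩ := H17.exists_lift_pSubgroup hf (isPGroup_zpowers_iff.2 ⟨k, e⟩)
  obtain ⟨t, ht⟩ := isConj_iff.1 hy
  obtain ⟨g, hg, rfl⟩ : t ∈ (normalizer (Q : Set G)).map f := by
    rw [h4]
    refine BG.mem_norm_of_cj_le ?_
    rw [BG.cj_zpowers, ht, zpowers_inv]
  obtain ⟨a, ha, rfl⟩ : y ∈ Q.map f := h3 ▸ mem_zpowers y
  obtain ⟨j, hj⟩ := (h1.to_le (inf_le_left : Q ⊓ f.ker ≤ Q)).exists_card_eq
  obtain ⟨b, hb, h5, h6⟩ := lift_core f (hj ▸ (hr.odd_of_ne_two h2).pow) hg ha ht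
  obtain ⟨i, hi⟩ := orderOf_of_mem_pGroup h1 hb
  exact ⟨b, h5, h6, r, i, hr, h2, hi⟩

/-- an automorphism of `2`-power order inverts a non-trivial element -/
theorem real_of_norm {Q : Subgroup G} {u : G} (hu : u ∈ normalizer (Q : Set G)) {k : ℕ}
    (hk : u ^ 2 ^ k ∈ centralizer (Q : Set G)) (hn : u ∉ centralizer (Q : Set G)) : ∃ y ∈ Q, y ≠ 1 ∧ IsConj y y⁻¹ := by
  induction k generalizing u with
  | zero => exact absurd (by simpa using hk) hn
  | succ k ih =>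
    by_cases h : u ^ 2 ∈ centralizer (Q : Set G)
    · obtain ⟨a, ha, h1⟩ : ∃ a ∈ Q, a * u ≠ u * a := by simpa [mem_centralizer_iff] using hn
      refine ⟨a⁻¹ * (u * a * u⁻¹), mul_mem (inv_mem ha) ((mem_normalizer_iff.1 hu _).1 ha), fun e => h1 ?_,
        isConj_iff.2 ⟨u, ?_⟩⟩
      · rw [inv_mul_eq_one, eq_mul_inv_iff_mul_eq] at e; exact e
      · calc _ = u * a⁻¹ * u⁻¹ * (u ^ 2 * a) * (u ^ 2)⁻¹ := by rw [sq]; group
          _ = _ := by rw [← h a ha]; group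
    · exact ih (pow_mem hu 2) (by rwa [← pow_mul, ← pow_succ']) h

theorem real_pow {y : G} (h : IsConj y y⁻¹) (n : ℕ) : IsConj (y ^ n) (y ^ n)⁻¹ := by
  obtain ⟨c, hc⟩ := isConj_iff.1 h
  exact isConj_iff.2 ⟨c, by rw [← conj_pow, hc, inv_pow]⟩

/-- every real class size is a `π`-number or a `π'`-number -/
def Hyp (π : Set ℕ) (G : Type*) [Group G] : Prop := ∀ x : G, IsConj x x⁻¹ → P πᶜ (cs x) ∨ P π (cs x)

theorem real_of_sq {x : G} (h : x * x = 1) : IsConj x x⁻¹ := by rw [inv_eq_of_mul_eq_one_right h]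

theorem Hyp.odd (h : Hyp π G) (h2 : 2 ∉ π) {x : G} (hx : IsConj x x⁻¹) (ho : Odd (orderOf x)) : P πᶜ (cs x) :=
  (h x hx).elim id fun h' => by rw [eq_one_of_odd (sq_of_odd hx (h'.odd h2)) ho, cs_one]; exact P.one

theorem Hyp.closed (h : Hyp π G) (h2 : 2 ∉ π) {i : G} (hi : i * i = 1) (hp : P π (cs i)) (h1 : cs i ≠ 1)
    (S : Sylow 2 (cent i)) : (S : Subgroup (cent i)).Normal := by
  refine H24.sylow_normal_of_no_real (fun y g hy y2 e => ?_) S
  have ho : Odd (orderOf (y : G)) := by rw [orderOf_coe]; exact hy.odd_of_ne_two y2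
  have e' : (g : G) * y * (g : G)⁻¹ = (y : G)⁻¹ := congrArg Subtype.val e
  have c : Commute i y := (mem_cent.1 y.2).symm
  have cd := cs_dvd_cs_mul_of_coprime c (ho.coprime_two_left.coprime_dvd_left (orderOf_dvd_of_pow_eq_one ((sq i).trans hi)))
  have r : IsConj (i * y) (i * y)⁻¹ := isConj_iff.2 ⟨g, by
    rw [c.eq, mul_inv_rev, inv_eq_of_mul_eq_one_right hi, ← e', ← c.eq, ← mul_assoc, mem_cent.1 g.2]; group⟩
  rcases h _ r with h' | h'
  · exact h1 (((h'.dvd cd.1).cop hp).eq_one_of_dvd dvd_rfl)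
  · have := eq_one_of_odd (sq_of_odd (isConj_iff.2 ⟨_, e'⟩) ((h'.dvd cd.2).odd h2)) ho
    rw [show y = 1 from Subtype.ext this, orderOf_one] at hy
    exact Nat.not_prime_one hy

theorem Hyp.uniq (h : Hyp π G) (h2 : 2 ∉ π) {i : G} (hi : i * i = 1) (hp : P π (cs i)) (h1 : cs i ≠ 1)
    {S S' : Sylow 2 G} (hS : (S : Subgroup G) ≤ cent i) (hS' : (S' : Subgroup G) ≤ cent i) : S = S' := by
  have := Fact.mk Nat.prime_two
  have := Sylow.unique_of_normal _ (h.closed h2 hi hp h1 (S.subtype hS))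
  exact Sylow.subtype_injective (hP := hS) (hQ := hS') (Subsingleton.elim _ _)

theorem conj_of_cop {w v : G} (h : (cs w).Coprime (cs v)) {y : G} (hy : IsConj v y) : ∃ c ∈ cent w, c * v * c⁻¹ = y := by
  obtain ⟨g, rfl⟩ := isConj_iff.1 hy
  obtain ⟨a, ha, b, hb, rfl⟩ := exists_mul_of_coprime_index h g
  exact ⟨a, ha, by nth_rewrite 1 [← mem_cent_iff_conj.1 hb]; group⟩

/-- closure of the `π`-elements of a normal elementary abelian subgroup -/
theorem Hyp.mul (h : Hyp π G) {E : Subgroup G} [hE : E.Normal] (e2 : ∀ a ∈ E, a * a = 1) {u v : G} (hu : u ∈ E) (hv : v ∈ E)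
    (pu : P π (cs u)) (pv : P π (cs v)) (ho : Odd (cs v)) : P π (cs (u * v)) := by
  have cm : ∀ a ∈ E, ∀ b ∈ E, a * b = b * a := fun a ha b hb => by
    rw [← inv_eq_of_mul_eq_one_right (e2 _ (mul_mem ha hb)), mul_inv_rev, inv_eq_of_mul_eq_one_right (e2 a ha),
      inv_eq_of_mul_eq_one_right (e2 b hb)]
  refine (h _ (real_of_sq (e2 _ (mul_mem hu hv)))).elim (fun pw => ?_) id
  have k : ∀ {a b : G}, a ∈ E → b ∈ E → P πᶜ (cs (a * b)) → P π (cs b) → ∀ g y, IsConj b y →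
      IsConj a (y * (g * (a * b) * g⁻¹)) := fun {a b} ha hb p1 p2 g y hy => by
    obtain ⟨c, hc, e⟩ := conj_of_cop (p1.cop p2) (hy.trans (isConj_iff.2 ⟨g⁻¹, rfl⟩))
    refine isConj_iff.2 ⟨g * c, ?_⟩
    calc g * c * a * (g * c)⁻¹ = g * (c * b * c⁻¹) * (c * (b * a) * c⁻¹) * g⁻¹ := by
          rw [show g * c * a = g * c * (b * b) * a by rw [e2 b hb, mul_one]]; group
      _ = _ := by rw [e, cm b hb a ha, mem_cent_iff_conj.1 hc]; group
  rw [cs_eq_one_iff.2 (mem_center_iff.2 fun g => ?_)]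
  · exact P.one
  have m := hE.conj_mem _ (mul_mem hu hv) g
  have := trans_one ho (e2 _ (mul_mem m (mul_mem hu hv))) fun y hy => by
    simpa [← mul_assoc, cm v hv u hu] using k hv hu (cm v hv u hu ▸ pw) pu 1 _ (k hu hv pw pv g y hy)
  rw [← mul_inv_eq_iff_eq_mul, eq_inv_of_mul_eq_one_left this, inv_eq_of_mul_eq_one_right (e2 _ (mul_mem hu hv))]

end H20.RC
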