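import Cfsg.Agent.H20.RC1

/-! Real class sizes II: a simple group that is doubly transitive on its Sylow `2`-subgroups (`H20.RC.two_false`). -/

set_option autoImplicit false
set_option linter.unusedSectionVars false

open H27 Subgroup MulAction
open scoped Pointwise

namespace H20.RC
open _root_.Cfsg

variable {G : Type*} [Group G] [Finite G]

local instance : Fact (Nat.Prime 2) := ⟨Nat.prime_two⟩

theorem mem_smul {p : ℕ} {g x : G} {a : Sylow p G} : x ∈ g • a ↔ g⁻¹ * x * g ∈ a := by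
  change x ∈ MulAut.conj g • (a : Subgroup G) ↔ _
  rw [mem_pointwise_smul_iff_inv_smul_mem]
  simp
  rfl

theorem mem_of_fix {p : ℕ} [Fact p.Prime] {s : G} {b : Sylow p G} (h : ∃ k, orderOf s = p ^ k) (hs : s • b = b) : s ∈ b := by
  have := (isPGroup_zpowers_iff.2 h).inf_normalizer_sylow b
  exact (this.le ⟨mem_zpowers s, Sylow.smul_eq_iff_mem_normalizer.1 hs⟩).2

theorem fix_of_mem {p : ℕ} {s : G} {b : Sylow p G} (hs : s ∈ b) : s • b = b :=
  Sylow.smul_eq_iff_mem_normalizer.2 (le_normalizer (H := (b : Subgroup G)) hs)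

theorem tr_of_cop {p : ℕ} [Fact p.Prime] {Y : Subgroup G} (h : Y.index.Coprime (Nat.card (Sylow p G))) (a b : Sylow p G) :
    ∃ c ∈ Y, c • a = b := by
  obtain ⟨g, rfl⟩ := exists_smul_eq G a b
  rw [a.card_eq_index_normalizer] at h
  obtain ⟨c, hc, n, hn, rfl⟩ := exists_mul_of_coprime_index h g
  exact ⟨c, hc, by rw [mul_smul, Sylow.smul_eq_iff_mem_normalizer.2 hn]⟩

theorem two_or {d : G} (h : IsConj d d⁻¹) : (∃ k, orderOf d = 2 ^ k) ∨ ∃ n, d ^ n ≠ 1 ∧ RP (d ^ n) := by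
  by_cases hd : ∀ r : ℕ, r.Prime → r ∣ orderOf d → r = 2
  · exact .inl ⟨_, Nat.eq_prime_pow_of_unique_prime_dvd (orderOf_pos d).ne' (hd _)⟩
  push Not at hd
  obtain ⟨r, hr, h1, h2⟩ := hd
  have := orderOf_pow_orderOf_div (orderOf_pos d).ne' h1
  exact .inr ⟨_, fun e => hr.one_lt.ne (by rw [← this, e, orderOf_one]), real_pow h _, r, 1, hr, h2, by rw [this, pow_one]⟩

theorem ord2 {z : G} (h : z * z = 1) : ∃ k, orderOf z = 2 ^ k :=
  ((Nat.dvd_prime_pow Nat.prime_two).1 (orderOf_dvd_of_pow_eq_one (n := 2 ^ 1) ((sq z).trans h))).imp fun _ h => h.2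

/-- a central element of order at most two of a Sylow `2`-subgroup -/
def Zc (a : Sylow 2 G) (z : G) : Prop := z ∈ a ∧ z * z = 1 ∧ ∀ s ∈ a, s * z = z * s

theorem Zc.smul {a : Sylow 2 G} {z : G} (h : Zc a z) (g : G) : Zc (g • a) (g * z * g⁻¹) :=
  ⟨mem_smul.2 (by simpa [mul_assoc] using h.1), by
    calc _ = g * (z * z) * g⁻¹ := by group
      _ = _ := by rw [h.2.1]; group, fun s hs => by
    calc _ = g * (g⁻¹ * s * g * z) * g⁻¹ := by group
      _ = _ := by rw [h.2.2 _ (mem_smul.1 hs)]; group⟩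

theorem exists_Zc (h : 2 ∣ Nat.card G) (a : Sylow 2 G) : ∃ z, z ≠ 1 ∧ Zc a z := by
  have : Nontrivial a := (nontrivial_iff_ne_bot _).2 (a.ne_bot_of_dvd_card h)
  have := a.2.center_nontrivial
  obtain ⟨n, hn, e⟩ := (a.2.to_subgroup (center a)).nontrivial_iff_card.1 this
  obtain ⟨z, hz⟩ := exists_prime_orderOf_dvd_card' (G := center a) 2 (e ▸ dvd_pow_self 2 hn.ne')
  refine ⟨z, fun e => ?_, z.1.2, ?_, fun s hs => congrArg Subtype.val (mem_center_iff.1 z.2 ⟨s, hs⟩)⟩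
  · rw [show z = 1 from Subtype.ext (Subtype.ext e), orderOf_one] at hz; omega
  · have := congrArg (fun x : center a => (x : G)) (pow_orderOf_eq_one z)
    simpa [hz, sq] using this

variable [IsSimpleGroup G] (hs : ¬ Group.IsSolvable G)
include hs

theorem faith {g : G} (h : ∀ a : Sylow 2 G, g • a = a) : g = 1 := by
  rcases (toPermHom G (Sylow 2 G)).normal_ker.eq_bot_or_eq_top with e | e
  · exact mem_bot.1 (e ▸ (MonoidHom.mem_ker.2 (Equiv.ext h) : g ∈ (toPermHom G (Sylow 2 G)).ker))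
  · obtain ⟨a⟩ : Nonempty (Sylow 2 G) := inferInstance
    refine absurd (H08.sol_of_normal_sylow a (normalizer_eq_top_iff.1 (eq_top_iff.2 fun x _ => ?_))) hs
    exact Sylow.smul_eq_iff_mem_normalizer.1 (Equiv.congr_fun (MonoidHom.mem_ker.1 (e.ge (mem_top x))) a)

variable (h1 : ∀ y : G, RP y → (cs y).Coprime (Nat.card (Sylow 2 G)))
include h1

theorem F1 {y : G} (hy : RP y) {a : Sylow 2 G} (h : y • a = a) : y = 1 := faith hs fun b => by
  obtain ⟨c, hc, rfl⟩ := tr_of_cop (h1 y hy) a b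
  rw [← mul_smul, ← mem_cent.1 hc, mul_smul, h]

variable (h2 : ∀ {a b c d : Sylow 2 G}, a ≠ b → c ≠ d → ∃ g : G, g • a = c ∧ g • b = d)
include h2

omit hs h1 in
theorem eq_of_le {F : Sylow 2 G → Subgroup G} (hF : ∀ g a x, x ∈ F (g • a) ↔ g⁻¹ * x * g ∈ F a) {a b c d : Sylow 2 G}
    (hab : a ≠ b) (hcd : c ≠ d) (h : F a ⊓ F b ≤ F c ⊓ F d) : F a ⊓ F b = F c ⊓ F d := by
  obtain ⟨g, rfl, rfl⟩ := h2 hab hcd
  refine eq_of_le_of_card_ge h (Nat.card_le_card_of_injective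
    (fun x => ⟨g⁻¹ * x * g, (hF _ _ _).1 x.2.1, (hF _ _ _).1 x.2.2⟩) fun x y e => Subtype.ext ?_)
  simpa using congrArg Subtype.val e

omit hs h1 in
theorem eqQ {a b c d : Sylow 2 G} (hab : a ≠ b) (hcd : c ≠ d) (h : ∀ x ∈ a, x ∈ b → x ∈ c ∧ x ∈ d) {x : G} (hc : x ∈ c)
    (hd : x ∈ d) : x ∈ a ∧ x ∈ b :=
  (eq_of_le h2 (F := fun a => a) (fun _ _ _ => mem_smul) hab hcd fun x hx => h x hx.1 hx.2).ge ⟨hc, hd⟩

theorem exists_out {a b : Sylow 2 G} (hab : a ≠ b) : ∃ z, Zc a z ∧ z ∉ b := by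
  by_contra hn
  push Not at hn
  obtain ⟨z, z1, hz⟩ := exists_Zc (H08.two_dvd_of_not_sol hs) a
  refine z1 (faith hs fun c => fix_of_mem ?_)
  by_cases e : a = c
  · exact e ▸ hz.1
  obtain ⟨g, e1, rfl⟩ := h2 hab e
  have := hz.smul g⁻¹
  rw [inv_smul_eq_iff.2 e1.symm, inv_inv] at this
  exact mem_smul.2 (hn _ this)

theorem claimA {a b : Sylow 2 G} (hab : a ≠ b) {z w h : G} (hz : Zc a z) (zb : z ∉ b) (hw : Zc a w) (wb : w ∉ b)
    (e1 : h • b = b) (e2 : h • w • b = z • b) : h • a = a := by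
  have ne : ∀ {z}, Zc a z → z ∉ b → b ≠ z • b := fun hz zb e => zb (mem_of_fix (ord2 hz.2.1) e.symm)
  have le : ∀ {z}, Zc a z → ∀ x ∈ a, x ∈ b → x ∈ b ∧ x ∈ z • b := fun hz x xa xb =>
    ⟨xb, mem_smul.2 (by rwa [mul_assoc, hz.2.2 x xa, inv_mul_cancel_left])⟩
  have hj := hw.smul h
  have jb : (h * w * h⁻¹) • b = z • b := by rw [mul_smul, mul_smul, inv_smul_eq_iff.2 e1.symm, e2]
  have d1 : (z * (h * w * h⁻¹)) • b = b := by rw [mul_smul, jb, ← mul_smul, hz.2.1, one_smul]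
  have d2 : (z * (h * w * h⁻¹)) • z • b = z • b := by
    rw [mul_smul, ← jb, ← mul_smul (h * w * h⁻¹), hj.2.1, one_smul, jb]
  have r : IsConj (z * (h * w * h⁻¹)) (z * (h * w * h⁻¹))⁻¹ := isConj_iff.2 ⟨z⁻¹, by
    rw [mul_inv_rev z, inv_eq_of_mul_eq_one_right hj.2.1, inv_inv, inv_mul_cancel_left, inv_eq_of_mul_eq_one_right hz.2.1]⟩
  rcases two_or r with h3 | ⟨n, n1, h3⟩
  · have ja : h * w * h⁻¹ ∈ a := (mul_mem_cancel_left hz.1).1
      (eqQ h2 hab (ne hz zb) (le hz) (mem_of_fix h3 d1) (mem_of_fix h3 d2)).1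
    by_contra hn
    refine ne hz zb (jb.symm.trans (fix_of_mem (eqQ h2 hab (Ne.symm hn) (fun x xa xb => ⟨xa, mem_smul.2 ?_⟩) ja hj.1).2)).symm
    refine (eqQ h2 hab (ne hw wb) (le hw) (mem_smul.1 (e1.symm ▸ xb)) (mem_smul.1 (e2.symm ▸ (le hz x xa xb).2))).1
  · exact absurd (F1 hs h1 h3 (mem_stabilizer_iff.1 (pow_mem (mem_stabilizer_iff.2 d1) n))) n1

theorem idx2 {a b : Sylow 2 G} (hab : a ≠ b) {z w : G} (hz : Zc a z) (zb : z ∉ b) (hw : Zc a w) (wb : w ∉ b) : z * w ∈ b := by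
  have ne : ∀ {z}, Zc a z → z ∉ b → b ≠ z • b := fun hz zb e => zb (mem_of_fix (ord2 hz.2.1) e.symm)
  obtain ⟨h, e1, e2⟩ := h2 (ne hw wb) (ne hz zb)
  have := eq_of_le h2 (F := fun a => stabilizer G a) (fun g a x => by
    rw [mem_stabilizer_iff, mem_stabilizer_iff, mul_smul, mul_smul, inv_smul_eq_iff]) (ne hw wb) hab
    fun x hx => ⟨claimA hs h1 h2 hab hw wb hw wb hx.1 hx.2, hx.1⟩
  have e3 : h • w • b = w • b := (this.ge ⟨claimA hs h1 h2 hab hz zb hw wb e1 e2, e1⟩).2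
  refine mem_of_fix (orderOf_of_mem_sylow (mul_mem hz.1 hw.1)) ?_
  rw [mul_smul, ← e3, e2, ← mul_smul, hz.2.1, one_smul]

theorem two_false {a b : Sylow 2 G} (hab : a ≠ b) : False := by
  obtain ⟨z, hz, zb⟩ := exists_out hs h1 h2 hab
  obtain ⟨w, hw, wa⟩ := exists_out hs h1 h2 hab.symm
  have r : z * (z * w) * z⁻¹ = (z * w)⁻¹ := by
    rw [← mul_assoc, hz.2.1, one_mul, mul_inv_rev, inv_eq_of_mul_eq_one_right hw.2.1]
  have cm : ∀ x ∈ a, x ∈ b → Commute x (z * w) := fun x xa xb => Commute.mul_right (hz.2.2 x xa) (hw.2.2 x xb)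
  rcases two_or (isConj_iff.2 ⟨z, r⟩) with ⟨k, h3⟩ | ⟨n, n1, h3⟩
  · obtain ⟨c, hc⟩ := ((H08.isPGroup_two_closure_invols hz.2.1 hw.2.1 (h3 ▸ pow_orderOf_eq_one _)).to_sup_of_normal_right'
      (a.2.to_le (inf_le_left : (a : Subgroup G) ⊓ b ≤ a)) (le_trans ((closure_le _).2 (by
        rintro _ (rfl | rfl) x hx
        exacts [hz.2.2 x hx.1, hw.2.2 x hx.2])) (centralizer_le_normalizer _))).exists_le_sylow
    by_cases e : a = c
    · exact wa (e ▸ hc (mem_sup_left (subset_closure (by simp))))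
    · exact zb (eqQ h2 hab e (fun x xa xb => ⟨xa, hc (mem_sup_right ⟨xa, xb⟩)⟩) hz.1
        (hc (mem_sup_left (subset_closure (by simp))))).2
  have cN : ∀ {x}, Commute x ((z * w) ^ n) → x ∈ normalizer (zpowers ((z * w) ^ n) : Set G) := fun {x} hx =>
    BG.mem_norm_of_cj_le (by rw [BG.cj_zpowers, hx.eq, mul_inv_cancel_right])
  have zN : z ∈ normalizer (zpowers ((z * w) ^ n) : Set G) :=
    BG.mem_norm_of_cj_le (by rw [BG.cj_zpowers, ← conj_pow, r, inv_pow, zpowers_inv])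
  have k : ∀ x, Zc a x → x ∈ normalizer (zpowers ((z * w) ^ n) : Set G) := fun x hx => by
    by_cases xb : x ∈ b
    · exact cN ((cm x hx.1 xb).pow_right n)
    · exact (mul_mem_cancel_left zN).1 (cN ((cm _ (mul_mem hz.1 hx.1) (idx2 hs h1 h2 hab hz zb hx xb)).pow_right n))
  have top : normalClosure {z} = ⊤ := (normalClosure_normal.eq_bot_or_eq_top).resolve_left fun e =>
    zb ((mem_bot.1 (e ▸ subset_normalClosure rfl : z ∈ (⊥ : Subgroup G))) ▸ one_mem _)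
  have nm : (zpowers ((z * w) ^ n)).Normal := normalizer_eq_top_iff.1 (eq_top_iff.2 (top.ge.trans ((closure_le _).2 fun x hx => by
    obtain ⟨_, ⟨⟩, hx'⟩ := Group.mem_conjugatesOfSet_iff.1 hx
    obtain ⟨g, rfl⟩ := isConj_iff.1 hx'
    obtain ⟨c, hc, e⟩ := tr_of_cop (h1 _ h3) (g • a) a
    have := k _ (e ▸ (hz.smul g).smul c)
    have c' := cN (mem_cent.1 hc)
    exact (mul_mem_cancel_left c').1 ((mul_mem_cancel_right (inv_mem c')).1 this))))
  have : IsCyclic G := isCyclic_iff_exists_zpowers_eq_top.2 ⟨_, nm.eq_bot_or_eq_top.resolve_left (by simpa using n1)⟩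
  exact hs (Group.isSolvable_of_comm IsCyclic.isMulCommutative.is_comm.comm)

end H20.RC
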