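import Cfsg.Agent.H20.RC2
import Cfsg.Agent.H27.SylowNum
import Cfsg.Agent.H07.Schur
import Cfsg.Agent.H03.NPC3
import Cfsg.Agent.S0675
import Cfsg.Agent.S0143

/-! Real class sizes III: the solvability criterion `H20.RC.Cond.sol`. -/

set_option autoImplicit false
set_option linter.unusedSectionVars false

open H27 Subgroup MulAction

namespace H20.RC
open _root_.Cfsg

universe u

local instance : Fact (Nat.Prime 2) := ⟨Nat.prime_two⟩

section simple
variable {G : Type*} [Group G] [Finite G] [IsSimpleGroup G] (hs : ¬ Group.IsSolvable G)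
  (h1 : ∀ y : G, RP y → (cs y).Coprime (Nat.card (Sylow 2 G)))
include hs

theorem nontriv : Nontrivial (Sylow 2 G) := by
  by_contra h
  rw [not_nontrivial_iff_subsingleton] at h
  exact hs (H08.sol_of_normal_sylow default (Sylow.normal_of_subsingleton _))

include h1

theorem prime_false (hp : (Nat.card (Sylow 2 G)).Prime) : False := by
  classical
  have := Fintype.ofFinite (Sylow 2 G)
  have := nontriv hs
  obtain ⟨a, b, hab⟩ := exists_pair_ne (Sylow 2 G)
  have : IsPretransitive (toPermHom G (Sylow 2 G)).range (Sylow 2 G) := ⟨fun a b => by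
    obtain ⟨g, hg⟩ := exists_smul_eq G a b
    exact ⟨⟨_, g, rfl⟩, hg⟩⟩
  rcases Cfsg.Agent.S0675.result (by rwa [← Nat.card_eq_fintype_card]) (toPermHom G (Sylow 2 G)).range with h | h
  · refine hs (Group.isSolvable_of_isSolvable_injective (f := (toPermHom G (Sylow 2 G)).rangeRestrict) ?_)
    exact (injective_iff_map_eq_one _).2 fun g hg => faith hs fun a => Equiv.congr_fun (congrArg Subtype.val hg) a
  · refine two_false hs h1 (fun e e' => ?_) hab
    obtain ⟨⟨_, g, rfl⟩, hg⟩ := is_two_pretransitive_iff.1 h e e'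
    exact ⟨g, hg⟩

theorem cyc_false {Y : Subgroup G} (hY : IsCyclic Y) (hc : Y.index.Coprime (Nat.card (Sylow 2 G))) : False := by
  have := nontriv hs
  obtain ⟨a, b, hab⟩ := exists_pair_ne (Sylow 2 G)
  have tr := tr_of_cop hc
  have cm : ∀ x ∈ Y, ∀ y ∈ Y, x * y = y * x := fun x hx y hy =>
    congrArg Subtype.val (hY.isMulCommutative.is_comm.comm (⟨x, hx⟩ : Y) ⟨y, hy⟩)
  have co : IsCoatom (stabilizer G a) := by
    refine ⟨fun e => hab ?_, fun M hM => ?_⟩
    · obtain ⟨g, rfl⟩ := exists_smul_eq G a b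
      exact (mem_stabilizer_iff.1 (e.ge (mem_top g))).symm
    refine (M.normalCore_normal.eq_bot_or_eq_top.elim (fun e => absurd (fun m hm => ?_) hM.not_ge)
      fun e => eq_top_iff.2 (e.ge.trans M.normalCore_le))
    obtain ⟨c, hc, e'⟩ := tr a (m • a)
    have cM : c ∈ M := (mul_mem_cancel_left (inv_mem hm)).1 (hM.le (by rw [mem_stabilizer_iff, mul_smul, e', inv_smul_smul]))
    have : c ∈ M.normalCore := fun g => by
      obtain ⟨d, hd, e'⟩ := tr (g⁻¹ • a) a
      have : g * d⁻¹ ∈ M := hM.le (by rw [mem_stabilizer_iff, mul_smul, inv_smul_eq_iff.2 e'.symm, smul_inv_smul])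
      have e2 : g * c * g⁻¹ = g * d⁻¹ * c * (g * d⁻¹)⁻¹ := by
        rw [mul_assoc g d⁻¹, cm _ (inv_mem hd) c hc]; group
      exact e2 ▸ mul_mem (mul_mem this cM) (inv_mem this)
    rw [e, mem_bot] at this
    rw [mem_stabilizer_iff, ← e', this, one_smul]
  refine two_false hs h1 (is_two_pretransitive_iff.1 (H07.Schur.two_trans
    ((isCoatom_stabilizer_iff_preprimitive G a).1 co) (prime_false hs h1) Y
    ⟨fun a b => (tr a b).elim fun c h => ⟨⟨c, h.1⟩, h.2⟩⟩ fun a => eq_bot_iff.2 fun y hy => Subtype.ext (faith hs fun b => ?_))) hab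
  obtain ⟨c, hc, rfl⟩ := tr a b
  rw [← mul_smul, cm _ y.2 c hc, mul_smul]
  exact congrArg _ hy

theorem not_five (h5 : ¬ 5 ∣ Nat.card (Sylow 2 G)) (h25 : ¬ 5 ^ 2 ∣ Nat.card G) : ¬ 5 ∣ Nat.card G := fun hd => by
  have := Fact.mk Nat.prime_five
  obtain ⟨Q⟩ : Nonempty (Sylow 5 G) := inferInstance
  have hQ : Nat.card Q = 5 := by
    obtain ⟨k, hk⟩ := Q.2.exists_card_eq
    have h0 : k ≠ 0 := fun e => Q.ne_bot_of_dvd_card hd (card_eq_one.1 (by rw [hk, e, pow_zero]))
    have h2 : ¬ 2 ≤ k := fun e => h25 ((pow_dvd_pow 5 e).trans (hk ▸ card_subgroup_dvd_card _))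
    rw [hk, show k = 1 by omega, pow_one]
  have hc : IsCyclic Q := isCyclic_of_prime_card hQ
  obtain ⟨⟨x, hx⟩, x1⟩ := ne_bot_iff_exists_ne_one.1 (Q.ne_bot_of_dvd_card hd)
  obtain ⟨R, N, hN, hR⟩ := H03.hasNPC_of_cyclic_sylow Q hc hx (fun e => x1 (Subtype.ext e)) fun g hg => by
    by_contra hn
    obtain ⟨y, hy, y1, r⟩ := real_of_norm (k := 2) hg (by
      have := pow_card_eq_one' (x := (Q : Subgroup G).normalizerMonoidHom ⟨g, hg⟩)
      rw [hc.card_mulAut, hQ, ← map_pow, ← MonoidHom.mem_ker, normalizerMonoidHom_ker] at this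
      exact this) fun h => hn (h x hx)
    obtain ⟨k, hk⟩ := orderOf_of_mem_sylow hy
    classical
    have := Fintype.ofFinite (Sylow 2 G)
    obtain ⟨a, ha⟩ := Equiv.Perm.exists_fixed_point_of_prime (p := 5) (n := k) (by rwa [← Nat.card_eq_fintype_card])
      (σ := toPermHom G (Sylow 2 G) y) (by rw [← map_pow, ← hk, pow_orderOf_eq_one, map_one])
    exact y1 (F1 hs h1 ⟨r, 5, k, Nat.prime_five, by norm_num, hk⟩ ha)
  rcases hN.eq_bot_or_eq_top with e | e
  · have h3 : (R : Subgroup G) = ⊤ := by simpa [e] using hR.sup_eq_top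
    have := R.2.isNilpotent
    exact hs (Group.isSolvable_of_surjective (f := (R : Subgroup G).subtype) fun g => ⟨⟨g, h3.ge (mem_top g)⟩, rfl⟩)
  · exact R.ne_bot_of_dvd_card hd (by simpa [e] using hR.disjoint)

theorem small_false (hG : Nat.card G ∣ 2 ^ 30 * (3 ^ 4 * (5 * 7 ^ 2))) (h63 : Nat.card (Sylow 2 G) ∣ 63) : False := by
  classical
  have h5 := not_five hs h1 (fun h => by simpa using h.trans h63) fun h => by simpa using h.trans hG
  have := nontriv hs
  obtain ⟨y, g, hy, y2, e⟩ : ∃ x g : G, (orderOf x).Prime ∧ orderOf x ≠ 2 ∧ g * x * g⁻¹ = x⁻¹ := by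
    by_contra hn
    push Not at hn
    exact hs (H08.sol_of_normal_sylow default (H24.sylow_normal_of_no_real hn _))
  have cy := h1 y ⟨isConj_iff.2 ⟨g, e⟩, _, 1, hy, y2, (pow_one _).symm⟩
  have key : 3 ∣ Nat.card (Sylow 2 G) → (7 ∣ Nat.card G → 7 ∣ Nat.card (Sylow 2 G)) → False := fun h3 h7 => by
    have := Cfsg.Agent.S0143.result 2 _ Nat.prime_two y (fun e => by simp [e] at hy; exact Nat.not_prime_one hy)
      (Nat.eq_prime_pow_of_unique_prime_dvd (cs_ne_zero y) fun {r} hr hd => ?_)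
    · have := Fact.mk this
      have : IsCyclic G := isCyclic_of_prime_card rfl
      exact hs (Group.isSolvable_of_comm IsCyclic.isMulCommutative.is_comm.comm)
    have d := hd.trans (cs_dvd_card y)
    have nd : ¬ r ∣ Nat.card (Sylow 2 G) := fun h => hr.one_lt.ne' (Nat.eq_one_of_dvd_coprimes cy hd h)
    rcases (Nat.Prime.dvd_mul hr).1 (d.trans hG) with h | h
    · exact (Nat.prime_dvd_prime_iff_eq hr Nat.prime_two).1 (hr.dvd_of_dvd_pow h)
    rcases (Nat.Prime.dvd_mul hr).1 h with h | h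
    · exact absurd ((Nat.prime_dvd_prime_iff_eq hr Nat.prime_three).1 (hr.dvd_of_dvd_pow h) ▸ h3) nd
    rcases (Nat.Prime.dvd_mul hr).1 h with h | h
    · exact absurd ((Nat.prime_dvd_prime_iff_eq hr Nat.prime_five).1 h ▸ d) h5
    · obtain rfl := (Nat.prime_dvd_prime_iff_eq hr (by norm_num : Nat.Prime 7)).1 (hr.dvd_of_dvd_pow h)
      exact absurd (h7 d) nd
  have h9 : Nat.card (Sylow 2 G) = 9 := by
    have h0 := Finite.one_lt_card (α := Sylow 2 G)
    have h2 := prime_false hs h1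
    have h4 := Nat.le_of_dvd (by norm_num) h63
    generalize Nat.card (Sylow 2 G) = m at *
    interval_cases m <;> first | rfl | omega | exact (key (by decide) fun _ => by decide).elim | exact absurd (by norm_num) h2
  have := Fact.mk (by norm_num : Nat.Prime 7)
  obtain ⟨s, hs7⟩ := exists_prime_orderOf_dvd_card' (G := G) 7 (by_contra fun h => key (by norm_num [h9]) fun h' => absurd h' h)
  have := Fintype.ofFinite (Sylow 2 G)
  obtain ⟨a, ha⟩ := Equiv.Perm.exists_fixed_point_of_prime (p := 7) (n := 1) (by rw [← Nat.card_eq_fintype_card, h9]; norm_num)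
    (σ := toPermHom G (Sylow 2 G) s) (by rw [← map_pow, pow_one, ← hs7, pow_orderOf_eq_one, map_one])
  obtain ⟨b, hb⟩ : ∃ b : Sylow 2 G, s • b ≠ b := by
    by_contra hn
    push Not at hn
    simp [faith hs hn] at hs7
  have ba : b ≠ a := fun e => hb (e ▸ ha)
  have sub : orbit (stabilizer G a) b ⊆ {a}ᶜ := by
    rintro _ ⟨c, rfl⟩ e
    exact ba (smul_left_cancel c.1 (e.trans (mem_stabilizer_iff.1 c.2).symm))
  have c7 : 7 ≤ (orbit (stabilizer G a) b).ncard := by
    have d := index_dvd_card (stabilizer (zpowers s) b)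
    rw [Nat.card_zpowers, hs7, index_stabilizer] at d
    rcases (Nat.dvd_prime Fact.out).1 d with d | d
    · obtain ⟨c, hc⟩ := Set.ncard_eq_one.1 d
      exact absurd ((hc.le (mem_orbit b ⟨s, mem_zpowers s⟩)).trans (hc.le (mem_orbit_self b)).symm) hb
    · exact d.ge.trans (Set.ncard_le_ncard (by
        rintro _ ⟨c, rfl⟩
        exact ⟨⟨c, zpowers_le.2 (mem_stabilizer_iff.2 ha) c.2⟩, rfl⟩))
  have c8 : ({a}ᶜ : Set (Sylow 2 G)).ncard = 8 := by rw [Set.ncard_compl, Set.ncard_singleton, h9]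
  have ev : ¬ Odd (orbit (stabilizer G a) b).ncard := fun ho => by
    have hle : (a : Subgroup G) ≤ stabilizer G a := fun x hx => fix_of_mem hx
    let act : MulAction a (orbit (stabilizer G a) b) := MulAction.compHom _ (inclusion hle)
    obtain ⟨c, hc⟩ := a.2.nonempty_fixed_point_of_prime_not_dvd_card (orbit (stabilizer G a) b)
      (by rw [Nat.card_coe_set_eq]; exact ho.not_two_dvd_nat)
    refine sub c.2 (Sylow.ext (a.3 c.1.2 fun x hx => mem_of_fix (orderOf_of_mem_sylow hx) ?_))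
    exact congrArg Subtype.val (hc ⟨x, hx⟩)
  have all : orbit (stabilizer G a) b = {a}ᶜ := Set.eq_of_subset_of_ncard_le sub (by
    have := Set.ncard_le_ncard sub
    rw [Nat.odd_iff] at ev
    omega)
  refine two_false hs h1 (fun {p q r t} e e' => ?_) ba
  obtain ⟨g, rfl⟩ := exists_smul_eq G a p
  obtain ⟨g', rfl⟩ := exists_smul_eq G a r
  obtain ⟨c, hc⟩ : g⁻¹ • q ∈ orbit (stabilizer G a) b := all.ge fun h => e (inv_smul_eq_iff.1 h).symm
  obtain ⟨c', hc'⟩ : g'⁻¹ • t ∈ orbit (stabilizer G a) b := all.ge fun h => e' (inv_smul_eq_iff.1 h).symm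
  refine ⟨g' * (c' * c⁻¹ : stabilizer G a) * g⁻¹, by rw [mul_smul, mul_smul, inv_smul_smul, mem_stabilizer_iff.1 (c' * c⁻¹).2], ?_⟩
  rw [mul_smul, mul_smul, ← hc, ← eq_inv_smul_iff, ← hc']
  exact (mul_smul (c' * c⁻¹) c b).symm.trans (by rw [inv_mul_cancel_right])

end simple

/-- the solvability criterion -/
def Cond (X : Type*) [Group X] [Finite X] : Prop := (∀ y : X, RP y → (cs y).Coprime (Nat.card (Sylow 2 X))) ∧
  ((∃ Y : Subgroup X, IsCyclic Y ∧ Y.index.Coprime (Nat.card (Sylow 2 X))) ∨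
    (Nat.card X ∣ 2 ^ 30 * (3 ^ 4 * (5 * 7 ^ 2)) ∧ Nat.card (Sylow 2 X) ∣ 63))

theorem Cond.sol {X : Type u} [Group X] [Finite X] (h : Cond X) : Group.IsSolvable X := by
  induction hn : Nat.card X using Nat.strong_induction_on generalizing X with
  | _ n ih =>
  by_contra hs
  have : Nontrivial X := not_subsingleton_iff_nontrivial.1 fun _ => hs inferInstance
  by_cases hS : IsSimpleGroup X
  · exact h.2.elim (fun ⟨Y, h2, h3⟩ => cyc_false hs h.1 h2 h3) fun h2 => small_false hs h.1 h2.1 h2.2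
  obtain ⟨K, hK, K1, K2⟩ := exists_normal_of_not_simple hS
  have d1 : Nat.card (Sylow 2 K) ∣ Nat.card (Sylow 2 X) := by
    rw [card_sylow_eq_mul default K _ rfl]
    exact (dvd_mul_left _ _).mul_right _
  have d2 : Nat.card (Sylow 2 (X ⧸ K)) ∣ Nat.card (Sylow 2 X) := card_sylow_eq_quotient_mul (p := 2) default K ▸ dvd_mul_right _ _
  have : Group.IsSolvable K := ih _ (hn ▸ card_top (G := X) ▸ H02.card_lt_of_lt K2.lt_top) ⟨fun y hy => ((h.1 y ⟨K.subtype.map_isConj hy.1, by
      simpa only [orderOf_coe] using hy.2⟩).coprime_dvd_left (cs_coe_dvd K y)).coprime_dvd_right d1,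
    h.2.imp (fun ⟨Y, h2, h3⟩ => ⟨Y.subgroupOf K, isCyclic_of_injective (f := K.subtype.subgroupComap Y)
        fun a b e => Subtype.ext (Subtype.ext (congrArg (fun x : Y => (x : X)) e)),
      (h3.coprime_dvd_left (relIndex_dvd_index_of_normal_right Y K)).coprime_dvd_right d1⟩)
      fun h2 => ⟨(card_subgroup_dvd_card K).trans h2.1, d1.trans h2.2⟩⟩ rfl
  have : Group.IsSolvable (X ⧸ K) := ih _ (hn ▸ H02.card_quotient_lt K1) ⟨fun y hy => by
      obtain ⟨x, rfl, hx⟩ := lift_rp (QuotientGroup.mk'_surjective K) hy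
      exact ((h.1 x hx).coprime_dvd_left (cs_mk_dvd K x)).coprime_dvd_right d2,
    h.2.imp (fun ⟨Y, h2, h3⟩ => ⟨Y.map (QuotientGroup.mk' K), isCyclic_of_surjective _ (MonoidHom.subgroupMap_surjective _ Y),
      (h3.coprime_dvd_left (index_map_dvd Y (QuotientGroup.mk'_surjective K))).coprime_dvd_right d2⟩)
      fun h2 => ⟨(card_quotient_dvd_card K).trans h2.1, d2.trans h2.2⟩⟩ rfl
  exact hs (H02.isSolvable_of_normal_of_quotient K)

end H20.RC
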