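import Mathlib

/-!
Solvable linear groups, general reductions (namespace H20.SL).
* `Inv`, `Irr`, `CR`, `B2` (two vectors whose common stabilizer acts trivially), `Th n`
* `wreath`, `exists_sec` (abelian sections as modules), `gluck` (regular orbits on subsets, odd order)
-/

set_option autoImplicit false
set_option linter.unusedSectionVars false
set_option linter.unusedVariables false

namespace H20.SL
open Classical Finset Subgroup

universe u

section Basic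
variable {A V : Type*} [Group A] [AddCommGroup V] {ρ : Representation ℤ A V} {U W X Y : Submodule ℤ V}

/-- invariant subgroups -/
def Inv (ρ : Representation ℤ A V) (U : Submodule ℤ V) : Prop := ∀ a, ∀ u ∈ U, ρ a u ∈ U
/-- irreducible (or zero) invariant subgroups -/
def Irr (ρ : Representation ℤ A V) (U : Submodule ℤ V) : Prop := Inv ρ U ∧ ∀ W, Inv ρ W → W ≤ U → W = ⊥ ∨ W = U
/-- complete reducibility -/
def CR (ρ : Representation ℤ A V) : Prop := ∀ U, Inv ρ U → ∃ W, Inv ρ W ∧ U ⊓ W = ⊥ ∧ U ⊔ W = ⊤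
/-- a base of size two -/
def B2 (ρ : Representation ℤ A V) (U : Submodule ℤ V) : Prop :=
  ∃ v ∈ U, ∃ w ∈ U, ∀ a, ρ a v = v → ρ a w = w → ∀ u ∈ U, ρ a u = u

theorem mul_app (a b : A) (v : V) : ρ (a * b) v = ρ a (ρ b v) := by rw [map_mul]; rfl
theorem inv_app (a : A) (v : V) : ρ a⁻¹ (ρ a v) = v := by rw [← mul_app, inv_mul_cancel, map_one]; rfl
theorem app_inv (a : A) (v : V) : ρ a (ρ a⁻¹ v) = v := by rw [← mul_app, mul_inv_cancel, map_one]; rfl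
theorem app_inj (a : A) : Function.Injective (ρ a) := Function.LeftInverse.injective (inv_app a)

theorem fix_add (h : X ⊓ Y = ⊥) (hX : Inv ρ X) (hY : Inv ρ Y) {a : A} {x y : V} (hx : x ∈ X) (hy : y ∈ Y)
    (e : ρ a (x + y) = x + y) : ρ a x = x ∧ ρ a y = y := by
  rw [map_add] at e
  have h2 : ρ a x - x ∈ X ⊓ Y := ⟨sub_mem (hX a x hx) hx, by
    rw [show ρ a x - x = y - ρ a y by rw [sub_eq_sub_iff_add_eq_add, e, add_comm]]; exact sub_mem hy (hY a y hy)⟩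
  rw [h, Submodule.mem_bot, sub_eq_zero] at h2
  exact ⟨h2, by rwa [h2, add_right_inj] at e⟩

theorem exists_irr [Finite V] (hU : Inv ρ U) (h0 : U ≠ ⊥) : ∃ X ≤ U, X ≠ ⊥ ∧ Irr ρ X := by
  obtain ⟨X, ⟨h1, h2, h3⟩, h4⟩ := exists_minimal_of_wellFoundedLT (fun X => Inv ρ X ∧ X ≤ U ∧ X ≠ ⊥) ⟨U, hU, le_rfl, h0⟩
  exact ⟨X, h2, h3, h1, fun W a b => or_iff_not_imp_left.2 fun e => le_antisymm b (h4 ⟨a, b.trans h2, e⟩ b)⟩

theorem CR.ind [Finite V] (h : CR ρ) {P : Submodule ℤ V → Prop} (h0 : P ⊥) (h1 : ∀ X, Irr ρ X → X ≠ ⊥ → P X)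
    (h2 : ∀ X Y, X ⊓ Y = ⊥ → Inv ρ X → Inv ρ Y → P X → P Y → P (X ⊔ Y)) (U : Submodule ℤ V) (hU : Inv ρ U) : P U := by
  induction U using WellFoundedLT.induction with
  | ind U ih =>
  by_cases e : U = ⊥
  · exact e ▸ h0
  obtain ⟨X, a, b, c⟩ := exists_irr hU e
  obtain ⟨W, d, f, g⟩ := h X c.1
  have k : X ⊔ (W ⊓ U) = U := by rw [← sup_inf_assoc_of_le _ a, g, top_inf_eq]
  have l : Inv ρ (W ⊓ U) := fun a u hu => ⟨d a u hu.1, hU a u hu.2⟩
  rw [← k]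
  refine h2 _ _ (by rw [← inf_assoc, f, bot_inf_eq]) c.1 l (h1 X c b) (ih _ (lt_of_le_of_ne inf_le_right fun e => b ?_) l)
  rwa [inf_eq_left.2 (a.trans (e.ge.trans inf_le_left))] at f

theorem B2.sup (h : X ⊓ Y = ⊥) (hX : Inv ρ X) (hY : Inv ρ Y) (h1 : B2 ρ X) (h2 : B2 ρ Y) : B2 ρ (X ⊔ Y) := by
  obtain ⟨v, hv, w, hw, h1⟩ := h1
  obtain ⟨v', hv', w', hw', h2⟩ := h2
  refine ⟨_, Submodule.add_mem_sup hv hv', _, Submodule.add_mem_sup hw hw', fun a e e' u hu => ?_⟩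
  obtain ⟨x, hx, y, hy, rfl⟩ := Submodule.mem_sup.1 hu
  obtain ⟨a1, a2⟩ := fix_add h hX hY hv hv' e
  obtain ⟨b1, b2⟩ := fix_add h hX hY hw hw' e'
  rw [map_add, h1 a a1 b1 x hx, h2 a a2 b2 y hy]

theorem CR.b2 [Finite V] (h : CR ρ) (h1 : ∀ X, Irr ρ X → B2 ρ X) : B2 ρ ⊤ :=
  h.ind (P := B2 ρ) ⟨0, zero_mem _, 0, zero_mem _, fun a _ _ u hu => by rw [(Submodule.mem_bot ℤ).1 hu, map_zero]⟩
    (fun X a _ => h1 X a) (fun _ _ => B2.sup) ⊤ fun _ _ _ => trivial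

end Basic

section Wreath
variable {A : Type*} [Group A]

/-- a union of left cosets of `S` whose stabilizer lies in the core of `S` -/
def Gl (S : Subgroup A) : Prop :=
  ∃ Δ : A → Prop, (∀ g, ∀ s ∈ S, Δ (g * s) ↔ Δ g) ∧ ∀ a, (∀ g, Δ (a * g) ↔ Δ g) → ∀ g, g⁻¹ * a * g ∈ S

theorem wreath {X : Type*} [MulAction A X] {T : Subgroup A} (hT : Gl T) {x y : X} (K : Set A)
    (h1 : ∀ t ∈ T, t • x ≠ y) (h2 : ∀ t ∈ T, t • x = x → t ∈ K) (h3 : ∀ t ∈ T, t • y = y → t ∈ K)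
    (h4 : ∀ t ∈ T, ∀ k ∈ K, t⁻¹ * k * t ∈ K) : ∃ F : A ⧸ T → X, (∀ c, F c = c.out • x ∨ F c = c.out • y) ∧
      ∀ a : A, (∀ c, a • F c = F (a • c)) → ∀ g, g⁻¹ * a * g ∈ K := by
  obtain ⟨Δ, d1, d2⟩ := hT
  have e0 : ∀ g : A, Δ (g : A ⧸ T).out ↔ Δ g := fun g => by
    obtain ⟨t, ht⟩ := QuotientGroup.mk_out_eq_mul T g
    rw [ht, d1 _ _ t.2]
  refine ⟨fun c => c.out • if Δ c.out then x else y, fun c => by beta_reduce; split_ifs <;> simp, fun a ha => ?_⟩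
  have e1 : ∀ c : A ⧸ T, (a • c).out⁻¹ * (a * c.out) ∈ T := fun c =>
    QuotientGroup.eq.1 (by rw [QuotientGroup.out_eq', ← smul_eq_mul, MulAction.Quotient.mk_smul_out])
  have e2 : ∀ c : A ⧸ T, ((a • c).out⁻¹ * (a * c.out)) • (if Δ c.out then x else y) = if Δ (a • c).out then x else y :=
    fun c => by rw [mul_smul, mul_smul, ha c, inv_smul_smul]
  have e3 := d2 a fun g => by
    have := e2 g
    rw [← e0 g, ← e0 (a * g)]
    change Δ (a • (g : A ⧸ T)).out ↔ _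
    split_ifs at this with b1 b2 b2
    · exact iff_of_true b2 b1
    · exact absurd this (h1 _ (e1 _))
    · exact absurd (by rw [← this, inv_smul_smul]) (h1 _ (inv_mem (e1 (g : A ⧸ T))))
    · exact iff_of_false b2 b1
  intro g
  obtain ⟨t, ht⟩ := QuotientGroup.mk_out_eq_mul T g
  have e4 : a • (g : A ⧸ T) = g := QuotientGroup.eq.2 (by simpa [mul_assoc] using inv_mem (e3 g))
  have e5 := e2 g
  have e6 := e1 g
  rw [e4] at e5 e6
  have e7 : (g : A ⧸ T).out⁻¹ * (a * (g : A ⧸ T).out) ∈ K := by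
    split_ifs at e5
    exacts [h2 _ e6 e5, h3 _ e6 e5]
  have := h4 _ (inv_mem t.2) _ e7
  rw [ht] at this
  convert this using 1; group

theorem smul_eq_of_sq {X : Type*} [MulAction A X] {a : A} (h : Odd (orderOf a)) {x : X} (e : a • a • x = x) : a • x = x := by
  obtain ⟨k, hk⟩ := h
  have : ∀ n : ℕ, a ^ (2 * n) • x = x := fun n => by
    induction n with
    | zero => simp
    | succ n ih => rw [mul_add, pow_add, mul_smul, mul_one, sq, mul_smul a a, e, ih]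
  conv_lhs => rw [← this k]
  rw [← mul_smul, ← pow_succ', ← hk, pow_orderOf_eq_one, one_smul]

theorem three {X : Type*} [MulAction A X] {a : A} (h : Odd (orderOf a)) {x y z : X} (hx : a • x = x ∨ a • x = y ∨ a • x = z)
    (hy : a • y = x ∨ a • y = y ∨ a • y = z) (hz : a • z = x ∨ a • z = y ∨ a • z = z) :
    (a • x = x ∧ a • y = y ∧ a • z = z) ∨ (a • x = y ∧ a • z = x) ∨ (a • y = x ∧ a • x = z) := by
  have h1 : ∀ u v : X, a • u = v → a • v = u → u = v := fun u v e e' => by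
    rw [← e, smul_eq_of_sq h (by rw [e, e'])]
  have h2 : ∀ u v : X, a • u = a • v → u = v := fun u v e => MulAction.injective a e
  rcases hx with hx | hx | hx <;> rcases hy with hy | hy | hy <;> rcases hz with hz | hz | hz <;> grind

theorem exists_ab [Finite A] [Group.IsSolvable A] (Z D : Subgroup A) (hD : D.Normal) (h : ¬ D ≤ Z) :
    ∃ M ≤ D, M.Normal ∧ ¬ M ≤ Z ∧ ⁅M, M⁆ ≤ Z := by
  induction D using WellFoundedLT.induction with
  | ind D ih =>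
  by_cases e : ⁅D, D⁆ ≤ Z
  · exact ⟨D, le_rfl, hD, h, e⟩
  have l := Group.IsSolvable.commutator_lt_of_ne_bot (H := D) fun e => h (e ▸ bot_le)
  obtain ⟨M, a, b⟩ := ih _ l inferInstance e
  exact ⟨M, a.trans l.le, b⟩

end Wreath

variable {A : Type u} [Group A] [Finite A]

/-- `M` is the abelian section `N / N ∩ Z` -/
structure Sec (N Z : Subgroup A) [N.Normal] {M : Type u} [AddCommGroup M] (σ : Representation ℤ A M) (π : A → M) : Prop where
  mul : ∀ x ∈ N, ∀ y ∈ N, π (x * y) = π x + π y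
  ker : ∀ x ∈ N, π x = 0 ↔ x ∈ Z
  surj : ∀ m, ∃ x ∈ N, π x = m
  conj : ∀ a, ∀ x ∈ N, σ a (π x) = π (a * x * a⁻¹)
  card : Nat.card M = Z.relIndex N

theorem exists_sec (N Z : Subgroup A) [N.Normal] [Z.Normal] (h : ⁅N, N⁆ ≤ Z) :
    ∃ (M : Type u) (_ : AddCommGroup M) (_ : Finite M) (σ : Representation ℤ A M) (π : A → M), Sec N Z σ π := by
  have : (N.map (QuotientGroup.mk' Z)).Normal := Normal.map ‹_› _ (QuotientGroup.mk'_surjective Z)
  let _ : CommGroup (N.map (QuotientGroup.mk' Z)) := { (inferInstance : Group _) with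
    mul_comm := by
      rintro ⟨_, x, hx, rfl⟩ ⟨_, y, hy, rfl⟩
      refine Subtype.ext (QuotientGroup.eq.2 ?_)
      simpa [commutatorElement_def, mul_assoc] using h (commutator_mem_commutator (inv_mem hy) (inv_mem hx)) }
  let _ := MulDistribMulAction.compHom (N.map (QuotientGroup.mk' Z)) ((MulAut.conjNormal (H := N.map (QuotientGroup.mk' Z))).comp (QuotientGroup.mk' Z))
  have e : ∀ x (hx : x ∈ N), (if h : x ∈ N then Additive.ofMul (⟨x, mem_map_of_mem _ h⟩ : N.map (QuotientGroup.mk' Z))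
    else 0) = Additive.ofMul ⟨x, mem_map_of_mem _ hx⟩ := fun x hx => dif_pos hx
  refine ⟨Additive (N.map (QuotientGroup.mk' Z)), inferInstance, inferInstance, Representation.ofMulDistribMulAction A _,
    fun x => if h : x ∈ N then Additive.ofMul ⟨x, mem_map_of_mem _ h⟩ else 0, fun x hx y hy => ?_, fun x hx => ?_,
    ?_, fun a x hx => ?_, ?_⟩
  · rw [e _ (mul_mem hx hy), e _ hx, e _ hy]; rfl
  · rw [e _ hx]; exact Subtype.ext_iff.trans (QuotientGroup.eq_one_iff x)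
  · rintro ⟨_, x, hx, rfl⟩; exact ⟨x, hx, e _ hx⟩
  · rw [e _ hx, e _ (‹N.Normal›.conj_mem _ hx a)]; rfl
  · exact (relIndex_ker _ (QuotientGroup.mk' Z)).symm.trans (by rw [QuotientGroup.ker_mk'])

namespace Sec
variable {N Z : Subgroup A} [hN : N.Normal] {M : Type u} [AddCommGroup M] {σ : Representation ℤ A M} {π : A → M}
  (h : Sec N Z σ π)
include h

theorem one : π 1 = 0 := (h.ker 1 (one_mem _)).2 (one_mem _)

theorem inv {x : A} (hx : x ∈ N) : π x⁻¹ = -π x :=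
  eq_neg_of_add_eq_zero_left (by rw [← h.mul _ (inv_mem hx) _ hx, inv_mul_cancel, h.one])

theorem eq_iff {x y : A} (hx : x ∈ N) (hy : y ∈ N) : π x = π y ↔ x⁻¹ * y ∈ Z := by
  rw [← h.ker _ (mul_mem (inv_mem hx) hy), h.mul _ (inv_mem hx) _ hy, h.inv hx, neg_add_eq_zero]

/-- preimage of a submodule -/
def pre (U : Submodule ℤ M) : Subgroup A where
  carrier := {x | x ∈ N ∧ π x ∈ U}
  mul_mem' a b := ⟨mul_mem a.1 b.1, by rw [h.mul _ a.1 _ b.1]; exact add_mem a.2 b.2⟩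
  one_mem' := ⟨one_mem _, by rw [h.one]; exact zero_mem _⟩
  inv_mem' a := ⟨inv_mem a.1, by rw [h.inv a.1]; exact neg_mem a.2⟩

theorem pre_normal {U : Submodule ℤ M} (hU : Inv σ U) : (h.pre U).Normal :=
  ⟨fun x hx a => ⟨hN.conj_mem _ hx.1 a, by rw [← h.conj a x hx.1]; exact hU a _ hx.2⟩⟩

end Sec

/-- the affine structure of a primitive solvable group -/
theorem exists_affine [Group.IsSolvable A] {S : Subgroup A} (hS : IsCoatom S) :
    ∃ (N : Subgroup A) (_ : N.Normal) (M : Type u) (_ : AddCommGroup M) (_ : Finite M) (σ : Representation ℤ A M) (π : A → M),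
      Sec N S.normalCore σ π ∧ Irr σ ⊤ ∧ Nat.card M ≤ S.index ∧ (∀ x ∈ N, x ∈ S → π x = 0) ∧ ∀ g, ∃ x ∈ N, x⁻¹ * g ∈ S := by
  obtain ⟨N, -, hN, h1, h2⟩ := exists_ab S.normalCore ⊤ inferInstance fun e => hS.1 (top_le_iff.1 (e.trans S.normalCore_le))
  obtain ⟨M, _, _, σ, π, h⟩ := exists_sec N _ h2
  have h3 : ∀ L : Subgroup A, L.Normal → ¬ L ≤ S.normalCore → ∀ g, ∃ x ∈ L, x⁻¹ * g ∈ S := fun L hL e g => by
    have : L ⊔ S = ⊤ := hS.2 _ (right_lt_sup.2 fun e' => e (normal_le_normalCore.2 e'))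
    obtain ⟨x, hx, s, hs, rfl⟩ := mem_sup_of_normal_left.1 (this.ge (mem_top g))
    exact ⟨x, hx, by simpa using hs⟩
  have h4 : ∀ x ∈ N, x ∈ S → x ∈ S.normalCore := fun x hx hs g => by
    obtain ⟨y, hy, hg⟩ := h3 N hN h1 g⁻¹
    have := mul_mem (mul_mem (inv_mem hg) (mul_mem (S.normalCore_le (h2 (commutator_mem_commutator (inv_mem hy) hx))) hs)) hg
    convert this using 1
    simp [commutatorElement_def, mul_assoc]
  refine ⟨N, hN, M, _, ‹_›, σ, π, h, ⟨fun _ _ _ => trivial, fun U hU _ => ?_⟩, ?_,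
    fun x a b => (h.ker x a).2 (h4 x a b), h3 N hN h1⟩
  · by_cases e : h.pre U ≤ S.normalCore
    · refine .inl (eq_bot_iff.2 fun m hm => ?_)
      obtain ⟨x, hx, rfl⟩ := h.surj m
      exact (h.ker x hx).2 (e ⟨hx, hm⟩)
    · refine .inr (eq_top_iff.2 fun m _ => ?_)
      obtain ⟨x, hx, rfl⟩ := h.surj m
      obtain ⟨y, hy, e'⟩ := h3 _ (h.pre_normal hU) e x
      rw [← (h.eq_iff hy.1 hx).2 (h4 _ (mul_mem (inv_mem hy.1) hx) e')]
      exact hy.2
  · rw [h.card, ← inf_relIndex_right, show S.normalCore ⊓ N = S ⊓ N from le_antisymm (inf_le_inf_right _ S.normalCore_le)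
      fun x hx => ⟨h4 x hx.2 hx.1, hx.2⟩, inf_relIndex_right, ← relIndex_top_right]
    exact relIndex_le_of_le_right le_top (by rw [relIndex_top_right]; exact index_ne_zero_of_finite)

/-- the base two theorem for irreducible modules of order less than `n` -/
def Th (n : ℕ) : Prop := ∀ (A V : Type u) [Group A] [Finite A] [Group.IsSolvable A] [AddCommGroup V] [Finite V]
  (ρ : Representation ℤ A V) (U : Submodule ℤ V), Odd (Nat.card A) → Nat.card U < n → Irr ρ U → B2 ρ U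

theorem odd_orderOf (h : Odd (Nat.card A)) (a : A) : Odd (orderOf a) := h.of_dvd_nat (orderOf_dvd_natCard a)

theorem gl_coatom {n : ℕ} (ih : Th.{u} n) [Group.IsSolvable A] (ho : Odd (Nat.card A)) {S : Subgroup A} (hS : IsCoatom S)
    (hn : S.index < n) : Gl S := by
  obtain ⟨N, hN, M, _, _, σ, π, h, h1, h2, h3, h4⟩ := exists_affine hS
  obtain ⟨v, -, w, -, h5⟩ := ih A M σ ⊤ ho (((Nat.card_congr Submodule.topEquiv.toEquiv).trans_le h2).trans_lt hn) h1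
  obtain ⟨x, hx, rfl⟩ := h.surj v
  have k1 : ∀ s ∈ S, ∀ y ∈ N, ∀ y' ∈ N, s • (y : A ⧸ S) = y' ↔ σ s (π y) = π y' := fun s hs y hy y' hy' => by
    have e := hN.conj_mem _ hy s
    rw [h.conj _ _ hy, h.eq_iff e hy', MulAction.Quotient.smul_mk, QuotientGroup.eq]
    refine ⟨fun a => (h.ker _ (mul_mem (inv_mem e) hy')).1 (h3 _ (mul_mem (inv_mem e) hy') ?_), fun a => ?_⟩
    · simpa [mul_assoc] using mul_mem hs a
    · simpa [mul_assoc] using mul_mem (inv_mem hs) (S.normalCore_le a)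
  have k2 : ∀ y ∈ N, (∀ a, σ a (π x) = π x → σ a (π y) = π y → ∀ m, σ a m = m) →
      Gl S ∨ (π x ≠ 0 ∧ ∃ s, σ s (π y) = -π x) := fun y hy k => or_iff_not_imp_right.2 fun e => by
    refine ⟨fun g => (g : A ⧸ S) = (1 : A) ∨ (g : A ⧸ S) = x ∨ (g : A ⧸ S) = y, fun g s hs => by
      simp only [QuotientGroup.mk_mul_of_mem _ hs], fun a ha => ?_⟩
    have k3 : ∀ a : A, a • ((1 : A) : A ⧸ S) = x → a • (y : A ⧸ S) = (1 : A) → (x : A ⧸ S) = (1 : A) ∧ (y : A ⧸ S) = (1 : A) :=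
      fun a a1 a2 => by
        have b1 : x⁻¹ * a ∈ S := by simpa using QuotientGroup.eq.1 a1.symm
        have b2 := (k1 _ b1 y hy _ (inv_mem hx)).1 (by rw [mul_smul, a2]; simp)
        have b3 : (x : A ⧸ S) = (1 : A) := by
          by_contra b
          refine e ⟨fun b' => b (QuotientGroup.eq.2 ?_), _, b2.trans (h.inv hx)⟩
          simpa using S.normalCore_le ((h.ker x hx).1 b')
        exact ⟨b3, MulAction.injective a (a2.trans (b3.symm.trans a1.symm))⟩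
    have k4 : a • ((1 : A) : A ⧸ S) = (1 : A) ∧ a • (x : A ⧸ S) = x ∧ a • (y : A ⧸ S) = y := by
      rcases three (x := ((1 : A) : A ⧸ S)) (y := x) (z := y) (odd_orderOf ho a) ((ha 1).2 (.inl rfl)) ((ha x).2 (.inr (.inl rfl))) ((ha y).2 (.inr (.inr rfl)))
        with b | ⟨b, c⟩ | ⟨b, c⟩
      · exact b
      · obtain ⟨d, f⟩ := k3 a b c
        rw [d, f]; rw [d] at b; exact ⟨b, b, b⟩
      · obtain ⟨d, f⟩ := k3 a⁻¹ (inv_smul_eq_iff.2 b.symm) (inv_smul_eq_iff.2 c.symm)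
        rw [d, f]; rw [d] at b; exact ⟨b, b, b⟩
    have k5 : a ∈ S := by simpa using QuotientGroup.eq.1 k4.1.symm
    intro g
    obtain ⟨z, hz, e'⟩ := h4 g
    have := QuotientGroup.eq.1 ((k1 a k5 z hz z hz).2 (k a ((k1 a k5 x hx x hx).1 k4.2.1) ((k1 a k5 y hy y hy).1 k4.2.2) _))
    simpa [mul_assoc] using mul_mem (mul_mem (inv_mem e') (inv_mem this)) e'
  obtain ⟨y, hy, rfl⟩ := h.surj w
  rcases k2 y hy (fun a b c m => h5 a b c m trivial) with k | ⟨k, s, hs⟩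
  · exact k
  rcases k2 _ (inv_mem hy) (fun a b c m => h5 a b (by rwa [h.inv hy, map_neg, neg_inj] at c) m trivial) with k | ⟨-, t, ht⟩
  · exact k
  rw [h.inv hy, map_neg, neg_inj] at ht
  let _ : MulAction A M := MulAction.compHom M (σ : A →* Module.End ℤ M)
  have k6 : σ (s * t⁻¹) (π x) = -π x := by rw [mul_app, ← hs, ← ht, inv_app]
  have k7 : σ (s * t⁻¹) (π x) = π x := smul_eq_of_sq (odd_orderOf ho _) (show σ _ (σ _ _) = _ by rw [k6, map_neg, k6, neg_neg])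
  have k8 : Odd (addOrderOf (π x)) := by
    refine (ho.of_dvd_nat ?_).of_dvd_nat (addOrderOf_dvd_natCard _)
    rw [h.card]
    exact (index_dvd_card _).trans (card_subgroup_dvd_card N)
  exact absurd (AddMonoid.addOrderOf_eq_one_iff.1 (Nat.eq_one_of_dvd_coprimes (Nat.coprime_two_right.2 k8) dvd_rfl
    (addOrderOf_dvd_of_nsmul_eq_zero (by rw [two_nsmul]; exact add_eq_zero_iff_eq_neg.2 (k7.symm.trans k6))))) k

theorem gluck {n : ℕ} (ih : Th.{u} n) [Group.IsSolvable A] (ho : Odd (Nat.card A)) (S : Subgroup A) (hn : S.index < n) : Gl S := by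
  induction hA : Nat.card A using Nat.strong_induction_on generalizing A with
  | _ m IH =>
  rcases eq_top_or_exists_le_coatom S with rfl | ⟨T, hT, hle⟩
  · exact ⟨fun _ => True, fun _ _ _ => Iff.rfl, fun _ _ _ => trivial⟩
  have h1 := relIndex_mul_index hle
  have h2 := S.index_ne_zero_of_finite
  obtain ⟨Δ, d1, d2⟩ := IH _ (hA ▸ lt_of_le_of_ne (Finite.card_subtype_le _)
    fun e => hT.1 (eq_top_of_card_eq T e)) (ho.of_dvd_nat (card_subgroup_dvd_card T)) (S.subgroupOf T)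
    ((Nat.le_of_dvd (Nat.pos_of_ne_zero h2) (Dvd.intro _ h1)).trans_lt hn) rfl
  let _ : MulAction A (A → Prop) := arrowAction
  have e : ∀ (a : A) (D : A → Prop) g, (a • D) g = D (a⁻¹ * g) := fun _ _ _ => rfl
  have k : ∀ (t : T) (D : T → Prop), ((t : A) • fun g => ∃ h : g ∈ T, D ⟨g, h⟩) = fun g => ∃ h : g ∈ T, D (t⁻¹ * ⟨g, h⟩) :=
    fun t D => funext fun g => propext ⟨fun ⟨a, b⟩ => ⟨(T.mul_mem_cancel_left (inv_mem t.2)).1 a, b⟩,
      fun ⟨a, b⟩ => ⟨mul_mem (inv_mem t.2) a, b⟩⟩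
  have k' : ∀ D D' : T → Prop, ((fun g => ∃ h : g ∈ T, D ⟨g, h⟩) = fun g => ∃ h : g ∈ T, D' ⟨g, h⟩) → ∀ g, D g ↔ D' g :=
    fun D D' e g => by simpa using congrFun e g
  have l : ∀ t : T, (∀ g, Δ (t⁻¹ * g) ↔ Δ g) → (t : A) ∈ {a : A | ∀ g ∈ T, g⁻¹ * a * g ∈ S} := fun t ht g hg => by
    simpa [mul_assoc] using inv_mem (mem_subgroupOf.1 (d2 _ ht ⟨g, hg⟩))
  obtain ⟨F, f1, f2⟩ := wreath (gl_coatom ih ho hT ((Nat.le_of_dvd (Nat.pos_of_ne_zero h2) (Dvd.intro_left _ h1)).trans_lt hn))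
    (x := fun g => ∃ h : g ∈ T, Δ ⟨g, h⟩) (y := fun g => ∃ h : g ∈ T, ¬ Δ ⟨g, h⟩) {a | ∀ g ∈ T, g⁻¹ * a * g ∈ S}
    (fun t ht b => by
      have b1 := k' (fun g => Δ (⟨t, ht⟩⁻¹ * g)) (fun g => ¬ Δ g) ((k ⟨t, ht⟩ Δ).symm.trans b)
      have b2 := k' (fun g => Δ (⟨t, ht⟩⁻¹ * g)) Δ ((k ⟨t, ht⟩ Δ).symm.trans (smul_eq_of_sq (odd_orderOf ho t) (by
        rw [b, k ⟨t, ht⟩ fun g => ¬ Δ g]; simp only [b1, not_not])))
      exact iff_not_self ((b2 1).symm.trans (b1 1)))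
    (fun t ht b => l ⟨t, ht⟩ (k' (fun g => Δ (⟨t, ht⟩⁻¹ * g)) Δ ((k ⟨t, ht⟩ Δ).symm.trans b)))
    (fun t ht b => l ⟨t, ht⟩ fun g => not_iff_not.1 (k' (fun g => ¬ Δ (⟨t, ht⟩⁻¹ * g)) (fun g => ¬ Δ g)
      ((k ⟨t, ht⟩ fun g => ¬ Δ g).symm.trans b) g))
    fun t ht a ha g hg => by simpa [mul_assoc] using ha _ (mul_mem ht hg)
  have f3 : ∀ c g, F c g → (g : A ⧸ T) = c := fun c g b => by
    rw [← c.out_eq', eq_comm, QuotientGroup.eq]
    rcases f1 c with b' | b' <;> rw [b', e] at b <;> exact b.1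
  refine ⟨fun g => F g g, fun g s hs => ?_, fun a ha g => ?_⟩
  · beta_reduce
    rw [QuotientGroup.mk_mul_of_mem _ (hle hs)]
    have : ∀ u : A, (∃ h : u * s ∈ T, Δ ⟨u * s, h⟩) ↔ ∃ h : u ∈ T, Δ ⟨u, h⟩ := fun u =>
      ⟨fun ⟨a, b⟩ => ⟨(T.mul_mem_cancel_right (hle hs)).1 a, (d1 _ ⟨s, hle hs⟩ hs).1 b⟩,
        fun ⟨a, b⟩ => ⟨mul_mem a (hle hs), (d1 _ ⟨s, hle hs⟩ hs).2 b⟩⟩
    have this' : ∀ u : A, (∃ h : u * s ∈ T, ¬ Δ ⟨u * s, h⟩) ↔ ∃ h : u ∈ T, ¬ Δ ⟨u, h⟩ := fun u =>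
      ⟨fun ⟨a, b⟩ => ⟨(T.mul_mem_cancel_right (hle hs)).1 a, fun c => b ((d1 _ ⟨s, hle hs⟩ hs).2 c)⟩,
        fun ⟨a, b⟩ => ⟨mul_mem a (hle hs), fun c => b ((d1 _ ⟨s, hle hs⟩ hs).1 c)⟩⟩
    rcases f1 g with b | b <;> rw [b, e, e, ← mul_assoc]
    exacts [this _, this' _]
  · refine (by simp : 1⁻¹ * (g⁻¹ * a * g) * 1 = g⁻¹ * a * g) ▸
      f2 a (fun c => funext fun u => propext ⟨fun b => ?_, fun b => ?_⟩) g 1 (one_mem T)
    · have b1 := f3 _ _ b
      have b2 := (ha (a⁻¹ * u)).2 (show F _ _ from b1.symm ▸ b)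
      rw [← b1]
      simpa using b2
    · have b1 := f3 _ _ b
      have b2 := (ha (a⁻¹ * u)).1 (by simpa [b1] using b)
      have b3 : ((a⁻¹ * u : A) : A ⧸ T) = c := by
        rw [← smul_eq_mul, ← MulAction.Quotient.smul_mk, b1, inv_smul_smul]
      rw [e, ← b3]; exact b2

end H20.SL
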