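import Mathlib
import Cfsg.Agent.H20.SL1

/-!
Solvable linear groups (namespace H20.SL): systems of imprimitivity (`Imp`, `dich`, `Imp.b2`), alternating pairings (`Sy`),
the structure `QP` of a solvable group over a maximal abelian normal subgroup that is cyclic.
-/

set_option autoImplicit false
set_option linter.unusedSectionVars false
set_option linter.unusedVariables false

namespace H20.SL
open Classical Finset Subgroup
open scoped commutatorElement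

universe u

section Imp
variable {A V : Type u} [Group A] [Finite A] [AddCommGroup V] [Finite V] {ρ : Representation ℤ A V}

/-- the translates of `W` by the cosets of `T` are independent -/
structure Imp (ρ : Representation ℤ A V) (T : Subgroup A) (W : Submodule ℤ V) : Prop where
  ne : T ≠ ⊤
  ne' : W ≠ ⊥
  inv : ∀ t ∈ T, ∀ w ∈ W, ρ t w ∈ W
  ind : ∀ (s : Finset (A ⧸ T)) (x : A ⧸ T → V), (∀ c, ρ c.out⁻¹ (x c) ∈ W) → ∑ c ∈ s, x c = 0 → ∀ c ∈ s, x c = 0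

/-- stabilizer of a subspace -/
def stab (ρ : Representation ℤ A V) (W : Submodule ℤ V) : Subgroup A where
  carrier := {g | ∀ w ∈ W, ρ g w ∈ W}
  mul_mem' a b w hw := by rw [mul_app]; exact a _ (b w hw)
  one_mem' w hw := by simpa using hw
  inv_mem' {g} a w hw := by
    have : ∀ n : ℕ, ρ (g ^ n) w ∈ W := fun n => by
      induction n with
      | zero => simpa using hw
      | succ n ih => rw [pow_succ', mul_app]; exact a _ ih
    rw [show g⁻¹ = g ^ (orderOf g - 1) from inv_eq_of_mul_eq_one_right (by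
      rw [← pow_succ', Nat.sub_add_cancel (orderOf_pos g), pow_orderOf_eq_one])]
    exact this _

theorem dich [Nontrivial V] (hi : Irr ρ ⊤) (K : Subring (Module.End ℤ V)) (hc : ∀ a ∈ K, ∀ b ∈ K, a * b = b * a)
    (hn : ∀ g, ∀ a ∈ K, ρ g * a * ρ g⁻¹ ∈ K) : (∃ T W, Imp ρ T W) ∨ ∀ a ∈ K, a ≠ 0 → Function.Injective a := by
  obtain ⟨W, ⟨h0, S, h1, h2⟩, h3⟩ := exists_minimal_of_wellFoundedLT (fun W : Submodule ℤ V => W ≠ ⊥ ∧
    ∃ S : Set (Module.End ℤ V), S ⊆ K ∧ ∀ v, v ∈ W ↔ ∀ a ∈ S, a v = 0) ⟨⊤, top_ne_bot, ∅, by simp, by simp⟩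
  have h4 : ∀ a ∈ K, (∀ w ∈ W, a w = 0) ∨ ∀ w ∈ W, a w = 0 → w = 0 := fun a ha => or_iff_not_imp_right.2 fun e w hw => by
    push Not at e
    obtain ⟨x, a1, a2, a3⟩ := e
    exact (h3 (y := W ⊓ LinearMap.ker a) ⟨fun e => a3 (e.le ⟨a1, a2⟩), insert a S, Set.insert_subset ha h1,
      fun v => by simp [h2, and_comm]⟩ inf_le_left hw).2
  by_cases e : stab ρ W = ⊤
  · obtain rfl := (hi.2 W (fun g => e.ge (mem_top g)) le_top).resolve_left h0
    exact .inr fun a ha h => (injective_iff_map_eq_zero a).2 fun w =>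
      (h4 a ha).resolve_left (fun e => h (LinearMap.ext fun v => e v trivial)) w trivial
  refine .inl ⟨_, W, e, h0, fun t ht => ht, fun s => ?_⟩
  have h5 : ∀ a ∈ K, ∀ g v, ρ g⁻¹ v ∈ W → ρ g⁻¹ (a v) ∈ W := fun a ha g v hv => (h2 _).2 fun b hb => by
    have := LinearMap.congr_fun (hc _ (hn g⁻¹ a ha) b (h1 hb)) (ρ g⁻¹ v)
    simp only [Module.End.mul_apply, inv_inv, app_inv, (h2 _).1 hv b hb, map_zero] at this
    exact this.symm
  have h6 : ∀ c d : A ⧸ stab ρ W, c ≠ d → ∃ a ∈ K, (∀ v, ρ d.out⁻¹ v ∈ W → a v = 0) ∧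
      ∀ v, ρ c.out⁻¹ v ∈ W → a v = 0 → v = 0 := fun c d hcd => by
    obtain ⟨w, hw, e⟩ : ∃ w ∈ W, ρ (d.out⁻¹ * c.out) w ∉ W := by
      by_contra e
      push Not at e
      exact hcd (by rw [← c.out_eq', ← d.out_eq', eq_comm]; exact QuotientGroup.eq.2 e)
    obtain ⟨a, ha, e⟩ : ∃ a ∈ S, a (ρ (d.out⁻¹ * c.out) w) ≠ 0 := by simpa [h2] using e
    refine ⟨_, hn d.out a (h1 ha), fun v hv => by simp [(h2 _).1 hv a ha], fun v hv e' => ?_⟩
    have := (h4 _ (hn (c.out⁻¹ * d.out) a (h1 ha))).resolve_left (fun k => e (app_inj (ρ := ρ) (c.out⁻¹ * d.out) (by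
      simpa using k w hw))) _ hv (by
        simp only [Module.End.mul_apply, mul_inv_rev, inv_inv, mul_app, app_inv] at e' ⊢
        rw [e', map_zero])
    exact app_inj _ (this.trans (map_zero _).symm)
  induction s using Finset.induction_on with
  | empty => simp
  | insert d s hd ih =>
    intro x hx e
    rw [sum_insert hd] at e
    have h7 : ∀ c ∈ s, x c = 0 := fun c hc => by
      obtain ⟨a, ha, a1, a2⟩ := h6 c d fun e => hd (e ▸ hc)
      refine a2 _ (hx c) (ih (fun c => a (x c)) (fun c => h5 a ha _ _ (hx c)) ?_ c hc)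
      simpa [a1 _ (hx d)] using congrArg a e
    rw [sum_eq_zero h7, add_zero] at e
    exact fun c hc => (mem_insert.1 hc).elim (fun k => k ▸ e) (h7 c)

variable {T : Subgroup A} {W : Submodule ℤ V}

theorem Imp.two (h : Imp ρ T W) {c d : A ⧸ T} (hcd : c ≠ d) {y : V} (h1 : ρ c.out⁻¹ y ∈ W) (h2 : ρ d.out⁻¹ y ∈ W) : y = 0 := by
  have := h.ind {c, d} (fun e => if e = c then y else if e = d then -y else 0) (fun e => by
    split_ifs with a b
    · exact a ▸ h1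
    · rw [map_neg]; exact neg_mem (b ▸ h2)
    · simp) (by simp [sum_pair hcd, hcd.symm]) c (by simp)
  simpa using this

theorem Imp.index_lt (h : Imp ρ T W) : T.index < Nat.card V := by
  obtain ⟨w, hw, h0⟩ := W.exists_mem_ne_zero_of_ne_bot h.ne'
  have h1 : ∀ c : A ⧸ T, ρ c.out w ≠ 0 := fun c e => h0 (app_inj _ (e.trans (map_zero _).symm))
  have := Nat.card_le_card_of_injective (fun c : Option (A ⧸ T) => c.elim 0 fun c => ρ c.out w) (by
    rintro (_ | c) (_ | d) e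
    · rfl
    · exact absurd e.symm (h1 d)
    · exact absurd e (h1 c)
    · by_contra k
      exact h1 c (h.two (fun e => k (congrArg some e)) (by rwa [inv_app]) (by
        rw [show ρ c.out w = ρ d.out w from e, inv_app]; exact hw)))
  rwa [Finite.card_option] at this

theorem Imp.card_lt (h : Imp ρ T W) {U : Submodule ℤ V} (hU : U ≤ W) : Nat.card U < Nat.card V := by
  refine lt_of_le_of_ne (Finite.card_subtype_le _) fun e => ?_
  have h1 : W = ⊤ := top_le_iff.1 (le_trans (fun x _ => (AddSubgroup.eq_top_of_card_eq U.toAddSubgroup e).ge trivial) hU)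
  obtain ⟨w, hw, h0⟩ := W.exists_mem_ne_zero_of_ne_bot h.ne'
  obtain ⟨g, hg⟩ := SetLike.exists_of_lt (lt_top_iff_ne_top.2 h.ne)
  exact h0 (h.two (c := g) (d := (1 : A)) (fun e => hg.2 (by simpa using QuotientGroup.eq.1 e)) (h1 ▸ trivial) (h1 ▸ trivial))

/-- gluing regular local data along a system of imprimitivity -/
theorem Imp.glue (h : Imp ρ T W) (hi : Irr ρ ⊤) {U : Submodule ℤ V} (hU : U ≤ W) (h0 : U ≠ ⊥) [Fintype (A ⧸ T)]
    {x : A ⧸ T → V} (hx : ∀ c, ρ c.out⁻¹ (x c) ∈ W) {a : A} (e : ρ a (∑ c, x c) = ∑ c, x c) (c : A ⧸ T) :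
    ρ a (x c) = x (a • c) := by
  have := h.ind univ (fun c => ρ a (x (a⁻¹ • c)) - x c) (fun c => by
    have e1 : c.out⁻¹ * (a * (a⁻¹ • c).out) ∈ T := QuotientGroup.eq.1 (by
      rw [QuotientGroup.out_eq', ← smul_eq_mul, MulAction.Quotient.mk_smul_out, smul_inv_smul])
    rw [map_sub]
    refine sub_mem ?_ (hx c)
    simpa [mul_app, app_inv] using h.inv _ e1 _ (hx (a⁻¹ • c))) (by
      rw [sum_sub_distrib, ← map_sum, Fintype.sum_equiv (MulAction.toPerm a⁻¹) (fun c => x (a⁻¹ • c)) x fun _ => rfl, e, sub_self]) (a • c) (mem_univ _)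
  rwa [inv_smul_smul, sub_eq_zero] at this

theorem Irr.fix_of_conj (hi : Irr ρ ⊤) {U : Submodule ℤ V} (h0 : U ≠ ⊥) {a : A} (h : ∀ g, ∀ u ∈ U, ρ (g⁻¹ * a * g) u = u)
    (v : V) : ρ a v = v := by
  have := (hi.2 (⨅ g, LinearMap.eqLocus (ρ (g⁻¹ * a * g)) LinearMap.id) (fun b u hu => by
    simp only [Submodule.mem_iInf, LinearMap.mem_eqLocus, LinearMap.id_apply] at hu ⊢
    intro g
    simpa [mul_app, app_inv] using congrArg (ρ b) (hu (g * b))) le_top).resolve_left fun e => h0 (eq_bot_iff.2 (e ▸ le_iInf h))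
  simpa using (Submodule.mem_iInf _).1 (this.ge (Submodule.mem_top (x := v))) 1

theorem Imp.b2 [Group.IsSolvable A] (h : Imp ρ T W) (ih : Th.{u} (Nat.card V)) (ho : Odd (Nat.card A)) (hi : Irr ρ ⊤) :
    B2 ρ ⊤ := by
  obtain ⟨U, hU, h0, h1⟩ := exists_irr (ρ := ρ.comp T.subtype) (fun t => h.inv t t.2) h.ne'
  obtain ⟨v, hv, w, hw, hne, h2⟩ : ∃ v ∈ U, ∃ w ∈ U, v ≠ w ∧ ∀ a ∈ T, ρ a v = v → ρ a w = w → ∀ u ∈ U, ρ a u = u := by
    obtain ⟨v, hv, w, hw, h2⟩ := ih T V _ U (ho.of_dvd_nat (card_subgroup_dvd_card T)) (h.card_lt hU) h1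
    obtain ⟨u, hu, u0⟩ := U.exists_mem_ne_zero_of_ne_bot h0
    by_cases e : v = w
    · by_cases e' : v = 0
      · exact ⟨u, hu, 0, zero_mem _, u0, fun a ha _ _ => h2 ⟨a, ha⟩ (by simp [e']) (by simp [← e, e'])⟩
      · exact ⟨v, hv, 0, zero_mem _, e', fun a ha k _ => h2 ⟨a, ha⟩ k (e ▸ k)⟩
    · exact ⟨v, hv, w, hw, e, fun a ha => h2 ⟨a, ha⟩⟩
  let _ : MulAction A V := MulAction.compHom V (ρ : A →* Module.End ℤ V)
  obtain ⟨F, f1, f2⟩ := wreath (gluck ih ho T h.index_lt) (x := (v, w)) (y := (w, v)) {a | ∀ u ∈ U, ρ a u = u}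
    (fun t ht e => hne (congrArg Prod.fst ((smul_eq_of_sq (odd_orderOf ho t) (x := (v, w)) (by
      rw [e]; exact Prod.ext (congrArg Prod.snd e) (congrArg Prod.fst e))).symm.trans e)))
    (fun t ht e => h2 t ht (congrArg Prod.fst e) (congrArg Prod.snd e))
    (fun t ht e => h2 t ht (congrArg Prod.snd e) (congrArg Prod.fst e))
    fun t ht k hk u hu => by rw [mul_app, mul_app, hk (ρ t u) (h1.1 ⟨t, ht⟩ u hu), inv_app]
  have := Fintype.ofFinite (A ⧸ T)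
  have f3 : ∀ c, ρ c.out⁻¹ (F c).1 ∈ W ∧ ρ c.out⁻¹ (F c).2 ∈ W := fun c => by
    have k : ∀ u ∈ U, ρ c.out⁻¹ (ρ c.out u) ∈ W := fun u hu => by rw [inv_app]; exact hU hu
    rcases f1 c with e | e <;> rw [e]
    exacts [⟨k v hv, k w hw⟩, ⟨k w hw, k v hv⟩]
  exact ⟨∑ c, (F c).1, trivial, ∑ c, (F c).2, trivial, fun a a1 a2 u _ => hi.fix_of_conj h0 (f2 a fun c =>
    Prod.ext (h.glue hi hU h0 (fun c => (f3 c).1) a1 c) (h.glue hi hU h0 (fun c => (f3 c).2) a2 c)) u⟩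

end Imp

section Sy
variable {M : Type*} [AddCommGroup M] [Finite M]

theorem add_inj {X Y : Submodule ℤ M} (h : X ⊓ Y = ⊥) : Function.Injective fun p : X × Y => (p.1 : M) + p.2 := fun p q e => by
  have e1 : (p.1 : M) - q.1 ∈ X ⊓ Y := ⟨sub_mem p.1.2 q.1.2, by
    rw [show (p.1 : M) - q.1 = q.2 - p.2 from sub_eq_sub_iff_add_eq_add.2 (e.trans (add_comm _ _))]; exact sub_mem q.2.2 p.2.2⟩
  rw [h, Submodule.mem_bot, sub_eq_zero] at e1
  exact Prod.ext (Subtype.ext e1) (Subtype.ext (by simpa [e1] using e))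

theorem card_mul_le {X Y Z : Submodule ℤ M} (h : X ⊓ Y = ⊥) (h1 : X ≤ Z) (h2 : Y ≤ Z) : Nat.card X * Nat.card Y ≤ Nat.card Z := by
  rw [← Nat.card_prod]
  exact Nat.card_le_card_of_injective (fun p : X × Y => (⟨p.1 + p.2, add_mem (h1 p.1.2) (h2 p.2.2)⟩ : Z))
    fun p q e => add_inj h (congrArg Subtype.val e)

/-- a nondegenerate alternating pairing -/
structure Sy (b : M → AddChar M ℂ) : Prop where
  add : ∀ x x' y, b (x + x') y = b x y * b x' y
  self : ∀ x, b x x = 1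
  nd : ∀ x, (∀ y, b x y = 1) → x = 0

/-- orthogonal complement -/
def perp (b : M → AddChar M ℂ) (U : Submodule ℤ M) : Submodule ℤ M := AddSubgroup.toIntSubmodule
  { carrier := {y | ∀ x ∈ U, b x y = 1}
    add_mem' a c x hx := by rw [AddChar.map_add_eq_mul, a x hx, c x hx, one_mul]
    zero_mem' x _ := AddChar.map_zero_eq_one _
    neg_mem' a x hx := by rw [AddChar.map_neg_eq_inv, a x hx, inv_one] }

theorem mem_perp {b : M → AddChar M ℂ} {U : Submodule ℤ M} {y : M} : y ∈ perp b U ↔ ∀ x ∈ U, b x y = 1 := Iff.rfl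

namespace Sy
variable {b : M → AddChar M ℂ} (h : Sy b)
include h

theorem skew (x y : M) : b x y * b y x = 1 := by
  have := h.self (x + y)
  rwa [h.add, AddChar.map_add_eq_mul, AddChar.map_add_eq_mul, h.self, h.self, one_mul, mul_one] at this

theorem symm {x y : M} (e : b x y = 1) : b y x = 1 := by simpa [e] using h.skew x y

theorem surj : Function.Surjective b := by
  have := Fintype.ofFinite M
  refine ((Fintype.bijective_iff_injective_and_card b).2 ⟨fun x y e => sub_eq_zero.1 (h.nd _ fun z => ?_), AddChar.card_eq.symm⟩).2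
  have := h.add (x - y) y z
  rw [sub_add_cancel, e] at this
  exact (mul_eq_right₀ (left_ne_zero_of_mul_eq_one (h.skew y z))).1 this.symm

theorem card_perp (U : Submodule ℤ M) : Nat.card U * Nat.card (perp b U) = Nat.card M := by
  have := Fintype.ofFinite M
  have h0 : ∀ y, b 0 y = 1 := fun y => h.symm (AddChar.map_zero_eq_one _)
  have h1 : ∑ x : U, ∑ y, b x y = Fintype.card M := by
    rw [Fintype.sum_eq_single 0 fun x hx => AddChar.sum_eq_zero_iff_ne_zero.2 fun e =>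
      hx (Subtype.ext (h.nd _ fun y => by simp [e]))]
    simp [h0]
  have h2 : ∀ y, ∑ x : U, b x y = if y ∈ perp b U then (Fintype.card U : ℂ) else 0 := fun y => by
    refine (AddChar.sum_eq_ite (⟨fun x : U => b x y, h0 y, fun x x' => h.add _ _ _⟩ : AddChar U ℂ)).trans (if_congr ?_ rfl rfl)
    exact ⟨fun e x hx => DFunLike.congr_fun e ⟨x, hx⟩, fun e => AddChar.ext _ _ fun x => e x x.2⟩
  rw [sum_comm, sum_congr rfl fun y _ => h2 y, ← sum_filter, sum_const, nsmul_eq_mul, ← Fintype.card_subtype] at h1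
  rw [Nat.card_eq_fintype_card, Nat.card_eq_fintype_card, Nat.card_eq_fintype_card, mul_comm]
  exact_mod_cast h1

theorem exists_sq : ∃ e, Nat.card M = e ^ 2 := by
  obtain ⟨U, h1, h2⟩ := exists_maximal_of_wellFoundedGT (fun U => U ≤ perp b U) ⟨⊥, bot_le⟩
  refine ⟨Nat.card U, ?_⟩
  rw [← h.card_perp U, sq, le_antisymm (fun y hy => h2 (y := U ⊔ ℤ ∙ y) ?_ le_sup_left
    (Submodule.mem_sup_right (Submodule.mem_span_singleton_self y))) h1]
  have k : ∀ x, x ∈ perp b (U ⊔ ℤ ∙ y) ↔ (∀ u ∈ U, b x u = 1) ∧ b x y = 1 := fun x =>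
    ⟨fun e => ⟨fun u hu => h.symm (e u (Submodule.mem_sup_left hu)), h.symm (e y (Submodule.mem_sup_right
      (Submodule.mem_span_singleton_self y)))⟩, fun e z hz => by
        obtain ⟨u, hu, _, hw, rfl⟩ := Submodule.mem_sup.1 hz
        obtain ⟨n, rfl⟩ := Submodule.mem_span_singleton.1 hw
        exact h.symm (by rw [AddChar.map_add_eq_mul, e.1 u hu, AddChar.map_zsmul_eq_zpow, e.2]; simp)⟩
  exact sup_le (fun x hx => (k x).2 ⟨fun u hu => h1 hu x hx, hy x hx⟩)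
    ((Submodule.span_singleton_le_iff_mem _ _).2 ((k y).2 ⟨fun u hu => h.symm (hy u hu), h.self y⟩))

end Sy
end Sy

section QP
variable {A : Type u} [Group A] [Finite A]

/-- `Z` is a maximal abelian normal subgroup and cyclic, `N / Z` is a maximal abelian normal subgroup in `C(Z) / Z` -/
structure QP (Z N : Subgroup A) : Prop where
  zn : Z.Normal
  nn : N.Normal
  cyc : IsCyclic Z
  le : Z ≤ N
  cen : N ≤ centralizer Z
  comm : ⁅N, N⁆ ≤ Z
  maxZ : ∀ B : Subgroup A, B.Normal → B ≤ centralizer B → Z ≤ B → B ≤ Z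
  maxN : ∀ L : Subgroup A, L.Normal → N ≤ L → L ≤ centralizer Z → ⁅L, L⁆ ≤ Z → L ≤ N

theorem exists_QP (h : ∀ B : Subgroup A, B.Normal → B ≤ centralizer B → IsCyclic B) : ∃ Z N : Subgroup A, QP Z N := by
  obtain ⟨Z, ⟨a, b⟩, c⟩ := exists_maximal_of_wellFoundedGT (fun B : Subgroup A => B.Normal ∧ B ≤ centralizer B)
    ⟨⊥, inferInstance, bot_le⟩
  obtain ⟨N, ⟨d, e, f, g⟩, k⟩ := exists_maximal_of_wellFoundedGT (fun L : Subgroup A => L.Normal ∧ Z ≤ L ∧ L ≤ centralizer Z ∧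
    ⁅L, L⁆ ≤ Z) ⟨Z, a, le_rfl, b, commutator_le_left _ _⟩
  exact ⟨Z, N, a, d, h Z a b, e, f, g, fun B x y z => c ⟨x, y⟩ z, fun L x y z w => k ⟨x, e.trans y, z, w⟩ y⟩

namespace QP
variable {Z N : Subgroup A} [N.Normal] (h : QP Z N) {M : Type u} [AddCommGroup M] [Finite M] {σ : Representation ℤ A M}
  {π : A → M} (s : Sec N Z σ π)
include h

theorem comm_mul {d y y' : A} (hy : y ∈ N) (e : ⁅d, y'⁆ ∈ Z) : ⁅d, y * y'⁆ = ⁅d, y⁆ * ⁅d, y'⁆ := by
  have := h.cen hy _ e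
  rw [← mul_inv_eq_iff_eq_mul.2 this.symm]
  simp only [commutatorElement_def]; group

theorem nd {x : A} (hx : x ∈ N) (e : ∀ y ∈ N, ⁅x, y⁆ = 1) : x ∈ Z := by
  have := h.nn
  exact h.maxZ (N ⊓ centralizer N) inferInstance (fun a ha b hb => ha.2 b hb.1) (le_inf h.le (le_centralizer_iff.1 h.cen))
    ⟨hx, fun y hy => (commutatorElement_eq_one_iff_mul_comm.1 (e y hy)).symm⟩

include s

theorem comm_eq {d y y' : A} (hd : d ∈ centralizer Z) (hy : y ∈ N) (hy' : y' ∈ N) (e : π y = π y') : ⁅d, y⁆ = ⁅d, y'⁆ := by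
  have e1 := (s.eq_iff hy hy').1 e
  have e2 : ⁅d, y⁻¹ * y'⁆ = 1 := commutatorElement_eq_one_iff_mul_comm.2 (hd _ e1).symm
  rw [← mul_inv_cancel_left y y', h.comm_mul hy (e2 ▸ one_mem Z), e2, mul_one]

theorem main [Group.IsSolvable A] : ∃ b : M → AddChar M ℂ, Sy b ∧ (∀ x ∈ N, ∀ y ∈ N, b (π x) (π y) = 1 ↔ ⁅x, y⁆ = 1) ∧
    (∀ c ∈ centralizer (Z : Set A), ∀ m m', b (σ c m) (σ c m') = b m m') ∧ (∀ m m', b m m' ^ Nat.card Z = 1) ∧
    (∀ d ∈ centralizer (Z : Set A), (∀ m, σ d m = m) → d ∈ N) ∧ CR σ := by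
  have := h.cyc
  have := h.zn
  have : NeZero (Nat.card Z) := ⟨Nat.card_pos.ne'⟩
  let ε := mulEquivOfCyclicCardEq (G := Z) (G' := rootsOfUnity (Nat.card Z) ℂ) (Complex.card_rootsOfUnity _).symm
  obtain ⟨χ, c1, c2, c3⟩ : ∃ χ : A → ℂ, (∀ z ∈ Z, ∀ w ∈ Z, χ (z * w) = χ z * χ w) ∧ (∀ z ∈ Z, χ z = 1 ↔ z = 1) ∧
      ∀ z ∈ Z, χ z ^ Nat.card Z = 1 := by
    refine ⟨fun g => if h : g ∈ Z then ((ε ⟨g, h⟩ : ℂˣ) : ℂ) else 0, fun z a w b => ?_, fun z a => ?_, fun z a => ?_⟩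
    · simp only [dif_pos a, dif_pos b, dif_pos (mul_mem a b)]
      rw [← Units.val_mul, ← Subgroup.coe_mul, ← map_mul]; rfl
    · simp [dif_pos a]
    · simpa [dif_pos a] using (mem_rootsOfUnity' _ _).1 (ε ⟨z, a⟩).2
  choose l l1 l2 using s.surj
  have hm : ∀ x ∈ N, ∀ y ∈ N, ⁅x, y⁆ ∈ Z := fun x a y b => h.comm (commutator_mem_commutator a b)
  have k1 : ∀ d ∈ centralizer (Z : Set A), (∀ y ∈ N, ⁅d, y⁆ ∈ Z) → ∃ f : AddChar M ℂ, ∀ y ∈ N, f (π y) = χ ⁅d, y⁆ :=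
    fun d hd e => ⟨⟨fun m => χ ⁅d, l m⁆, by
      rw [h.comm_eq s hd (l1 0) (one_mem _) (by rw [l2, s.one])]; simpa using c2 1, fun m m' => by
      rw [← c1 _ (e _ (l1 _)) _ (e _ (l1 _)), ← h.comm_mul (l1 _) (e _ (l1 _)), h.comm_eq s hd (l1 (m + m')) (mul_mem (l1 m) (l1 m'))
        (by rw [s.mul _ (l1 _) _ (l1 _), l2, l2, l2])]⟩, fun y hy => congrArg χ (h.comm_eq s hd (l1 _) hy (l2 _))⟩
  choose b hb using fun m => k1 (l m) (h.cen (l1 m)) (hm _ (l1 m))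
  have k2 : ∀ x ∈ N, ∀ y ∈ N, b (π x) (π y) = χ ⁅x, y⁆ := fun x hx y hy => by
    rw [hb _ _ hy, ← commutatorElement_inv, h.comm_eq s (h.cen hy) (l1 _) hx (l2 _), commutatorElement_inv]
  have k3 : ∀ x ∈ N, ∀ y ∈ N, b (π x) (π y) = 1 ↔ ⁅x, y⁆ = 1 := fun x hx y hy => by rw [k2 x hx y hy, c2 _ (hm x hx y hy)]
  have k4 : Sy b := ⟨fun x x' y => by
      rw [← l2 x, ← l2 x', ← l2 y, ← s.mul _ (l1 _) _ (l1 _), k2 _ (mul_mem (l1 _) (l1 _)) _ (l1 _), k2 _ (l1 _) _ (l1 _),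
        k2 _ (l1 _) _ (l1 _), mul_comm (χ _), ← c1 _ (hm _ (l1 _) _ (l1 _)) _ (hm _ (l1 _) _ (l1 _)), ← commutatorElement_inv,
        h.comm_mul (l1 _) (hm _ (l1 _) _ (l1 _)), mul_inv_rev, commutatorElement_inv, commutatorElement_inv],
    fun x => by rw [← l2 x, k3 _ (l1 _) _ (l1 _), commutatorElement_self],
    fun x e => by rw [← l2 x]; exact (s.ker _ (l1 _)).2 (h.nd (l1 _) fun y hy => (k3 _ (l1 _) _ hy).1 (by rw [l2, e]))⟩
  have cj : ∀ a, ∀ x ∈ N, a * x * a⁻¹ ∈ N := fun a x hx => h.nn.conj_mem x hx a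
  have k6 : ∀ U, Inv σ U → Inv σ (perp b U) := fun U hU a y hy x hx => by
    rw [← app_inv (ρ := σ) a x, ← l2 y, ← l2 (σ a⁻¹ x), s.conj _ _ (l1 _), s.conj _ _ (l1 _),
      k3 _ (cj _ _ (l1 _)) _ (cj _ _ (l1 _)), ← conjugate_commutatorElement, conj_eq_one_iff, ← k3 _ (l1 _) _ (l1 _), l2, l2]
    exact hy _ (hU _ _ hx)
  have k5 : ∀ U, Inv σ U → U ⊓ perp b U = ⊥ := fun U hU => eq_bot_iff.2 fun m hm => by
    rw [← l2 m]
    exact (s.ker _ (l1 m)).2 (h.maxZ (s.pre (U ⊓ perp b U)) (s.pre_normal fun a u hu => ⟨hU a u hu.1, k6 U hU a u hu.2⟩)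
      (fun x hx y hy => commutatorElement_eq_one_iff_mul_comm.1 ((k3 _ hy.1 _ hx.1).1 (hx.2.2 _ hy.2.1)))
      (fun z hz => ⟨h.le hz, by rw [(s.ker _ (h.le hz)).2 hz]; exact zero_mem _⟩) ⟨l1 m, by rwa [l2]⟩)
  refine ⟨b, k4, k3, fun c hc m m' => ?_, fun m m' => ?_, fun d hd e => ?_, fun U hU => ⟨perp b U, k6 U hU, ?_, ?_⟩⟩
  · rw [← l2 m, ← l2 m', s.conj _ _ (l1 _), s.conj _ _ (l1 _), k2 _ (cj _ _ (l1 _)) _ (cj _ _ (l1 _)), k2 _ (l1 _) _ (l1 _),
      ← conjugate_commutatorElement, ← hc _ (hm _ (l1 _) _ (l1 _)), mul_inv_cancel_right]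
  · rw [← l2 m, ← l2 m', k2 _ (l1 _) _ (l1 _), c3 _ (hm _ (l1 _) _ (l1 _))]
  · have e1 : ∀ y ∈ N, ⁅d, y⁆ ∈ Z := fun y hy => (s.ker _ (mul_mem (cj d y hy) (inv_mem hy))).1 (by
      rw [s.mul _ (cj d y hy) _ (inv_mem hy), ← s.conj _ _ hy, e, s.inv hy, add_neg_cancel])
    obtain ⟨f, hf⟩ := k1 d hd e1
    obtain ⟨m, rfl⟩ := k4.surj f
    have e2 : (l m)⁻¹ * d ∈ centralizer (N : Set A) := fun y hy => by
      have e3 := c1 _ (inv_mem (e1 y hy)) _ (e1 y hy)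
      rw [← hf y hy, hb _ _ hy, ← c1 _ (inv_mem (e1 y hy)) _ (hm _ (l1 _) _ hy), inv_mul_cancel, (c2 1 (one_mem _)).2 rfl,
        eq_comm, c2 _ (mul_mem (inv_mem (e1 y hy)) (hm _ (l1 _) _ hy)), inv_mul_eq_one, commutatorElement_def,
        commutatorElement_def, mul_left_inj] at e3
      calc _ = (l m)⁻¹ * (l m * y * (l m)⁻¹) * d := by group
        _ = _ := by rw [← e3]; group
    have e3 : centralizer (N : Set A) ≤ Z := by
      by_contra e3
      obtain ⟨L, a1, a2, a3, a4⟩ := exists_ab Z _ inferInstance e3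
      have a5 : L ≤ N := le_sup_right.trans (h.maxN (N ⊔ L) inferInstance le_sup_left
        (sup_le h.cen (a1.trans (centralizer_le h.le))) (commutator_le.2 fun x hx y hy => by
          obtain ⟨x1, b1, x2, b2, rfl⟩ := mem_sup_of_normal_left.1 hx
          obtain ⟨y1, b3, y2, b4, rfl⟩ := mem_sup_of_normal_left.1 hy
          have d : ∀ x y : A, ⁅x, y⁆ ∈ Z ↔ Commute (x : A ⧸ Z) y := fun x y =>
            (QuotientGroup.eq_one_iff _).symm.trans (commutatorElement_eq_one_iff_commute (g₁ := (x : A ⧸ Z)) (g₂ := y))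
          exact (d _ _).2 ((((d _ _).1 (hm _ b1 _ b3)).mul_right ((show Commute x1 y2 from a1 b4 _ b1).map
            (QuotientGroup.mk' Z))).mul_left (((show Commute y1 x2 from a1 b2 _ b3).symm.map (QuotientGroup.mk' Z)).mul_right
            ((d _ _).1 (a4 (commutator_mem_commutator b2 b4)))))))
      exact a3 fun x hx => h.nd (a5 hx) fun y hy => commutatorElement_eq_one_iff_mul_comm.2 (a1 hx y hy).symm
    simpa using mul_mem (l1 m) (h.le (e3 e2))
  · exact k5 U hU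
  · refine eq_top_iff.2 fun m _ => ?_
    obtain ⟨x, rfl⟩ := ((Nat.bijective_iff_injective_and_card _).2 ⟨add_inj (k5 U hU), by
      rw [Nat.card_prod, k4.card_perp]⟩).2 m
    exact Submodule.add_mem_sup x.1.2 x.2.2

end QP
end QP

end H20.SL
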