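import Mathlib
import Cfsg.Agent.H20.SL2

/-!
Solvable linear groups (namespace H20.SL): the field generated by a cyclic normal subgroup (`Sc`, `field_facts`),
fixed point spaces, the base two theorem for groups of odd order (`th`).
-/

set_option autoImplicit false
set_option linter.unusedSectionVars false
set_option linter.unusedVariables false

namespace H20.SL
open Classical Finset Subgroup
open scoped commutatorElement

universe u

variable {A V : Type u} [Group A] [Finite A] [AddCommGroup V] [Finite V] {ρ : Representation ℤ A V} {Z N : Subgroup A}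

/-- `Z` acts by scalars and `A` acts semilinearly -/
structure Sc (ρ : Representation ℤ A V) (Z : Subgroup A) {K : Type u} [Field K] [Module K V] (ζ : A → K) (γ : A → K →+* K) :
    Prop where
  act : ∀ z ∈ Z, ∀ v, ρ z v = ζ z • v
  semi : ∀ a c v, ρ a (c • v) = γ a c • ρ a v
  cen : ∀ a ∈ centralizer (Z : Set A), ∀ c, γ a c = c

theorem clos_comm (h : Z ≤ centralizer Z) : ∀ a ∈ Subring.closure (ρ '' Z), ∀ b ∈ Subring.closure (ρ '' Z), a * b = b * a := by
  have := Subring.isMulCommutative_closure (s := ρ '' Z) (by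
    rintro _ ⟨x, hx, rfl⟩ _ ⟨y, hy, rfl⟩; rw [← map_mul, ← h hx y hy, map_mul])
  exact fun a ha b hb => setLike_mul_comm ha hb

theorem clos_conj [hZ : Z.Normal] (g : A) : ∀ a ∈ Subring.closure (ρ '' Z), ρ g * a * ρ g⁻¹ ∈ Subring.closure (ρ '' Z) := by
  intro a ha
  induction ha using Subring.closure_induction with
  | mem x hx => obtain ⟨z, hz, rfl⟩ := hx; exact Subring.subset_closure ⟨_, hZ.conj_mem z hz g, by simp⟩
  | zero => simp
  | one => rw [mul_one, ← map_mul, mul_inv_cancel, map_one]; exact one_mem _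
  | add x y _ _ a b => rw [mul_add, add_mul]; exact add_mem a b
  | neg x _ a => rw [mul_neg, neg_mul]; exact neg_mem a
  | mul x y _ _ a b =>
    convert mul_mem a b using 1
    rw [mul_assoc (ρ g * x), ← mul_assoc (ρ g⁻¹), ← mul_assoc (ρ g⁻¹), ← map_mul, inv_mul_cancel, map_one, one_mul]
    simp only [mul_assoc]

theorem exists_Sc [Nontrivial V] [Z.Normal] (h : Z ≤ centralizer Z)
    (hd : ∀ a ∈ Subring.closure (ρ '' Z), a ≠ 0 → Function.Injective a) :
    ∃ (K : Type u) (_ : Field K) (_ : Finite K) (_ : Module K V) (ζ : A → K) (γ : A → K →+* K), Sc ρ Z ζ γ := by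
  let _ : CommRing (Subring.closure (ρ '' Z)) :=
    { (inferInstance : Ring _) with mul_comm := fun a b => Subtype.ext (clos_comm h _ a.2 _ b.2) }
  have : NoZeroDivisors (Subring.closure (ρ '' Z)) := ⟨fun {a b} e => or_iff_not_imp_left.2 fun e' =>
    Subtype.ext (LinearMap.ext fun v => hd a a.2 (fun k => e' (Subtype.ext k)) (by
      simpa using LinearMap.congr_fun (congrArg Subtype.val e) v))⟩
  have : IsDomain (Subring.closure (ρ '' Z)) := NoZeroDivisors.to_isDomain _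
  have : Finite (Module.End ℤ V) := DFunLike.finite _
  let m : Module (Subring.closure (ρ '' Z)) V := inferInstance
  let _ : Field (Subring.closure (ρ '' Z)) := (Finite.isField_of_domain _).toField
  refine ⟨Subring.closure (ρ '' Z), inferInstance, inferInstance, m,
    fun z => if hz : z ∈ Z then ⟨ρ z, Subring.subset_closure ⟨z, hz, rfl⟩⟩ else 0,
    fun g => ⟨⟨⟨fun a => ⟨_, clos_conj g a a.2⟩, Subtype.ext ?_⟩, fun a b => Subtype.ext ?_⟩, Subtype.ext ?_,
      fun a b => Subtype.ext ?_⟩, fun z hz v => ?_, fun a c v => ?_, fun a ha c => Subtype.ext ?_⟩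
  · simp [← map_mul]
  · ext v; simp
  · simp
  · simp [mul_add, add_mul]
  · rw [dif_pos hz]; rfl
  · exact congrArg (fun v => ρ a (c.1 v)) (inv_app a v).symm
  · show ρ a * c * ρ a⁻¹ = c
    have : Commute (ρ a) c := (Subring.closure_le (t := Subring.centralizer {ρ a})).2 (by
      rintro _ ⟨z, hz, rfl⟩ _ rfl; rw [← map_mul, ← ha z hz, map_mul]) c.2 _ rfl
    rw [this.eq, mul_assoc, ← map_mul, mul_inv_cancel, map_one, mul_one]

theorem field_facts [Nontrivial V] [N.Normal] (hρ : Function.Injective ρ) (h : QP Z N) {M : Type u} [AddCommGroup M] [Finite M]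
    {σ : Representation ℤ A M} {π : A → M} (s : Sec N Z σ π)
    (hd : ∀ a ∈ Subring.closure (ρ '' Z), a ≠ 0 → Function.Injective a) : ∃ k n : ℕ, IsPrimePow k ∧ Nat.card Z ∣ k - 1 ∧
      2 ^ (centralizer (Z : Set A)).index ≤ k ∧ Nat.card V = k ^ n ∧ Nat.card M ≤ n ^ 2 := by
  have := h.zn
  obtain ⟨K, _, _, _, ζ, γ, c⟩ := exists_Sc (h.le.trans h.cen) hd
  have := Fintype.ofFinite K
  obtain ⟨p, _, d, hp, hK⟩ := FiniteField.card' K
  obtain ⟨v, hv⟩ := exists_ne (0 : V)
  have h1 : ∀ z ∈ Z, ∀ w ∈ Z, ζ (z * w) = ζ z * ζ w := fun z a w b => smul_left_injective K hv (by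
    simp only [← c.act _ (mul_mem a b), mul_smul, ← c.act _ a, ← c.act _ b, mul_app])
  have h2 : ζ 1 = 1 := smul_left_injective K hv (by simp [← c.act _ (one_mem _)])
  have h3 : ∀ z ∈ Z, ∀ w ∈ Z, ζ z = ζ w → z = w := fun z a w b e => hρ (LinearMap.ext fun v => by rw [c.act _ a, e, c.act _ b])
  refine ⟨Nat.card K, Module.finrank K V, ?_, ?_, ?_, Module.natCard_eq_pow_finrank, ?_⟩
  · rw [Nat.card_eq_fintype_card, hK]; exact hp.isPrimePow.pow d.2.ne'
  · rw [← Nat.card_units]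
    exact card_dvd_of_injective (MonoidHom.toHomUnits (G := Z) ⟨⟨fun z => ζ z, h2⟩, fun z w => h1 _ z.2 _ w.2⟩)
      fun z w e => Subtype.ext (h3 _ z.2 _ w.2 (congrArg Units.val e))
  · have := Fact.mk hp
    let _ := ZMod.algebra K p
    have e1 := Nat.card_le_card_of_injective (fun x : A ⧸ centralizer (Z : Set A) => ({ γ x.out with
      commutes' := fun r => RingHom.congr_fun (RingHom.ext_zmod ((γ x.out).comp (algebraMap _ _)) _) r } : K →ₐ[ZMod p] K))
      fun x y e => by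
        rw [← x.out_eq', ← y.out_eq', QuotientGroup.eq]
        intro z hz
        have e2 : x.out * z * x.out⁻¹ = y.out * z * y.out⁻¹ := hρ (LinearMap.ext fun v => by
          simp only [mul_app, c.act _ hz, c.semi, app_inv]
          rw [show γ x.out (ζ z) = γ y.out (ζ z) from DFunLike.congr_fun e _])
        calc _ = x.out⁻¹ * (x.out * z * x.out⁻¹) * y.out := by group
          _ = _ := by rw [e2]; group
    rw [Module.natCard_eq_pow_finrank (K := ZMod p), Nat.card_zmod]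
    exact (Nat.pow_le_pow_right two_pos (e1.trans (card_algHom_le_finrank _ _ _))).trans (Nat.pow_le_pow_left hp.two_le _)
  · choose l l1 l2 using s.surj
    have hm : ∀ x ∈ N, ∀ y ∈ N, ⁅x, y⁆ ∈ Z := fun x a y b => h.comm (commutator_mem_commutator a b)
    let L : M → V →ₗ[K] V := fun m => ⟨⟨ρ (l m), map_add _⟩, fun a v => by simp [c.semi, c.cen _ (h.cen (l1 m))]⟩
    let f : M → N →* K := fun m => ⟨⟨fun x => ζ ⁅l m, x⁆, by simpa using h2⟩, fun x y => by
      rw [← h1 _ (hm _ (l1 m) _ x.2) _ (hm _ (l1 m) _ y.2), ← h.comm_mul x.2 (hm _ (l1 m) _ y.2)]; rfl⟩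
    have e1 : Function.Injective f := fun m m' e => by
      rw [← l2 m, ← l2 m', s.eq_iff (l1 _) (l1 _)]
      refine h.nd (mul_mem (inv_mem (l1 _)) (l1 _)) fun y hy => commutatorElement_eq_one_iff_mul_comm.2 ?_
      have e2 := h3 _ (hm _ (l1 _) _ hy) _ (hm _ (l1 _) _ hy) (DFunLike.congr_fun e ⟨y, hy⟩)
      rw [commutatorElement_def, commutatorElement_def, mul_left_inj] at e2
      calc _ = (l m)⁻¹ * (l m' * y * (l m')⁻¹) * l m' := by group
        _ = _ := by rw [← e2]; group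
    have := Fintype.ofFinite M
    have e2 : LinearIndependent K L := Fintype.linearIndependent_iff.2 fun g e m => by
      obtain ⟨φ, hφ⟩ : ∃ φ : Module.Dual K V, φ (L m v) ≠ 0 := by
        by_contra k
        push Not at k
        exact hv (app_inj (l m) (((Module.forall_dual_apply_eq_zero_iff K _).1 k).trans (map_zero _).symm))
      refine (mul_eq_zero.1 (Fintype.linearIndependent_iff.1 ((linearIndependent_monoidHom N K).comp f e1)
        (fun m => g m * φ (L m v)) (funext fun x => ?_) m)).resolve_right hφ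
      let X : V →ₗ[K] V := ⟨⟨ρ (x : A)⁻¹, map_add _⟩, fun a v => by simp [c.semi, c.cen _ (h.cen (inv_mem x.2))]⟩
      have e3 := congrArg (fun T : V →ₗ[K] V => φ (X (T (ρ x v)))) e
      simp only [LinearMap.sum_apply, map_sum, LinearMap.smul_apply, map_smul, LinearMap.zero_apply, map_zero] at e3
      rw [Finset.sum_apply, Pi.zero_apply, ← e3]
      refine sum_congr rfl fun m _ => ?_
      have e4 : X (L m (ρ x v)) = ζ ⁅l m, (x : A)⁆ • L m v := by
        show ρ _ (ρ _ _) = _ • ρ _ v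
        rw [← c.act _ (hm _ (l1 m) _ x.2), ← mul_app, ← mul_app, ← mul_app, ← inv_mul_cancel_left (x : A) ⁅l m, (x : A)⁆,
          ← h.cen x.2 _ (hm _ (l1 m) _ x.2), commutatorElement_def]
        congr 2; group
      rw [e4]
      simp [f]; ring
    have e3 := e2.fintype_card_le_finrank
    rwa [Module.finrank_linearMap, ← sq, ← Nat.card_eq_fintype_card] at e3

section Fix
variable {A V : Type*} [Group A] [Finite A] [AddCommGroup V] [Finite V] {ρ : Representation ℤ A V} {Z N : Subgroup A}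

/-- fixed points -/
def fx (ρ : Representation ℤ A V) (a : A) : Submodule ℤ V := LinearMap.eqLocus (ρ a) LinearMap.id

theorem mem_fx {a : A} {v : V} : v ∈ fx ρ a ↔ ρ a v = v := Iff.rfl

theorem card_fx_conj (x a : A) : Nat.card (fx ρ (x * a * x⁻¹)) = Nat.card (fx ρ a) :=
  Nat.card_congr ⟨fun v => ⟨ρ x⁻¹ v, by simpa [mem_fx] using congrArg (ρ x⁻¹) v.2⟩,
    fun v => ⟨ρ x v, by simp [mem_fx, mem_fx.1 v.2]⟩, fun v => Subtype.ext (app_inv _ _),
    fun v => Subtype.ext (inv_app _ _)⟩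

theorem fx_inv (a : A) : fx ρ a⁻¹ = fx ρ a := by
  ext v; rw [mem_fx, mem_fx, ← (app_inj (ρ := ρ) a).eq_iff, app_inv, eq_comm]

theorem card_mul_le' (X Y : Submodule ℤ V) : Nat.card X * Nat.card Y ≤ Nat.card ↥(X ⊓ Y) * Nat.card V := by
  have h1 := (Y.toAddSubgroup.addSubgroupOf X.toAddSubgroup).card_mul_index
  have h2 := Y.toAddSubgroup.index_mul_card
  have h3 : Y.toAddSubgroup.relIndex X.toAddSubgroup ≤ Y.toAddSubgroup.index := by
    rw [← AddSubgroup.relIndex_top_right]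
    exact AddSubgroup.relIndex_le_of_le_right le_top (by
      rw [AddSubgroup.relIndex_top_right]; exact AddSubgroup.index_ne_zero_of_finite)
  have h4 : Nat.card (Y.toAddSubgroup.addSubgroupOf X.toAddSubgroup) = Nat.card ↥(X ⊓ Y) :=
    Nat.card_congr ⟨fun v => ⟨v.1.1, v.1.2, v.2⟩, fun v => ⟨⟨v.1, v.2.1⟩, v.2.2⟩, fun _ => rfl, fun _ => rfl⟩
  rw [← h2, ← h4, show Nat.card X = _ from h1.symm, mul_assoc]
  exact Nat.mul_le_mul_left _ (Nat.mul_le_mul_right _ h3)

theorem fx_sq_le (a x : A) : Nat.card (fx ρ a) ^ 2 ≤ Nat.card (fx ρ ⁅a, x⁆) * Nat.card V := by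
  have := card_mul_le' (fx ρ a) (fx ρ (x * a⁻¹ * x⁻¹))
  rw [card_fx_conj, fx_inv, ← sq] at this
  refine this.trans (Nat.mul_le_mul_right _ (Nat.card_le_card_of_injective _ (Submodule.inclusion_injective fun v hv => ?_)))
  rw [mem_fx, commutatorElement_def, mul_assoc, mul_assoc, mul_app, ← mul_assoc, mem_fx.1 hv.2, mem_fx.1 hv.1]

theorem fx_cube {x y z : A} (h : x * y * x⁻¹ = z * y) (h1 : Commute x z) (h2 : Commute y z) (h3 : fx ρ z = ⊥)
    (h4 : fx ρ (z * z) = ⊥) : Nat.card (fx ρ y) ^ 3 ≤ Nat.card V := by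
  have e1 : fx ρ y ⊓ fx ρ (z * y) = ⊥ := eq_bot_iff.2 fun v hv => h3.le (by
    have := mem_fx.1 hv.2
    rwa [mul_app, mem_fx.1 hv.1] at this)
  have e2 : (fx ρ y ⊔ fx ρ (z * y)) ⊓ fx ρ (z * (z * y)) = ⊥ := eq_bot_iff.2 fun v hv => by
    obtain ⟨a, ha, b, hb, rfl⟩ := Submodule.mem_sup.1 hv.1
    have k := mem_fx.1 hv.2
    rw [map_add, mul_app z (z * y) b, mem_fx.1 hb, mul_app, mul_app, mem_fx.1 ha] at k
    have k1 : ρ z (ρ z a) - a ∈ fx ρ y ⊓ fx ρ (z * y) := ⟨sub_mem (by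
      rw [mem_fx, ← mul_app, h2.eq, mul_app, ← mul_app y, h2.eq, mul_app, mem_fx.1 ha]) ha, by
      rw [show ρ z (ρ z a) - a = b - ρ z b from sub_eq_sub_iff_add_eq_add.2 (k.trans (add_comm _ _))]
      exact sub_mem hb (by rw [mem_fx, ← mul_app, mul_assoc, h2.eq, mul_app, mem_fx.1 hb])⟩
    rw [e1, Submodule.mem_bot, sub_eq_zero] at k1
    rw [k1, add_right_inj] at k
    exact add_mem (h4.le ((mul_app z z a).trans k1)) (h3.le k)
  have e3 := card_mul_le e1 le_sup_left le_sup_right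
  have e4 := card_mul_le e2 le_top le_top
  rw [show z * (z * y) = x * (z * y) * x⁻¹ by rw [← mul_assoc x, h1.eq, mul_assoc z, mul_assoc z, h], card_fx_conj, ← h,
    card_fx_conj, h, Nat.card_congr Submodule.topEquiv.toEquiv] at e4
  nth_rw 1 [← h] at e3
  rw [card_fx_conj] at e3
  rw [pow_succ, sq]
  exact (Nat.mul_le_mul_right _ e3).trans e4

theorem exists_notMem {ι α : Type*} [Finite α] (s : Finset ι) (X : ι → Set α) (h : ∑ i ∈ s, Nat.card (X i) < Nat.card α) :
    ∃ a, ∀ i ∈ s, a ∉ X i := by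
  have := Fintype.ofFinite α
  by_contra e
  push Not at e
  refine h.not_ge ?_
  calc _ ≤ #(s.biUnion fun i => (X i).toFinset) := by
        rw [Nat.card_eq_fintype_card, ← card_univ]
        exact card_le_card fun a _ => by simpa using e a
    _ ≤ _ := card_biUnion_le.trans_eq (sum_congr rfl fun i _ => by rw [Set.toFinset_card, Nat.card_eq_fintype_card])

theorem b2_of_sum [Fintype A] (h : ∑ a ∈ univ.erase 1, Nat.card (fx ρ a) ^ 2 < Nat.card V ^ 2) : B2 ρ ⊤ := by
  obtain ⟨x, hx⟩ := exists_notMem (univ.erase (1 : A)) (fun a => (fx ρ a : Set V) ×ˢ (fx ρ a : Set V)) (by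
    simpa [Nat.card_prod, sq, Nat.card_congr (Equiv.Set.prod _ _)] using h)
  refine ⟨x.1, trivial, x.2, trivial, fun a h1 h2 u _ => ?_⟩
  by_cases e : a = 1
  · simp [e]
  · exact absurd ⟨h1, h2⟩ (hx a (by simpa using e))

theorem free_dvd (h : ∀ g : A, g ≠ 1 → fx ρ g = ⊥) : Nat.card A ∣ Nat.card V - 1 := by
  let _ : MulAction A {v : V // v ≠ 0} :=
    { smul a v := ⟨ρ a v, fun e => v.2 (app_inj a (e.trans (map_zero _).symm))⟩
      one_smul v := Subtype.ext (show ρ 1 v = v by simp)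
      mul_smul a b v := Subtype.ext (mul_app a b _) }
  have := Fintype.ofFinite V
  have := Nat.card_congr (MulAction.selfEquivOrbitsQuotientProd (G := A) (X := {v : V // v ≠ 0}) fun v =>
    eq_bot_iff.2 fun a ha => by_contra fun e => v.2 ((h a e).le (congrArg Subtype.val ha)))
  rw [Nat.card_prod, Nat.card_eq_fintype_card, Fintype.card_subtype_compl, Fintype.card_subtype_eq, ← Nat.card_eq_fintype_card] at this
  exact this ▸ dvd_mul_left _ _

theorem card_modEq_fx {q : ℕ} (hq : q.Prime) {g : A} (hg : orderOf g = q) : Nat.card V ≡ Nat.card (fx ρ g) [MOD q] := by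
  have := Fact.mk hq
  let _ : MulAction A V := MulAction.compHom V (ρ : A →* Module.End ℤ V)
  have := (IsPGroup.of_card (G := zpowers g) (n := 1) (by rw [Nat.card_zpowers, hg, pow_one])).card_modEq_card_fixedPoints V
  exact this.trans (by
    rw [Nat.card_congr (α := MulAction.fixedPoints (zpowers g) V) (β := fx ρ g) (Equiv.subtypeEquivRight fun v =>
      ⟨fun h => h ⟨g, mem_zpowers g⟩, fun h (x : zpowers g) =>
        ((zpowers_le (H := MulAction.stabilizer A v)).2 h x.2 :)⟩)])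

theorem Sy.fx_nd {b : V → AddChar V ℂ} (h : Sy b) {g : A} (hb : ∀ x y, b (ρ g x) (ρ g y) = b x y)
    (hc : (orderOf g).Coprime (Nat.card V)) {x : V} (hx : x ∈ fx ρ g) (h0 : ∀ y ∈ fx ρ g, b x y = 1) : x = 0 := h.nd x fun y => by
  have h1 : ∀ i : ℕ, b x (ρ (g ^ i) y) = b x y := fun i => by
    induction i with
    | zero => simp
    | succ i ih => rw [pow_succ', mul_app, ← ih, ← hb x (ρ _ y), mem_fx.1 hx]
  have h2 := h0 (∑ i ∈ range (orderOf g), ρ (g ^ i) y) (by
    have e := sum_range_succ' (fun i => ρ (g ^ i) y) (orderOf g)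
    rw [sum_range_succ, pow_orderOf_eq_one, pow_zero, add_left_inj] at e
    rw [mem_fx, map_sum, e]
    exact sum_congr rfl fun i _ => by rw [pow_succ', mul_app])
  have h4 : ∀ n, b x (∑ i ∈ range n, ρ (g ^ i) y) = b x y ^ n := fun n => by
    induction n with
    | zero => simp
    | succ n ih => rw [sum_range_succ, AddChar.map_add_eq_mul, ih, h1, pow_succ]
  rw [h4] at h2
  have h3 : b x y ^ Nat.card V = 1 := by rw [← AddChar.map_nsmul_eq_pow, card_nsmul_eq_zero', AddChar.map_zero_eq_one]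
  simpa [hc.gcd_eq_one] using pow_gcd_eq_one.2 ⟨h2, h3⟩

theorem small_num {r j n : ℕ} (hj : ((r = 3 ∨ r = 5 ∨ r = 7) ∧ j = 2) ∨ (r = 3 ∧ j = 4)) (e1 : n ≡ 1 [MOD r])
    (e2 : n ∣ r ^ j - 1) (e3 : ¬ 2 ∣ n) : n = 1 := by
  have h : ∀ n < 81, n % 2 = 1 → (n % 3 = 1 → 8 % n = 0 → n = 1) ∧ (n % 5 = 1 → 24 % n = 0 → n = 1) ∧
      (n % 7 = 1 → 48 % n = 0 → n = 1) ∧ (n % 3 = 1 → 80 % n = 0 → n = 1) := by
    intro n h; interval_cases n <;> simp
  rcases hj with ⟨rfl | rfl | rfl, rfl⟩ | ⟨rfl, rfl⟩ <;> have k := Nat.le_of_dvd (by norm_num) e2 <;>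
    obtain ⟨a, b, c, d⟩ := h n (by omega) (by omega)
  exacts [a e1 (Nat.mod_eq_zero_of_dvd e2), b e1 (Nat.mod_eq_zero_of_dvd e2), c e1 (Nat.mod_eq_zero_of_dvd e2),
    d e1 (Nat.mod_eq_zero_of_dvd e2)]

theorem small {b : V → AddChar V ℂ} (h : Sy b) (hb : ∀ g x y, b (ρ g x) (ρ g y) = b x y) (hρ : ∀ g, (∀ v, ρ g v = v) → g = 1)
    (ho : Odd (Nat.card A)) {r j : ℕ} (hV : Nat.card V = r ^ j)
    (hj : ((r = 3 ∨ r = 5 ∨ r = 7) ∧ j = 2) ∨ (r = 3 ∧ j = 4))
    (hc : ∃ W, Inv ρ W ∧ (⨅ (g : A) (_ : ∃ k, g ^ r ^ k = 1), fx ρ g) ⊓ W = ⊥ ∧ (⨅ (g : A) (_ : ∃ k, g ^ r ^ k = 1), fx ρ g) ⊔ W = ⊤) :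
    Nat.card A ∣ Nat.card V - 1 := by
  have hr : r.Prime := by rcases hj with ⟨rfl | rfl | rfl, -⟩ | ⟨rfl, -⟩ <;> norm_num
  have := Fact.mk hr
  have h1 : ∀ g : A, (orderOf g).Prime → orderOf g ≠ r → fx ρ g = ⊥ := fun g hq hne => by
    obtain ⟨i, hi, e⟩ := (Nat.dvd_prime_pow hr).1 (hV ▸ (fx ρ g).toAddSubgroup.card_addSubgroup_dvd_card)
    replace e : Nat.card (fx ρ g) = r ^ i := e
    have e1 : i ≠ j := fun k => hq.ne_one (orderOf_eq_one_iff.2 (hρ g fun v =>
      (AddSubgroup.eq_top_of_card_eq (fx ρ g).toAddSubgroup (by rw [hV, ← k]; exact e)).ge trivial))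
    have e2 : i ≠ 1 := fun k => by
      rw [k, pow_one] at e
      have := Finite.one_lt_card_iff_nontrivial.1 (e ▸ hr.one_lt : 1 < Nat.card (fx ρ g))
      obtain ⟨x, hx⟩ := exists_ne (0 : fx ρ g)
      refine hx (Subtype.ext (h.fx_nd (hb g) (hV ▸ ((Nat.coprime_primes hq hr).2 hne).pow_right _) x.2 fun y hy => ?_))
      obtain ⟨n, hn⟩ := mem_zmultiples_of_prime_card e hx (g' := ⟨y, hy⟩)
      rw [show y = n • x.1 from (congrArg Subtype.val hn).symm, AddChar.map_zsmul_eq_zpow, h.self, one_zpow]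
    have e3 := (Nat.modEq_iff_dvd' (Nat.pow_le_pow_right hr.pos hi)).1 (hV ▸ e ▸ card_modEq_fx (ρ := ρ) hq rfl).symm
    have e4 := hq.eq_one_or_self_of_dvd
    have e5 : ¬ 2 ∣ orderOf g := (odd_orderOf ho g).not_two_dvd_nat
    have e6 : i = 0 := by
      rcases hj with ⟨-, rfl⟩ | ⟨rfl, rfl⟩
      · omega
      · have k : ¬ orderOf g ∣ 2 ^ 3 * 3 ^ 3 := fun k => by
          rcases (Nat.Prime.dvd_mul hq).1 k with k | k
          · exact e5 ((Nat.prime_dvd_prime_iff_eq hq Nat.prime_two).1 (hq.dvd_of_dvd_pow k) ▸ dvd_rfl)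
          · exact hne ((Nat.prime_dvd_prime_iff_eq hq hr).1 (hq.dvd_of_dvd_pow k))
        interval_cases i
        · rfl
        · omega
        · exact absurd (e3.trans (by norm_num)) k
        · exact absurd (e3.trans (by norm_num)) k
        · omega
    rw [e6, pow_zero] at e
    exact eq_bot_iff.2 (AddSubgroup.card_eq_one.1 (show Nat.card (fx ρ g).toAddSubgroup = 1 from e)).le
  obtain ⟨P⟩ : Nonempty (Sylow r A) := inferInstance
  have h2 : P.index ∣ Nat.card V - 1 := (Nat.dvd_iff_prime_pow_dvd_dvd _ _).2 fun q i hq hi => by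
    rcases i with _ | i
    · simp
    have := Fact.mk hq
    obtain ⟨Q, hQ⟩ := Sylow.exists_subgroup_card_pow_prime q (hi.trans (index_dvd_card _))
    refine hQ ▸ free_dvd (ρ := ρ.comp Q.subtype) fun g hg => eq_bot_iff.2 fun v hv => ?_
    obtain ⟨k, -, hk⟩ := (Nat.dvd_prime_pow hq).1 (hQ ▸ orderOf_dvd_natCard g)
    have e : orderOf ((g : A) ^ (orderOf (g : A) / q)) = q := orderOf_pow_orderOf_div (orderOf_pos _).ne' (by
      rw [orderOf_coe, hk]; exact dvd_pow_self _ fun e => hg (by simpa [e] using hk))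
    refine (h1 _ (e.symm ▸ hq) fun k => P.not_dvd_index
      ((dvd_of_eq (k.symm.trans e)).trans ((dvd_pow_self q i.succ_ne_zero).trans hi))).le ?_
    generalize orderOf (g : A) / q = n
    induction n with
    | zero => simp [mem_fx]
    | succ n ih => rw [mem_fx, pow_succ', mul_app, mem_fx.1 ih]; exact hv
  have h3 : Nat.card (Sylow r A) = 1 := by
    have e1 := card_sylow_modEq_one r A
    have e2 := P.card_dvd_index.trans h2
    have e3 := (ho.of_dvd_nat (P.card_dvd_index.trans (index_dvd_card _))).not_two_dvd_nat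
    rw [hV] at e2
    exact small_num hj e1 e2 e3
  have := (Nat.card_eq_one_iff_unique.1 h3).1
  obtain ⟨W, w1, w2, w3⟩ := hc
  have h4 : W = ⊥ := by
    by_contra e
    let _ : MulAction P W := MulAction.compHom W
      ((Representation.subrepresentation ρ W fun g u hu => w1 g u hu).comp (P : Subgroup A).subtype : P →* Module.End ℤ W)
    obtain ⟨i, -, hi⟩ := (Nat.dvd_prime_pow hr).1 (hV ▸ W.toAddSubgroup.card_addSubgroup_dvd_card)
    obtain ⟨x, a, b⟩ := P.2.exists_fixed_point_of_prime_dvd_card_of_fixed_point W (a := 0) (by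
      rw [show Nat.card W = _ from hi]
      exact dvd_pow_self _ fun k => e (eq_bot_iff.2 (AddSubgroup.card_eq_one.1
        (show Nat.card W.toAddSubgroup = 1 by rw [hi, k, pow_zero])).le))
      fun g => Subtype.ext (map_zero (ρ g))
    refine b (Subtype.ext (w2.le (Submodule.mem_inf.2 ⟨?_, x.2⟩)).symm)
    simp only [Submodule.mem_iInf]
    rintro g ⟨k, hk⟩
    obtain ⟨Q, hQ⟩ := (IsPGroup.of_card (p := r) (G := zpowers g) ((Nat.dvd_prime_pow hr).1 (by
      rw [Nat.card_zpowers]; exact orderOf_dvd_of_pow_eq_one hk)).choose_spec.2).exists_le_sylow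
    exact congrArg Subtype.val (a ⟨g, Subsingleton.elim Q P ▸ hQ (mem_zpowers g)⟩)
  rw [h4, sup_bot_eq] at w3
  have h5 : (P : Subgroup A) = ⊥ := eq_bot_iff.2 fun g hg => hρ g fun v => by
    have := w3.ge (Submodule.mem_top (x := v))
    simp only [Submodule.mem_iInf] at this
    obtain ⟨k, hk⟩ := P.2 ⟨g, hg⟩
    exact this g ⟨k, congrArg Subtype.val hk⟩
  rwa [h5, index_bot] at h2

end Fix

theorem num0 (e : ℕ) (h : 23 ≤ e) : 8 * e ^ 18 ≤ 4 ^ (2 * e - 3) := by
  induction e, h using Nat.le_induction with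
  | base => norm_num
  | succ e h ih =>
    have h1 := Nat.pow_le_pow_left (show 23 * (e + 1) ≤ 24 * e by omega) 18
    rw [show 2 * (e + 1) - 3 = 2 * e - 3 + 2 by omega, pow_add]
    rw [mul_pow, mul_pow] at h1
    norm_num at h1 ⊢
    omega

theorem num {k z e h n : ℕ} (hk : IsPrimePow k) (hz : z ∣ k - 1) (h2 : Odd z) (h3 : Odd e) (hr : ∀ r, r.Prime → r ∣ e → r ∣ z)
    (he : e ≤ n) (hh : h ≤ e ^ 4) (h5 : e = 5 → h ≤ 3) (h7 : e = 7 → h ≤ 3) (h9 : e = 9 → h ≤ 5) (h4 : 5 ≤ e) :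
    (2 * (z * e ^ 2 * h)) ^ 3 ≤ (k ^ n) ^ 2 := by
  have k2 := hk.two_le
  have a1 : ∀ r, r.Prime → r ∣ e → r + 1 ≤ k := fun r a b => by
    have := Nat.le_of_dvd (by omega) ((hr r a b).trans hz); omega
  obtain ⟨j, a2, a3⟩ : ∃ j ≤ k, 8 * (e ^ 2 * h) ^ 3 ≤ j ^ (2 * e - 3) := by
    have a4 : 8 * (e ^ 2 * h) ^ 3 ≤ 8 * e ^ 18 := by
      calc _ ≤ 8 * (e ^ 2 * e ^ 4) ^ 3 := by gcongr
        _ = _ := by ring
    by_cases c : 23 ≤ e
    · refine ⟨4, ?_, a4.trans (num0 e c)⟩
      have := a1 _ (Nat.minFac_prime (by omega)) e.minFac_dvd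
      have := (Nat.minFac_prime (n := e) (by omega)).two_le
      have : e.minFac ≠ 2 := fun k => h3.not_two_dvd_nat (k ▸ e.minFac_dvd)
      omega
    have a5 := h3.not_two_dvd_nat
    have a6 := h2.not_two_dvd_nat
    push Not at c
    interval_cases e <;> try omega
    · refine ⟨11, ?_, (show _ ≤ 8 * (5 ^ 2 * 3) ^ 3 by have := h5 rfl; gcongr).trans (by norm_num)⟩
      have := (hr 5 (by norm_num) dvd_rfl).trans hz
      have : k ≠ 6 := by rintro rfl; revert hk; decide
      omega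
    · exact ⟨8, a1 7 (by norm_num) dvd_rfl, (show _ ≤ 8 * (7 ^ 2 * 3) ^ 3 by have := h7 rfl; gcongr).trans (by norm_num)⟩
    · exact ⟨4, a1 3 (by norm_num) (by norm_num), (show _ ≤ 8 * (9 ^ 2 * 5) ^ 3 by have := h9 rfl; gcongr).trans (by norm_num)⟩
    · exact ⟨12, a1 11 (by norm_num) dvd_rfl, a4.trans (by norm_num)⟩
    · exact ⟨14, a1 13 (by norm_num) dvd_rfl, a4.trans (by norm_num)⟩
    · refine ⟨16, ?_, a4.trans (by norm_num)⟩
      have := (hr 5 (by norm_num) (by norm_num)).trans hz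
      have := (hr 3 (by norm_num) (by norm_num)).trans hz
      omega
    · exact ⟨18, a1 17 (by norm_num) dvd_rfl, a4.trans (by norm_num)⟩
    · exact ⟨20, a1 19 (by norm_num) dvd_rfl, a4.trans (by norm_num)⟩
    · exact ⟨8, a1 7 (by norm_num) (by norm_num), a4.trans (by norm_num)⟩
  have a4 : z ≤ k := (Nat.le_of_dvd (by omega) hz).trans (Nat.sub_le _ _)
  calc _ = z ^ 3 * (8 * (e ^ 2 * h) ^ 3) := by ring
    _ ≤ k ^ 3 * k ^ (2 * e - 3) := Nat.mul_le_mul (Nat.pow_le_pow_left a4 _) (a3.trans (Nat.pow_le_pow_left a2 _))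
    _ ≤ _ := by rw [← pow_add, ← pow_mul]; exact Nat.pow_le_pow_right (by omega) (by omega)

end H20.SL
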