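import Mathlib
import Cfsg.Agent.H20.SL3

/-!
Solvable linear groups (namespace H20.SL): counting criteria and the base two theorem for groups of odd order (`th`).
-/

set_option autoImplicit false
set_option linter.unusedSectionVars false
set_option linter.unusedVariables false

namespace H20.SL
open Classical Finset Subgroup
open scoped commutatorElement

universe u

section Count
variable {A V : Type*} [Group A] [Finite A] [AddCommGroup V] [Finite V] {ρ : Representation ℤ A V}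

theorem b2_one (h1 : ∀ a : A, a ≠ 1 → Nat.card (fx ρ a) ^ 2 ≤ Nat.card V) (h : Nat.card A ≤ Nat.card V) : B2 ρ ⊤ := by
  have := Fintype.ofFinite A
  refine b2_of_sum ((sum_le_card_nsmul _ _ _ fun a ha => h1 a (ne_of_mem_erase ha)).trans_lt ?_)
  rw [card_erase_of_mem (mem_univ _), card_univ, ← Nat.card_eq_fintype_card, smul_eq_mul, sq]
  exact Nat.mul_lt_mul_of_pos_right (by have := Nat.card_pos (α := A); omega) Nat.card_pos

theorem b2_split (C : Subgroup A) (h1 : ∀ a ∉ C, Nat.card (fx ρ a) ^ 2 ≤ Nat.card V)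
    (h2 : ∀ a : A, a ≠ 1 → Nat.card (fx ρ a) ^ 3 ≤ Nat.card V ^ 2) (h3 : (2 * Nat.card C) ^ 3 ≤ Nat.card V ^ 2)
    (h4 : C.index ^ 3 ≤ Nat.card V) : B2 ρ ⊤ := by
  have := Fintype.ofFinite A
  have c0 := Nat.card_pos (α := C)
  have q0 := Nat.card_pos (α := V)
  have e1 : 2 * Nat.card A ≤ Nat.card V := (Nat.pow_le_pow_iff_left three_ne_zero).1 (by
    rw [← C.card_mul_index, ← mul_assoc, mul_pow, pow_succ (Nat.card V)]; exact Nat.mul_le_mul h3 h4)
  have e2 : ∑ a ∈ univ.erase 1 with a ∈ C, 2 * Nat.card C * Nat.card (fx ρ a) ^ 2 ≤ (Nat.card C - 1) * Nat.card V ^ 2 := by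
    refine (sum_le_card_nsmul _ _ (Nat.card V ^ 2) fun a ha => (Nat.pow_le_pow_iff_left three_ne_zero).1 ?_).trans_eq ?_
    · calc _ = (2 * Nat.card C) ^ 3 * (Nat.card (fx ρ a) ^ 3) ^ 2 := by ring
        _ ≤ Nat.card V ^ 2 * (Nat.card V ^ 2) ^ 2 := by have := h2 a (ne_of_mem_erase (mem_filter.1 ha).1); gcongr
        _ = _ := by ring
    · rw [filter_erase, card_erase_of_mem (by simp), smul_eq_mul, Nat.card_eq_fintype_card (α := C), Fintype.card_subtype]
  have e3 : ∑ a ∈ univ.erase 1 with a ∉ C, Nat.card (fx ρ a) ^ 2 ≤ Nat.card A * Nat.card V :=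
    (sum_le_card_nsmul _ _ _ fun a ha => h1 a (mem_filter.1 ha).2).trans (Nat.mul_le_mul_right _ (by
      rw [Nat.card_eq_fintype_card]; exact card_le_univ _))
  refine b2_of_sum ?_
  rw [← sum_filter_add_sum_filter_not _ (· ∈ C)]
  rw [← mul_sum] at e2
  have e4 : 2 * ∑ a ∈ univ.erase 1 with a ∈ C, Nat.card (fx ρ a) ^ 2 < Nat.card V ^ 2 :=
    Nat.lt_of_mul_lt_mul_left (a := Nat.card C) (by
      rw [← mul_assoc, mul_comm _ 2]
      exact e2.trans_lt (Nat.mul_lt_mul_of_pos_right (by omega) (by positivity)))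
  nlinarith

theorem b2_stab [Nontrivial V] (C : Subgroup A) (h0 : ∀ a ∈ C, a ≠ 1 → fx ρ a = ⊥)
    (h1 : ∀ a ∉ C, Nat.card (fx ρ a) ^ 2 ≤ Nat.card V) (h : (C.index - 1) ^ 2 < Nat.card V) : B2 ρ ⊤ := by
  have := Fintype.ofFinite A
  obtain ⟨v, hv⟩ := exists_ne (0 : V)
  have e1 : #{a : A | ρ a v = v} ≤ C.index := by
    rw [index, Nat.card_eq_fintype_card, ← card_univ]
    refine card_le_card_of_injOn (fun a => (a : A ⧸ C)) (fun _ _ => mem_univ _) fun a ha b hb e => by_contra fun k => hv ?_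
    refine (h0 _ (QuotientGroup.eq.1 e) (mt inv_mul_eq_one.1 k)).le (mem_fx.2 ?_)
    rw [mul_app, (mem_filter.1 hb).2, ← (app_inj (ρ := ρ) a).eq_iff, app_inv, (mem_filter.1 ha).2]
  obtain ⟨w, hw⟩ := exists_notMem (({a : A | ρ a v = v} : Finset A).erase 1) (fun a => (fx ρ a : Set V)) (by
    refine (sum_le_card_nsmul _ _ (Nat.sqrt (Nat.card V)) fun a ha => Nat.le_sqrt'.2 (h1 a fun k => hv ?_)).trans_lt ?_
    · exact (h0 a k (ne_of_mem_erase ha)).le (mem_filter.1 (mem_of_mem_erase ha)).2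
    rw [card_erase_of_mem (by simp), smul_eq_mul]
    refine (Nat.pow_lt_pow_iff_left two_ne_zero).1 ?_
    rw [mul_pow, sq (Nat.card V)]
    exact Nat.mul_lt_mul_of_lt_of_le ((Nat.pow_le_pow_left (by omega) _).trans_lt h) (Nat.sqrt_le' _) Nat.card_pos)
  refine ⟨v, trivial, w, trivial, fun a h1 h2 u _ => ?_⟩
  by_cases e : a = 1
  · simp [e]
  · exact absurd h2 (hw a (by simp [e, h1]))

theorem fx_eq_bot {Z : Subgroup A} (hρ : Function.Injective ρ)
    (hd : ∀ a ∈ Subring.closure (ρ '' Z), a ≠ 0 → Function.Injective a) {z : A} (hz : z ∈ Z) (h : z ≠ 1) : fx ρ z = ⊥ :=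
  eq_bot_iff.2 fun v hv => hd (ρ z - 1) (sub_mem (Subring.subset_closure ⟨z, hz, rfl⟩) (one_mem _))
    (fun e => h (hρ ((sub_eq_zero.1 e).trans (map_one ρ).symm))) (by simpa [sub_eq_zero] using mem_fx.1 hv)

end Count

theorem sq_lt_pow {k : ℕ} (h : 3 ≤ k) (n : ℕ) : n ^ 2 < k ^ n := by
  refine lt_of_lt_of_le ?_ (Nat.pow_le_pow_left h n)
  induction n with
  | zero => simp
  | succ n ih =>
    have := Nat.lt_pow_self (n := n) (show 1 < 3 by norm_num)
    rcases n with _ | n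
    · norm_num
    · rw [pow_succ 3]; nlinarith

theorem sq_lt_two_pow (n : ℕ) : n ^ 2 < 2 ^ (n + 1) := by
  induction n with
  | zero => simp
  | succ n ih =>
    have := Nat.lt_pow_self (n := n) (show 1 < 2 by norm_num)
    rw [pow_succ 2 n] at ih
    rw [pow_succ 2, pow_succ 2 n]
    nlinarith

variable {A V : Type u} [Group A] [Finite A] [AddCommGroup V] [Finite V] {ρ : Representation ℤ A V} {Z N : Subgroup A}

theorem cyc_of_dom [Nontrivial V] [Z.Normal] (hρ : Function.Injective ρ) (h : Z ≤ centralizer Z)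
    (hd : ∀ a ∈ Subring.closure (ρ '' Z), a ≠ 0 → Function.Injective a) : IsCyclic Z := by
  obtain ⟨K, _, _, _, ζ, γ, c⟩ := exists_Sc h hd
  obtain ⟨v, hv⟩ := exists_ne (0 : V)
  exact isCyclic_of_injective_ringHom (R := K) ⟨⟨fun z => ζ z, smul_left_injective K hv (by simp [← c.act _ (one_mem _)])⟩,
    fun z w => smul_left_injective K hv (by
      simp only [Subgroup.coe_mul, ← c.act _ (mul_mem z.2 w.2), mul_smul, ← c.act _ z.2, ← c.act _ w.2, mul_app])⟩
    fun z w e => Subtype.ext (hρ (LinearMap.ext fun v => by rw [c.act _ z.2, show ζ z = ζ w from e, c.act _ w.2]))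

theorem QP.fx_cube (h : QP Z N) (ho : Odd (Nat.card A)) (h0 : ∀ z ∈ Z, z ≠ 1 → fx ρ z = ⊥) {y : A} (hy : y ∈ N) (hy' : y ∉ Z) :
    Nat.card (fx ρ y) ^ 3 ≤ Nat.card V := by
  have := h.nn
  obtain ⟨x, hx, e⟩ : ∃ x ∈ N, ⁅x, y⁆ ≠ 1 := by
    by_contra k
    push Not at k
    exact hy' (h.nd hy fun x hx => commutatorElement_eq_one_iff_mul_comm.2 (commutatorElement_eq_one_iff_mul_comm.1 (k x hx)).symm)
  have hz := h.comm (commutator_mem_commutator hx hy)
  refine SL.fx_cube (x := x) (z := ⁅x, y⁆) (by rw [commutatorElement_def, inv_mul_cancel_right]) (h.cen hx _ hz).symm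
    (h.cen hy _ hz).symm (h0 _ hz e) (h0 _ (mul_mem hz hz) fun k => e ?_)
  exact orderOf_eq_one_iff.1 ((odd_orderOf ho _).coprime_two_right.eq_one_of_dvd (orderOf_dvd_of_pow_eq_one (by rw [sq, k])))

theorem QP.fx_sq (h : QP Z N) (h0 : ∀ z ∈ Z, z ≠ 1 → fx ρ z = ⊥) {a : A} (ha : a ∉ centralizer (Z : Set A)) :
    Nat.card (fx ρ a) ^ 2 ≤ Nat.card V := by
  simp only [mem_centralizer_iff, not_forall] at ha
  obtain ⟨z, hz, e⟩ := ha
  have := fx_sq_le (ρ := ρ) a z
  rwa [h0 _ (by rw [commutatorElement_def]; exact mul_mem (h.zn.conj_mem _ hz a) (inv_mem hz))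
    (fun k => e (commutatorElement_eq_one_iff_mul_comm.1 k).symm), Nat.card_unique (α := (⊥ : Submodule ℤ V)),
    one_mul] at this

theorem QP.small [N.Normal] (h : QP Z N) (ho : Odd (Nat.card A)) {M : Type u} [AddCommGroup M] [Finite M] {σ : Representation ℤ A M}
    {π : A → M} (s : Sec N Z σ π) {b : M → AddChar M ℂ} (hb : Sy b)
    (h1 : ∀ c ∈ centralizer (Z : Set A), ∀ m m', b (σ c m) (σ c m') = b m m')
    (h2 : ∀ d ∈ centralizer (Z : Set A), (∀ m, σ d m = m) → d ∈ N) (h3 : CR σ) {r j : ℕ} (hV : Nat.card M = r ^ j)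
    (hj : ((r = 3 ∨ r = 5 ∨ r = 7) ∧ j = 2) ∨ (r = 3 ∧ j = 4)) : N.relIndex (centralizer Z) ∣ Nat.card M - 1 := by
  have := h.zn
  let τ : Representation ℤ (centralizer (Z : Set A) ⧸ N.subgroupOf (centralizer Z)) M :=
    QuotientGroup.lift _ (σ.comp (centralizer (Z : Set A)).subtype) fun x hx => LinearMap.ext fun m => by
      obtain ⟨y, hy, rfl⟩ := s.surj m
      replace hx : (x : A) ∈ N := hx
      show σ x _ = π y
      rw [s.conj _ _ hy, s.mul _ (mul_mem hx hy) _ (inv_mem hx), s.mul _ hx _ hy, s.inv hx]; abel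
  refine SL.small (ρ := τ) hb (fun g => QuotientGroup.induction_on g fun c => h1 c c.2)
    (fun g => QuotientGroup.induction_on g fun c e => (QuotientGroup.eq_one_iff _).2 (h2 c c.2 e))
    (ho.of_dvd_nat ((relIndex_dvd_card N _).trans (card_subgroup_dvd_card _))) hV hj ?_
  obtain ⟨W, w1, w2⟩ := h3 (⨅ (g : centralizer (Z : Set A) ⧸ N.subgroupOf (centralizer Z)) (_ : ∃ k, g ^ r ^ k = 1), fx τ g)
    fun a v hv => by
      simp only [Submodule.mem_iInf] at hv ⊢
      intro g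
      induction g using QuotientGroup.induction_on with | H c => ?_
      rintro ⟨k, hk⟩
      have e := hv (((⟨a⁻¹ * c * a, normal_centralizer.conj_mem' _ c.2 a⟩ : centralizer (Z : Set A)) : _ ⧸ _)) ⟨k, by
        rw [← QuotientGroup.mk_pow, QuotientGroup.eq_one_iff, mem_subgroupOf] at hk ⊢
        show (a⁻¹ * c * a) ^ r ^ k ∈ N
        rw [← inv_inv a, inv_inv a⁻¹, conj_pow]
        exact h.nn.conj_mem _ hk _⟩
      replace e : σ (a⁻¹ * c * a) v = v := e
      show σ c (σ a v) = σ a v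
      rw [← mul_app, ← mul_inv_cancel_left a (c * a), ← mul_assoc a⁻¹, mul_app, e]
  exact ⟨W, fun g => QuotientGroup.induction_on g fun c => w1 c, w2⟩

theorem core [Group.IsSolvable A] [Nontrivial V] (ih : Th.{u} (Nat.card V)) (ho : Odd (Nat.card A)) (hρ : Function.Injective ρ)
    (hi : Irr ρ ⊤) : B2 ρ ⊤ := by
  by_cases hI : ∃ T W, Imp ρ T W
  · obtain ⟨T, W, h⟩ := hI
    exact h.b2 ih ho hi
  have hd : ∀ B : Subgroup A, B.Normal → B ≤ centralizer B → ∀ a ∈ Subring.closure (ρ '' B), a ≠ 0 → Function.Injective a :=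
    fun B _ h => (dich hi _ (clos_comm h) clos_conj).resolve_left hI
  obtain ⟨Z, N, h⟩ := exists_QP fun B hB k => cyc_of_dom hρ k (hd B hB k)
  have := h.zn
  have := h.nn
  replace hd := hd Z h.zn (h.le.trans h.cen)
  obtain ⟨M, _, _, σ, π, s⟩ := exists_sec N Z h.comm
  obtain ⟨b, b1, b2, b3, b4, b5, b6⟩ := h.main s
  obtain ⟨k, n, k1, k2, k3, k4, k5⟩ := field_facts hρ h s hd
  obtain ⟨e, he⟩ := b1.exists_sq
  have h0 : ∀ z ∈ Z, z ≠ 1 → fx ρ z = ⊥ := fun z => fx_eq_bot hρ hd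
  have q0 := Nat.card_pos (α := V)
  have h1 : ∀ a ∈ N, a ≠ 1 → Nat.card (fx ρ a) ^ 2 ≤ Nat.card V := fun a ha k => by
    by_cases c : a ∈ Z
    · rw [h0 a c k, Nat.card_unique]; exact q0
    · exact (Nat.pow_le_pow_right Nat.card_pos (by norm_num)).trans (h.fx_cube ho h0 ha c)
  have h2 : ∀ a : A, a ≠ 1 → Nat.card (fx ρ a) ^ 3 ≤ Nat.card V ^ 2 := fun a ha => by
    refine (Nat.pow_le_pow_iff_left two_ne_zero).1 ?_
    rw [← pow_mul, mul_comm, pow_mul]
    by_cases c : a ∈ centralizer (Z : Set A) ∧ a ∉ N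
    · obtain ⟨m, hm⟩ := not_forall.1 (mt (b5 a c.1) c.2)
      obtain ⟨x, hx, rfl⟩ := s.surj m
      have k := h.nn.conj_mem _ hx a
      have := h.fx_cube ho h0 (y := ⁅a, x⁆) (by rw [commutatorElement_def]; exact mul_mem k (inv_mem hx)) fun c => hm (by
        rw [commutatorElement_def, ← s.ker _ (mul_mem k (inv_mem hx)), s.mul _ k _ (inv_mem hx), s.inv hx, add_neg_eq_zero] at c
        rw [s.conj _ _ hx, c])
      calc _ ≤ (Nat.card (fx ρ ⁅a, x⁆) * Nat.card V) ^ 3 := Nat.pow_le_pow_left (fx_sq_le a x) _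
        _ ≤ Nat.card V * Nat.card V ^ 3 := by rw [mul_pow]; gcongr
        _ = _ := by ring
    · rw [← pow_mul (Nat.card V)]
      refine (Nat.pow_le_pow_left ?_ _).trans (Nat.pow_le_pow_right q0 (by norm_num))
      exact (not_and_or.1 c).elim (h.fx_sq h0) fun c => h1 a (not_not.1 c) ha
  have c1 : Nat.card (centralizer (Z : Set A)) = Nat.card Z * e ^ 2 * N.relIndex (centralizer Z) := by
    rw [← he, s.card, ← relIndex_bot_left, ← relIndex_bot_left, relIndex_mul_relIndex _ _ _ bot_le h.le,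
      relIndex_mul_relIndex _ _ _ bot_le h.cen]
  have o1 := ho.of_dvd_nat (card_subgroup_dvd_card (centralizer (Z : Set A)))
  rw [c1, Nat.odd_mul, Nat.odd_mul, Nat.odd_pow_iff two_ne_zero] at o1
  have r1 : ∀ r, r.Prime → r ∣ e → r ∣ Nat.card Z := fun r hr hre => by_contra fun c => by
    have := Fact.mk hr
    obtain ⟨x, hx⟩ := exists_prime_addOrderOf_dvd_card' (G := M) r (he ▸ hre.trans (dvd_pow_self e two_ne_zero))
    refine hr.ne_one (hx ▸ AddMonoid.addOrderOf_eq_one_iff.2 (b1.nd x fun y => b1.symm ?_))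
    have e1 : b y x ^ r = 1 := by rw [← AddChar.map_nsmul_eq_pow, ← hx, addOrderOf_nsmul_eq_zero, AddChar.map_zero_eq_one]
    simpa [((Nat.Prime.coprime_iff_not_dvd hr).2 c).gcd_eq_one] using pow_gcd_eq_one.2 ⟨e1, b4 y x⟩
  have k6 := k1.two_le
  have k7 : e ≤ n := (Nat.pow_le_pow_iff_left two_ne_zero).1 (he ▸ k5)
  have k8 : Nat.card Z ≤ k - 1 := Nat.le_of_dvd (by omega) k2
  have k9 : e ≠ 1 → 3 ≤ k := fun c => by
    have := Nat.le_of_dvd Nat.card_pos (r1 _ (Nat.minFac_prime c) e.minFac_dvd)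
    have := (Nat.minFac_prime c).two_le
    omega
  have m1 : Nat.card M < Nat.card V := by
    by_cases c : e = 1
    · rw [he, c]; exact Finite.one_lt_card
    · exact k5.trans_lt (k4 ▸ sq_lt_pow (k9 c) n)
  have m2 : N.relIndex (centralizer Z) ≤ e ^ 4 := by
    obtain ⟨v, -, w, -, hv⟩ := b6.b2 fun X hX => ih A M σ X ho (X.toAddSubgroup.card_le_card_addGroup.trans_lt m1) hX
    refine (Nat.card_le_card_of_injective (fun c => (σ c.out v, σ c.out w)) fun c d e => ?_).trans_eq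
      (by rw [Nat.card_prod, he]; ring)
    rw [← c.out_eq', ← d.out_eq', QuotientGroup.eq, mem_subgroupOf]
    obtain ⟨e1, e2⟩ := Prod.ext_iff.1 e
    exact b5 _ (Subtype.prop _) fun m => hv _ (by rw [Subgroup.coe_mul, mul_app, ← show _ = σ d.out v from e1]; exact inv_app _ _)
      (by rw [Subgroup.coe_mul, mul_app, ← show _ = σ d.out w from e2]; exact inv_app _ _) m trivial
  have m3 : ∀ r j, e ^ 2 = r ^ j → ((r = 3 ∨ r = 5 ∨ r = 7) ∧ j = 2) ∨ (r = 3 ∧ j = 4) → N.relIndex (centralizer Z) ∣ e ^ 2 - 1 :=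
    fun r j a c => he ▸ h.small ho s b1 b3 b5 b6 (he.trans a) c
  have t1 := k3.trans' (Nat.mul_le_pow (show 2 ≠ 1 by norm_num) _)
  have o2 := o1.2.not_two_dvd_nat
  by_cases c : e = 1
  · subst c
    have : centralizer (Z : Set A) ≤ Z := (relIndex_eq_one.1 (by omega)).trans (relIndex_eq_one.1 (s.card.symm.trans he))
    refine b2_stab _ (fun a ha => h0 a (this ha)) (fun a => h.fx_sq h0) ((sq_lt_two_pow _).trans_le ?_)
    rw [Nat.sub_add_cancel (Nat.pos_of_ne_zero index_ne_zero_of_finite), k4]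
    exact k3.trans (Nat.le_self_pow (by omega) _)
  by_cases c' : e = 3
  · subst c'
    have e1 := (Nat.dvd_prime_pow Nat.prime_two (m := 3)).1 (m3 3 2 rfl (by simp))
    have e2 : N.relIndex (centralizer Z) = 1 := by
      obtain ⟨i, -, e1⟩ := e1
      rcases i with _ | i
      · exact e1
      · exact absurd (e1 ▸ dvd_pow_self 2 i.succ_ne_zero) o2
    refine b2_one (fun a ha => (_root_.em (a ∈ centralizer (Z : Set A))).elim (fun c => h1 a (relIndex_eq_one.1 e2 c) ha) (h.fx_sq h0)) ?_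
    rw [← (centralizer (Z : Set A)).card_mul_index, c1, e2, k4]
    refine le_trans ?_ (Nat.pow_le_pow_right (by omega) k7)
    obtain ⟨k, rfl⟩ := Nat.exists_eq_add_of_le (k9 c)
    have := Nat.mul_le_mul (show Nat.card Z ≤ k + 2 by omega) t1
    nlinarith [Nat.zero_le (k ^ 3)]
  have e5 : 5 ≤ e := by have := o1.1.2.not_two_dvd_nat; omega
  refine b2_split _ (fun a => h.fx_sq h0) h2 ?_ ?_
  · rw [c1, k4]
    refine num k1 k2 o1.1.1 o1.1.2 r1 k7 m2 ?_ ?_ ?_ e5 <;> rintro rfl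
    · have := m3 5 2 rfl (by simp)
      exact Nat.le_of_dvd (by norm_num) ((o1.2.coprime_two_right.pow_right 3).dvd_of_dvd_mul_left (n := 3) this)
    · have := m3 7 2 rfl (by simp)
      exact Nat.le_of_dvd (by norm_num) ((o1.2.coprime_two_right.pow_right 4).dvd_of_dvd_mul_left (n := 3) this)
    · have := m3 3 4 rfl (by simp)
      exact Nat.le_of_dvd (by norm_num) ((o1.2.coprime_two_right.pow_right 4).dvd_of_dvd_mul_left (n := 5) this)
  · rw [k4]
    exact (Nat.pow_le_pow_left (by omega) _).trans (Nat.pow_le_pow_right (by omega) (by omega))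

/-- irreducible modules of groups of odd order have bases of size two -/
theorem th (n : ℕ) : Th.{u} n := by
  induction n with
  | zero => exact fun _ _ _ _ _ _ _ _ _ _ h => absurd h (Nat.not_lt_zero _)
  | succ n ih =>
    intro A V _ _ _ _ _ ρ U ho hU hi
    rcases subsingleton_or_nontrivial U with h | h
    · exact ⟨0, zero_mem _, 0, zero_mem _, fun a _ _ u hu => congrArg Subtype.val (Subsingleton.elim (α := U) ⟨_, hi.1 a u hu⟩ ⟨u, hu⟩)⟩
    let f := (ρ.subrepresentation U fun g u hu => hi.1 g u hu).toHomUnits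
    have := Finite.of_surjective _ f.rangeRestrict_surjective
    have := Group.isSolvable_of_surjective f.rangeRestrict_surjective
    obtain ⟨v, -, w, -, k⟩ := core (A := f.range) (V := U) (ρ := (Units.coeHom _).comp f.range.subtype)
      (fun A V _ _ _ _ _ ρ W a b => ih A V ρ W a (by omega)) (ho.of_dvd_nat (card_range_dvd f))
      (Units.val_injective.comp Subtype.val_injective) ⟨fun _ _ _ => trivial, fun W hW _ =>
        (hi.2 (W.map U.subtype) (by rintro a _ ⟨u, hu, rfl⟩; exact ⟨_, hW ⟨_, a, rfl⟩ u hu, rfl⟩) (U.map_subtype_le W)).imp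
          (fun e => Submodule.map_injective_of_injective U.injective_subtype (e.trans (Submodule.map_bot _).symm)) fun e =>
          Submodule.map_injective_of_injective U.injective_subtype (e.trans (Submodule.map_subtype_top U).symm)⟩
    exact ⟨v, v.2, w, w.2, fun a h1 h2 u hu => congrArg Subtype.val (k ⟨_, a, rfl⟩ (Subtype.ext h1) (Subtype.ext h2) ⟨u, hu⟩ trivial)⟩

/-- completely reducible modules of solvable groups of odd order have bases of size two -/
theorem b2_of_odd {A V : Type*} [Group A] [Finite A] [Group.IsSolvable A] [AddCommGroup V] [Finite V] {ρ : Representation ℤ A V}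
    (ho : Odd (Nat.card A)) (h : CR ρ) : B2 ρ ⊤ := by
  obtain ⟨B, _, _, ⟨e⟩⟩ := Finite.exists_type_univ_nonempty_mulEquiv A
  have := Group.isSolvable_of_surjective (f := e.toMonoidHom) e.surjective
  obtain ⟨v, -, w, -, k⟩ := CR.b2 (ρ := ρ.comp e.symm.toMonoidHom) (fun U hU => by
    obtain ⟨W, a, b⟩ := h U fun a u hu => by simpa using hU (e a) u hu
    exact ⟨W, fun g => a _, b⟩) fun X hX => th _ B V _ X (Nat.card_congr e.toEquiv ▸ ho) (Nat.lt_succ_self _) hX
  exact ⟨v, trivial, w, trivial, fun a h1 h2 u _ => by simpa using k (e a) (by simpa using h1) (by simpa using h2) u trivial⟩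

end H20.SL
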