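import Mathlib
import Cfsg.Agent.H20.SL4

/-!
Solvable linear groups (namespace H20.SL): bases indexed by `ι` (`Bs`), distinguishing colourings (`Gc`), the perfect group
trick `many`, rigid colourings of finite groups (`path_col`).
-/

set_option autoImplicit false
set_option linter.unusedSectionVars false
set_option linter.unusedVariables false

namespace H20.SL
open Subgroup
open scoped commutatorElement

theorem perm4_solv : Group.IsSolvable (Equiv.Perm (Fin 4)) := by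
  let V : Subgroup (Equiv.Perm (Fin 4)) :=
    { carrier := {g | g * g = 1 ∧ Equiv.Perm.sign g = 1}
      one_mem' := by simp
      mul_mem' := by simp only [Set.mem_ofPred_eq]; decide +kernel
      inv_mem' := by simp only [Set.mem_ofPred_eq]; decide +kernel }
  have h1 : derivedSeries (Equiv.Perm (Fin 4)) 1 ≤ alternatingGroup (Fin 4) :=
    commutator_le.2 fun a _ b _ => by simp [commutatorElement_def, mul_right_comm]
  have h2 : derivedSeries (Equiv.Perm (Fin 4)) 2 ≤ V := (commutator_mono h1 h1).trans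
    (commutator_le.2 (by
      change ∀ a : Equiv.Perm (Fin 4), Equiv.Perm.sign a = 1 → ∀ b : Equiv.Perm (Fin 4),
        Equiv.Perm.sign b = 1 → (a * b * a⁻¹ * b⁻¹) * (a * b * a⁻¹ * b⁻¹) = 1 ∧
          Equiv.Perm.sign (a * b * a⁻¹ * b⁻¹) = 1
      decide +kernel))
  refine ⟨⟨3, eq_bot_iff.2 ((commutator_mono h2 h2).trans (commutator_le.2 ?_))⟩⟩
  change ∀ a : Equiv.Perm (Fin 4), a * a = 1 ∧ Equiv.Perm.sign a = 1 → ∀ b : Equiv.Perm (Fin 4),
    b * b = 1 ∧ Equiv.Perm.sign b = 1 → a * b * a⁻¹ * b⁻¹ = 1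
  decide +kernel

/-- the elementary subgroup of `SL₃(ℤ)` -/
def E3 : Subgroup (Matrix.SpecialLinearGroup (Fin 3) ℤ) :=
  closure {a | ∃ (i j : Fin 3) (h : i ≠ j), a = Matrix.SpecialLinearGroup.transvection h 1}

theorem E3_perfect : Group.IsPerfect E3 := by
  refine isPerfect_iff.2 (le_antisymm (commutator_le.2 fun a ha b hb =>
    mul_mem (mul_mem (mul_mem ha hb) (inv_mem ha)) (inv_mem hb)) ((closure_le _).2 ?_))
  rintro _ ⟨i, j, h, rfl⟩
  obtain ⟨k, a, b⟩ : ∃ k, i ≠ k ∧ k ≠ j := by revert i j; decide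
  suffices e : Matrix.SpecialLinearGroup.transvection h (1 : ℤ) =
      ⁅Matrix.SpecialLinearGroup.transvection a (1 : ℤ), Matrix.SpecialLinearGroup.transvection b (1 : ℤ)⁆ from
    e ▸ commutator_mem_commutator (subset_closure ⟨i, k, a, rfl⟩ : _ ∈ E3) (subset_closure ⟨k, j, b, rfl⟩ : _ ∈ E3)
  rw [commutatorElement_def, eq_mul_inv_iff_mul_eq, eq_mul_inv_iff_mul_eq]
  refine Subtype.ext ?_
  simp only [Matrix.SpecialLinearGroup.coe_mul, Matrix.SpecialLinearGroup.transvection_coe]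
  revert i j k
  decide +kernel

open Classical Finset

theorem perf_hom {E S : Type*} [Group E] [Group S] [Group.IsPerfect E] [Group.IsSolvable S] (f : E →* S) (g : E) : f g = 1 := by
  by_contra h
  have : Nontrivial f.range := ⟨⟨f g, g, rfl⟩, 1, fun e => h (congrArg Subtype.val e)⟩
  have := Group.IsPerfect.range f
  exact Group.IsPerfect.not_isSolvable f.range inferInstance

/-- a perfect group commuting with a solvable group moves a point with normal stabilizer through five orbits -/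
theorem many {T X : Type*} (E : Type*) [Group T] [Group.IsSolvable T] [Group E] [Group.IsPerfect E] [MulAction T X] [MulAction E X]
    [SMulCommClass T E X] (x : X) (hn : (MulAction.stabilizer T x).Normal) :
    (∀ e : E, e • x = x) ∨ ∃ f : Fin 5 → E, ∀ i j (t : T), t • f i • x = f j • x → i = j := by
  let E0 : Subgroup E :=
    { carrier := {e | ∃ t : T, t • x = e • x}
      one_mem' := ⟨1, by simp⟩
      mul_mem' := by rintro a b ⟨s, hs⟩ ⟨t, ht⟩; exact ⟨t * s, by rw [mul_smul, hs, smul_comm, ht, mul_smul]⟩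
      inv_mem' := by rintro a ⟨s, hs⟩; exact ⟨s⁻¹, by rw [inv_smul_eq_iff, smul_comm, hs, inv_smul_smul]⟩ }
  by_cases h : Nonempty (Fin 5 ↪ E ⧸ E0)
  · obtain ⟨f⟩ := h
    refine .inr ⟨fun i => (f i).out, fun i j t e => f.injective ?_⟩
    rw [← (f i).out_eq', ← (f j).out_eq', QuotientGroup.eq]
    exact ⟨t, by rw [mul_smul, ← e, smul_comm t, inv_smul_smul]⟩
  obtain ⟨ι⟩ : Nonempty (E ⧸ E0 ↪ Fin 4) := by
    rcases finite_or_infinite (E ⧸ E0) with k | k
    · have := Fintype.ofFinite (E ⧸ E0)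
      rw [Function.Embedding.nonempty_iff_card_le] at h ⊢
      simpa [Nat.lt_succ_iff] using h
    · exact absurd ⟨Fin.valEmbedding.trans (Infinite.natEmbedding _)⟩ h
  have := perm4_solv
  have h1 : ∀ e, e ∈ E0 := fun e => by
    have := Equiv.congr_fun (Equiv.Perm.viaEmbeddingHom_injective ι ((perf_hom ((Equiv.Perm.viaEmbeddingHom ι).comp
      (MulAction.toPermHom E (E ⧸ E0))) e).trans (map_one _).symm)) (1 : E)
    simpa using QuotientGroup.eq.1 this.symm
  choose t ht using h1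
  have k : ∀ a b : T, (a : T ⧸ MulAction.stabilizer T x) = b ↔ a • x = b • x := fun a b => by
    rw [QuotientGroup.eq, MulAction.mem_stabilizer_iff, mul_smul, inv_smul_eq_iff, eq_comm]
  refine .inl fun e => ?_
  have := perf_hom (MonoidHom.mk' (fun e => ((t e : T ⧸ MulAction.stabilizer T x))⁻¹) fun a b => by
    rw [← mul_inv_rev, ← QuotientGroup.mk_mul, inv_inj, k, ht, mul_smul, mul_smul, ht, smul_comm (t b), ht]) e
  rw [← ht, (k _ 1).1 (inv_eq_one.1 this), one_smul]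

/-- two subsets of a finite group that are rigid under automorphisms -/
theorem path_col (M : Type*) [Group M] [Finite M] : ∃ B C : Set M, ∀ g : M →* M, Function.Injective g →
    (∀ m, m ≠ 1 → (m ∈ B → g m ∈ B) ∧ (m ∈ C → g m ∈ C)) → ∀ m, g m = m := by
  have : ∀ H : Subgroup M, ∃ a, H ≠ ⊤ → a ∉ H := fun H => by
    by_contra k
    push Not at k
    exact (k 1).1 (eq_top_iff.2 fun a _ => (k a).2)
  choose c hc using this
  let H : ℕ → Subgroup M := fun n => Nat.rec ⊥ (fun _ K => K ⊔ zpowers (c K)) n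
  let e : ℕ → M := fun n => Nat.rec 1 (fun n _ => c (H n)) n
  have h1 : Monotone H := monotone_nat_of_le_succ fun n => le_sup_left
  have h2 : ∀ n, e n ∈ H n := fun n => by
    cases n
    exacts [one_mem _, mem_sup_right (mem_zpowers _)]
  have h3 : ∀ n, H n ≠ ⊤ → e (n + 1) ∉ H n := fun n => hc _
  obtain ⟨d, hd⟩ : ∃ d, H d = ⊤ := by
    by_contra k
    push Not at k
    exact not_strictMono_of_wellFoundedGT H (strictMono_nat_of_lt_succ fun n =>
      lt_of_le_of_ne (h1 n.le_succ) fun a => h3 n (k n) (a ▸ h2 (n + 1)))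
  refine ⟨{a | ∃ i, H i ≠ ⊤ ∧ e (i + 1) = a}, {a | ∃ i, H i ≠ ⊤ ∧ e i * e (i + 1) = a}, fun g hg h m => ?_⟩
  have h4 : ∀ n, H n ≤ g.eqLocus (MonoidHom.id M) := fun n => by
    induction n with
    | zero => exact bot_le
    | succ n ih =>
      by_cases k : H n = ⊤
      · exact le_top.trans (k ▸ ih)
      refine sup_le ih ((zpowers_le).2 ?_)
      obtain ⟨l, a, b⟩ := (h _ fun e' => h3 n k (by rw [e']; exact one_mem _)).1 ⟨n, k, rfl⟩
      obtain ⟨j, a', b'⟩ := (h _ fun e' => h3 n k (by rw [eq_inv_of_mul_eq_one_right e']; exact inv_mem (h2 n))).2 ⟨n, k, rfl⟩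
      rw [map_mul, show g (e n) = e n from ih (h2 n), ← b] at b'
      have c1 : n ≤ l := not_lt.1 fun c => h3 n k (hg (b.symm.trans (ih (h1 c (h2 (l + 1)))).symm) ▸ h1 c (h2 (l + 1)))
      obtain rfl : l = j := by
        rcases lt_trichotomy l j with c | c | c
        · exact absurd ((mul_mem_cancel_left (h2 j)).1 (b' ▸ mul_mem (h1 (by omega) (h2 n)) (h1 c (h2 (l + 1))))) (h3 j a')
        · exact c
        · exact absurd ((mul_mem_cancel_left (h1 c1 (h2 n))).1 (b' ▸ mul_mem (h1 c.le (h2 j)) (h1 c (h2 (j + 1))))) (h3 l a)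
      rcases c1.eq_or_lt with rfl | c
      · exact b.symm
      obtain ⟨l, rfl⟩ := Nat.exists_eq_add_of_lt c
      exact absurd (mul_right_cancel b' ▸ h1 (by omega) (h2 n)) (h3 (n + l) fun c => a (top_le_iff.1 (c.ge.trans (h1 (n + l).le_succ))))
  exact h4 d (hd ▸ mem_top m)

section Bs
variable {A V ι κ : Type*} [Group A] [AddCommGroup V] {ρ : Representation ℤ A V} {U X Y : Submodule ℤ V}

/-- a base indexed by `ι` -/
def Bs (ι : Type*) (ρ : Representation ℤ A V) (U : Submodule ℤ V) : Prop :=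
  ∃ v : ι → V, (∀ i, v i ∈ U) ∧ ∀ a, (∀ i, ρ a (v i) = v i) → ∀ u ∈ U, ρ a u = u

theorem CR.bs [Finite V] (h : CR ρ) (h1 : ∀ X, Irr ρ X → Bs ι ρ X) : Bs ι ρ ⊤ := by
  refine h.ind (P := Bs ι ρ) ⟨0, fun _ => zero_mem _, fun a _ u hu => by rw [(Submodule.mem_bot ℤ).1 hu, map_zero]⟩
    (fun X a _ => h1 X a) ?_ ⊤ fun _ _ _ => trivial
  rintro X Y h hX hY ⟨v, hv, h1⟩ ⟨w, hw, h2⟩
  refine ⟨v + w, fun i => Submodule.add_mem_sup (hv i) (hw i), fun a e u hu => ?_⟩
  obtain ⟨x, hx, y, hy, rfl⟩ := Submodule.mem_sup.1 hu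
  rw [map_add, h1 a (fun i => (fix_add h hX hY (hv i) (hw i) (e i)).1) x hx,
    h2 a (fun i => (fix_add h hX hY (hv i) (hw i) (e i)).2) y hy]

/-- a colouring of the left cosets of `S` whose stabilizer lies in the core of `S` -/
def Gc (κ : Type*) (S : Subgroup A) : Prop :=
  ∃ Δ : A → κ, (∀ g, ∀ s ∈ S, Δ (g * s) = Δ g) ∧ ∀ a, (∀ g, Δ (a * g) = Δ g) → ∀ g, g⁻¹ * a * g ∈ S

theorem wreath' {X : Type*} [MulAction A X] {T : Subgroup A} (hT : Gc κ T) (x : κ → X) (K : Set A)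
    (h1 : ∀ t ∈ T, ∀ i j, t • x i = x j → i = j ∧ t ∈ K) (h4 : ∀ t ∈ T, ∀ k ∈ K, t⁻¹ * k * t ∈ K) :
    ∃ F : A ⧸ T → X, (∀ c, ∃ i, F c = c.out • x i) ∧ ∀ a : A, (∀ c, a • F c = F (a • c)) → ∀ g, g⁻¹ * a * g ∈ K := by
  obtain ⟨Δ, d1, d2⟩ := hT
  have e0 : ∀ g : A, Δ (g : A ⧸ T).out = Δ g := fun g => by
    obtain ⟨t, ht⟩ := QuotientGroup.mk_out_eq_mul T g
    rw [ht, d1 _ _ t.2]
  refine ⟨fun c => c.out • x (Δ c.out), fun c => ⟨_, rfl⟩, fun a ha => ?_⟩
  have e1 : ∀ c : A ⧸ T, (a • c).out⁻¹ * (a * c.out) ∈ T := fun c =>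
    QuotientGroup.eq.1 (by rw [QuotientGroup.out_eq', ← smul_eq_mul, MulAction.Quotient.mk_smul_out])
  have e2 := fun c : A ⧸ T => h1 _ (e1 c) (Δ c.out) (Δ (a • c).out) (by rw [mul_smul, mul_smul, ha c, inv_smul_smul])
  have e3 := d2 a fun g => by rw [← e0 g, ← e0 (a * g)]; exact (e2 g).1.symm
  intro g
  obtain ⟨t, ht⟩ := QuotientGroup.mk_out_eq_mul T g
  have e4 : a • (g : A ⧸ T) = g := QuotientGroup.eq.2 (by simpa [mul_assoc] using inv_mem (e3 g))
  have := h4 _ (inv_mem t.2) _ (e2 g).2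
  rw [e4, ht] at this
  convert this using 1; group

/-- gluing colourings along a chain of subgroups -/
theorem Gc.trans [Inhabited κ] {S T : Subgroup A} (hle : S ≤ T) (hT : Gc κ T) (Δ : κ → T → κ)
    (d1 : ∀ i g, ∀ s ∈ S.subgroupOf T, Δ i (g * s) = Δ i g)
    (d2 : ∀ i j t, (∀ g, Δ i (t * g) = Δ j g) → i = j ∧ ∀ g, g⁻¹ * t * g ∈ S.subgroupOf T) : Gc κ S := by
  let _ : MulAction A (A → κ) := arrowAction
  have e : ∀ (a : A) (D : A → κ) g, (a • D) g = D (a⁻¹ * g) := fun _ _ _ => rfl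
  obtain ⟨F, f1, f2⟩ := wreath' hT (fun i g => if h : g ∈ T then Δ i ⟨g, h⟩ else default) {a | ∀ g ∈ T, g⁻¹ * a * g ∈ S}
    (fun t ht i j b => by
      have := d2 i j ⟨t, ht⟩⁻¹ fun g => by
        have := congrFun b g
        rwa [e, dif_pos (mul_mem (inv_mem ht) g.2), dif_pos g.2] at this
      exact ⟨this.1, fun g hg => by simpa [mul_assoc] using inv_mem (mem_subgroupOf.1 (this.2 ⟨g, hg⟩))⟩)
    fun t ht a ha g hg => by simpa [mul_assoc] using ha _ (mul_mem ht hg)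
  have f3 : ∀ (c : A ⧸ T) (g : A), (g : A ⧸ T) ≠ c → F c g = default := fun c g b => by
    obtain ⟨i, k⟩ := f1 c
    rw [k, e, dif_neg fun h => b ((QuotientGroup.eq.2 h).symm.trans c.out_eq')]
  refine ⟨fun g => F g g, fun g s hs => ?_, fun a ha g => ?_⟩
  · beta_reduce
    rw [QuotientGroup.mk_mul_of_mem _ (hle hs)]
    obtain ⟨i, b⟩ := f1 g
    have k : (g : A ⧸ T).out⁻¹ * g ∈ T := QuotientGroup.eq.1 (QuotientGroup.out_eq' _)
    rw [b, e, e, ← mul_assoc, dif_pos k, dif_pos (mul_mem k (hle hs))]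
    exact d1 i ⟨_, k⟩ ⟨s, hle hs⟩ hs
  · refine (by simp : 1⁻¹ * (g⁻¹ * a * g) * 1 = g⁻¹ * a * g) ▸ f2 a (fun c => funext fun u => ?_) g 1 (one_mem T)
    by_cases b : ((a⁻¹ * u : A) : A ⧸ T) = c
    · rw [e, ← b, MulAction.Quotient.smul_mk, smul_eq_mul]
      simpa only [mul_inv_cancel_left] using (ha (a⁻¹ * u)).symm
    · rw [e, f3 _ _ b, f3 _ _ fun k => b (by rw [← smul_eq_mul, ← MulAction.Quotient.smul_mk, k, inv_smul_smul])]

end Bs

end H20.SL
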