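import Mathlib
import Cfsg.Agent.H20.SL5

/-!
Solvable linear groups (namespace H20.SL): five-colourings of solvable permutation groups (`gc5`), weight spaces of class two
subgroups (`Wt`), and the base three theorem (`th3`, `bs3`).
-/

set_option autoImplicit false
set_option linter.unusedSectionVars false
set_option linter.unusedVariables false

namespace H20.SL
open Classical Finset Subgroup
open scoped commutatorElement

universe u

variable {A V : Type u} [Group A] [Finite A] [AddCommGroup V] [Finite V] {ρ : Representation ℤ A V} {Z N : Subgroup A}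

/-- the base three theorem for irreducible modules of order less than `n` -/
def Th3 (n : ℕ) : Prop := ∀ (A V : Type u) [Group A] [Finite A] [Group.IsSolvable A] [AddCommGroup V] [Finite V]
  (ρ : Representation ℤ A V) (U : Submodule ℤ V), Nat.card U < n → Irr ρ U → Bs (Fin 3) ρ U

theorem gc_coatom {n : ℕ} (ih : Th3.{u} n) [Group.IsSolvable A] {S : Subgroup A} (hS : IsCoatom S) (hn : S.index < n) :
    Gc (Fin 5) S := by
  obtain ⟨N, hN, M, _, _, σ, π, h, h1, h2, h3, h4⟩ := exists_affine hS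
  obtain ⟨v, -, h5⟩ := ih A M σ ⊤ (((Nat.card_congr Submodule.topEquiv.toEquiv).trans_le h2).trans_lt hn) h1
  choose x hx hx' using fun i => h.surj (v i)
  have k1 : ∀ s ∈ S, ∀ y ∈ N, ∀ y' ∈ N, s • (y : A ⧸ S) = y' ↔ σ s (π y) = π y' := fun s hs y hy y' hy' => by
    have e := hN.conj_mem _ hy s
    rw [h.conj _ _ hy, h.eq_iff e hy', MulAction.Quotient.smul_mk, QuotientGroup.eq]
    refine ⟨fun a => (h.ker _ (mul_mem (inv_mem e) hy')).1 (h3 _ (mul_mem (inv_mem e) hy') ?_), fun a => ?_⟩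
    · simpa [mul_assoc] using mul_mem hs a
    · simpa [mul_assoc] using mul_mem (inv_mem hs) (S.normalCore_le a)
  let p : Fin 4 → A := Fin.cons 1 x
  refine ⟨fun g => if h : ∃ i, (p i : A ⧸ S) = g then h.choose.castSucc else Fin.last 4, fun g s hs => by
    simp only [QuotientGroup.mk_mul_of_mem _ hs], fun a ha g => ?_⟩
  have k2 : ∀ i, a • (p i : A ⧸ S) = p i := fun i => by
    have e := ha (p i)
    have e' : ∃ j, (p j : A ⧸ S) = p i := ⟨i, rfl⟩
    simp only [dif_pos e'] at e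
    split_ifs at e with b
    · exact b.choose_spec.symm.trans (Fin.castSucc_injective _ e ▸ e'.choose_spec)
    · exact absurd e.symm (Fin.castSucc_ne_last _)
  have k5 : a ∈ S := by simpa [p] using QuotientGroup.eq.1 (k2 0).symm
  obtain ⟨z, hz, e'⟩ := h4 g
  have := QuotientGroup.eq.1 ((k1 a k5 z hz z hz).2 (h5 a (fun i => hx' i ▸ (k1 a k5 _ (hx i) _ (hx i)).1 (k2 i.succ)) _ trivial))
  simpa [mul_assoc] using mul_mem (mul_mem (inv_mem e') (inv_mem this)) e'

/-- solvable permutation groups have distinguishing five-colourings -/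
theorem gc5 {n : ℕ} (ih : Th3.{u} n) [Group.IsSolvable A] (S : Subgroup A) (hn : S.index < n) : Gc (Fin 5) S := by
  induction hA : Nat.card A using Nat.strong_induction_on generalizing A with
  | _ m IH =>
  rcases eq_top_or_exists_le_coatom S with rfl | ⟨T, hT, hle⟩
  · exact ⟨fun _ => 0, fun _ _ _ => rfl, fun _ _ _ => trivial⟩
  have h1 := relIndex_mul_index hle
  have h2 := S.index_ne_zero_of_finite
  obtain ⟨Δ, d1, d2⟩ := IH _ (hA ▸ lt_of_le_of_ne (Finite.card_subtype_le _) fun e => hT.1 (eq_top_of_card_eq T e)) (S.subgroupOf T)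
    ((Nat.le_of_dvd (Nat.pos_of_ne_zero h2) (Dvd.intro _ h1)).trans_lt hn) rfl
  let _ : MulAction T (T → Fin 5) := arrowAction
  have : SMulCommClass T (alternatingGroup (Fin 5)) (T → Fin 5) := ⟨fun _ _ _ => rfl⟩
  have : Group.IsPerfect (alternatingGroup (Fin 5)) := Group.isPerfect_def.2 (commutator_alternatingGroup_eq_top (by simp))
  obtain h | ⟨f, hf⟩ := many (T := T) (alternatingGroup (Fin 5)) Δ ⟨fun a ha g => funext fun u => by
    refine Eq.trans ?_ (d1 u _ (d2 a⁻¹ (congrFun ha) (g⁻¹ * u)))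
    show Δ ((g * a * g⁻¹)⁻¹ * u) = Δ _
    congr 1; group⟩
  · have k : ∀ c : Fin 5, ∃ e : alternatingGroup (Fin 5), e • c ≠ c := by decide +kernel
    exact absurd (congrFun (h (k (Δ 1)).choose) 1) (k (Δ 1)).choose_spec
  refine Gc.trans hle (gc_coatom ih hT ((Nat.le_of_dvd (Nat.pos_of_ne_zero h2) (Dvd.intro_left _ h1)).trans_lt hn))
    (fun i => f i • Δ) (fun i g s hs => congrArg (f i • ·) (d1 g s hs)) fun i j t e => ?_
  obtain rfl := hf i j t⁻¹ (funext fun g => (congrArg (fun t => (f i • Δ) (t * g)) (inv_inv t)).trans (e g))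
  exact ⟨rfl, d2 t fun g => MulAction.injective (f i) (e g)⟩

open scoped Matrix.Module in
theorem Imp.b3 [Group.IsSolvable A] {T : Subgroup A} {W : Submodule ℤ V} (h : Imp ρ T W) (ih : Th3.{u} (Nat.card V))
    (hi : Irr ρ ⊤) : Bs (Fin 3) ρ ⊤ := by
  obtain ⟨U, hU, h0, h1⟩ := exists_irr (ρ := ρ.comp T.subtype) (fun t => h.inv t t.2) h.ne'
  obtain ⟨v, hv, j, hne, h2⟩ : ∃ v : Fin 3 → V, (∀ i, v i ∈ U) ∧ ∃ j, v j ≠ 0 ∧
      ∀ a ∈ T, (∀ i, ρ a (v i) = v i) → ∀ u ∈ U, ρ a u = u := by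
    obtain ⟨v, hv, h2⟩ := ih T V _ U (h.card_lt hU) h1
    obtain ⟨u, hu, u0⟩ := U.exists_mem_ne_zero_of_ne_bot h0
    by_cases e : ∃ j, v j ≠ 0
    · exact ⟨v, hv, e.choose, e.choose_spec, fun a ha => h2 ⟨a, ha⟩⟩
    · push Not at e
      exact ⟨fun _ => u, fun _ => hu, 0, u0, fun a ha _ => h2 ⟨a, ha⟩ (by simp [e])⟩
  let _ : MulAction A V := MulAction.compHom V (ρ : A →* Module.End ℤ V)
  let _ : MulAction E3 (Fin 3 → V) := MulAction.compHom _ (Matrix.SpecialLinearGroup.coeMonoidHom.comp E3.subtype)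
  have e0 : ∀ (e : E3) (x : Fin 3 → V) i, (e • x) i = ∑ j, e.1.1 i j • x j := fun _ _ _ => rfl
  have : SMulCommClass T E3 (Fin 3 → V) := ⟨fun t e x => funext fun i => by
    show ρ t _ = _
    rw [e0, e0, map_sum]
    exact sum_congr rfl fun j _ => map_smul _ _ _⟩
  have := E3_perfect
  have k1 : ∀ t ∈ T, ∀ k ∈ {a | ∀ u ∈ U, ρ a u = u}, t⁻¹ * k * t ∈ {a | ∀ u ∈ U, ρ a u = u} := fun t ht k hk u hu => by
    rw [mul_app, mul_app, hk (ρ t u) (h1.1 ⟨t, ht⟩ u hu), inv_app]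
  obtain k | ⟨f, hf⟩ := many (T := T) E3 v ⟨fun a ha g => funext fun i => by
    show ρ (g * a * g⁻¹ : T) _ = _
    simpa using k1 _ g⁻¹.2 _ (h2 _ a.2 (congrFun ha)) _ (hv i)⟩
  · obtain ⟨i, hi⟩ := exists_ne j
    have := congrFun (k ⟨_, subset_closure ⟨i, j, hi, rfl⟩⟩) i
    simp [e0, Matrix.SpecialLinearGroup.transvection_coe, add_smul, sum_add_distrib, Matrix.one_apply, Matrix.single_apply,
      hne] at this
  obtain ⟨F, f1, f2⟩ := wreath' (gc5 ih T h.index_lt) (fun i => f i • v) {a | ∀ u ∈ U, ρ a u = u} (fun t ht i j e => by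
    obtain rfl := hf i j ⟨t, ht⟩ e
    exact ⟨rfl, h2 t ht (congrFun (MulAction.injective (f i) ((smul_comm (⟨t, ht⟩ : T) (f i) v).symm.trans e)))⟩) k1
  have := Fintype.ofFinite (A ⧸ T)
  have f3 : ∀ i c, ρ c.out⁻¹ (F c i) ∈ W := fun i c => by
    obtain ⟨l, e⟩ := f1 c
    rw [e]
    show ρ _ (ρ _ _) ∈ W
    rw [inv_app, e0]
    exact hU (sum_mem fun j _ => U.smul_mem _ (hv j))
  exact ⟨fun i => ∑ c, F c i, fun _ => trivial, fun a a1 u _ => hi.fix_of_conj h0 (f2 a fun c =>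
    funext fun i => h.glue hi hU h0 (f3 i) (a1 i) c) u⟩

theorem exists_gen {G H : Type*} [Group G] [Finite G] [Group H] (f : G →* H) [IsCyclic f.range] :
    ∃ i, ∀ p, ∃ k : ℕ, f (i ^ k) = f p := by
  have := Finite.of_surjective _ f.rangeRestrict_surjective
  obtain ⟨⟨_, i, rfl⟩, hi⟩ := IsCyclic.exists_monoid_generator (α := f.range)
  exact ⟨i, fun p => (hi ⟨_, p, rfl⟩).imp fun k e => by simpa using congrArg Subtype.val e⟩

theorem cyc_of_irr (hc : ∀ a b : A, a * b = b * a) {U : Submodule ℤ V} (hi : Irr ρ U) (h0 : U ≠ ⊥) :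
    ∃ j : A, ∀ a, ∃ k : ℕ, ∀ u ∈ U, ρ (j ^ k) u = ρ a u := by
  let f := (ρ.subrepresentation U fun g u hu => hi.1 g u hu).toHomUnits
  have := Finite.of_surjective _ f.rangeRestrict_surjective
  have := Submodule.nontrivial_iff_ne_bot.2 h0
  have e : (⊤ : Subgroup f.range) ≤ centralizer (⊤ : Subgroup f.range) := by
    rintro ⟨_, a, rfl⟩ - ⟨_, b, rfl⟩ -
    exact Subtype.ext (by simp only [Subgroup.coe_mul, ← map_mul, hc a])
  have := cyc_of_dom (A := f.range) (V := U) (ρ := (Units.coeHom _).comp f.range.subtype) (Z := ⊤)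
    (Units.val_injective.comp Subtype.val_injective) e fun a ha a0 => (injective_iff_map_eq_zero a).2 fun w hw => by
      rcases hi.2 ((LinearMap.ker a).map U.subtype) (by
        rintro g _ ⟨u, hu, rfl⟩
        refine ⟨(f g).1 u, ?_, rfl⟩
        have := LinearMap.congr_fun (clos_comm e a ha _ (Subring.subset_closure ⟨⟨_, g, rfl⟩, trivial, rfl⟩)) u
        simp only [Module.End.mul_apply, LinearMap.mem_ker.1 hu, map_zero] at this
        exact this) (U.map_subtype_le _) with k | k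
      · exact Subtype.ext (k.le ⟨w, hw, rfl⟩)
      · refine absurd (LinearMap.ext fun u => ?_) a0
        obtain ⟨w, hw, e⟩ := k.ge u.2
        exact (Subtype.ext e : w = u) ▸ hw
  have := isCyclic_of_surjective _ (topEquiv (G := f.range)).surjective
  obtain ⟨j, hj⟩ := exists_gen f
  exact ⟨j, fun a => (hj a).imp fun k e u hu => congrArg (fun t : (Module.End ℤ U)ˣ => (t.1 ⟨u, hu⟩ : V)) e⟩

/-- stabilizer of a vector -/
def St (ρ : Representation ℤ A V) (x : V) : Subgroup A where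
  carrier := {a | ρ a x = x}
  mul_mem' {a b} ha hb := by rw [Set.mem_ofPred_eq, mul_app, hb, ha]
  one_mem' := by simp
  inv_mem' {a} ha := by rw [Set.mem_ofPred_eq, ← (app_inj (ρ := ρ) a).eq_iff, app_inv, ha]

namespace QP
variable (h : QP Z N) (h0 : ∀ z ∈ Z, z ≠ 1 → fx ρ z = ⊥)
include h h0

theorem eq_one {z : A} (hz : z ∈ Z) {x : V} (hx : x ≠ 0) (e : ρ z x = x) : z = 1 := by_contra fun k => hx ((h0 z hz k).le e)

theorem indep {D : Subgroup A} (hD : D ≤ N) {ι : Type*} {r : ι → A} (hr : ∀ u, r u ∈ N)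
    (hi : ∀ u u', (r u)⁻¹ * r u' ∈ centralizer (D : Set A) → u = u') (s : Finset ι) :
    ∀ ω : ι → V, (∀ u, ∀ d ∈ D, ρ d (ω u) = ω u) → ∑ u ∈ s, ρ (r u) (ω u) = 0 → ∀ u ∈ s, ω u = 0 := by
  have hm : ∀ d ∈ D, ∀ u, ⁅d, r u⁆ ∈ Z := fun d hd u => h.comm (commutator_mem_commutator (hD hd) (hr u))
  have hc : ∀ y ∈ N, ∀ z ∈ Z, ∀ v, ρ y (ρ z v) = ρ z (ρ y v) := fun y hy z hz v => by rw [← mul_app, ← h.cen hy z hz, mul_app]
  induction s using Finset.induction_on with
  | empty => simp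
  | insert c s hc' ih =>
    intro ω hω e
    rw [sum_insert hc'] at e
    have k : ∀ d ∈ D, ∀ u, ρ d (ρ (r u) (ω u)) = ρ ⁅d, r u⁆ (ρ (r u) (ω u)) := fun d hd u => by
      conv_rhs => rw [← hω u d hd]
      simp only [← mul_app, commutatorElement_def]
      congr 2; group
    have h7 : ∀ u ∈ s, ω u = 0 := fun u hu => by
      obtain ⟨d, hd, a⟩ : ∃ d ∈ D, ⁅d, r u⁆ ≠ ⁅d, r c⁆ := by
        by_contra b
        push Not at b
        refine hc' (hi u c (fun d hd => ?_) ▸ hu)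
        have := b _ (inv_mem hd)
        rw [commutatorElement_def, commutatorElement_def, mul_assoc, mul_assoc, mul_assoc, mul_assoc, mul_right_inj, inv_inv] at this
        calc _ = (r u)⁻¹ * (r u * (d * (r u)⁻¹)) * r c := by group
          _ = _ := by rw [this]; group
      have := ih (fun v => ρ ⁅d, r v⁆ (ω v) - ρ ⁅d, r c⁆ (ω v)) (fun v d' hd' => by
        rw [map_sub, hc _ (hD hd') _ (hm d hd _), hc _ (hD hd') _ (hm d hd _), hω _ _ hd']) (by
        simp only [map_sub, hc _ (hr _) _ (hm d hd _), ← k d hd, sum_sub_distrib, ← map_sum, eq_neg_of_add_eq_zero_right e,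
          map_neg, sub_self]) u hu
      by_contra b
      exact a (inv_mul_eq_one.1 (h.eq_one h0 (mul_mem (inv_mem (hm d hd c)) (hm d hd u)) b (by
        rw [mul_app, sub_eq_zero.1 this, inv_app]))).symm
    rw [sum_eq_zero fun u hu => by rw [h7 u hu, map_zero], add_zero] at e
    exact fun u hu => (mem_insert.1 hu).elim (fun k => k ▸ app_inj _ (e.trans (map_zero _).symm)) (h7 u)

theorem st_le {x : V} (hx : x ≠ 0) : N ⊓ St ρ x ≤ centralizer ↑(N ⊓ St ρ x) := fun a ha b hb =>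
  commutatorElement_eq_one_iff_mul_comm.1 (h.eq_one h0 (h.comm (commutator_mem_commutator hb.1 ha.1)) hx
    ((St ρ x).mul_mem ((St ρ x).mul_mem ((St ρ x).mul_mem hb.2 ha.2) ((St ρ x).inv_mem hb.2)) ((St ρ x).inv_mem ha.2)))

/-- a vector with a maximal stabilizer `D` in `N`; then `C_N(D) / D` is generated by two elements -/
theorem exists_wt [Nontrivial V] : ∃ x : V, x ≠ 0 ∧ ∃ i ∈ N ⊓ centralizer ↑(N ⊓ St ρ x), ∃ j ∈ N ⊓ centralizer ↑(N ⊓ St ρ x),
    ∀ p ∈ N ⊓ centralizer ↑(N ⊓ St ρ x), ∃ (k m : ℕ), ∃ d ∈ N ⊓ St ρ x, p = i ^ k * j ^ m * d := by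
  have := h.nn
  have := h.cyc
  obtain ⟨_, ⟨x, hx, rfl⟩, h1⟩ := exists_maximal_of_wellFoundedGT (fun D : Subgroup A => ∃ x : V, x ≠ 0 ∧ D = N ⊓ St ρ x)
    ⟨_, _, (exists_ne 0).choose_spec, rfl⟩
  have h2 := h.st_le h0 hx
  set D := N ⊓ St ρ x with hD
  obtain ⟨L, ⟨l1, l2, l3⟩, l4⟩ := exists_maximal_of_wellFoundedGT (fun L : Subgroup A => D ≤ L ∧ L ≤ N ∧ L ≤ centralizer L)
    ⟨D, le_rfl, inf_le_left, h2⟩
  have l5 : L ≤ centralizer D := l3.trans (centralizer_le l1)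
  have l6 : ∀ y ∈ N, y ∈ centralizer (L : Set A) → y ∈ L := fun y a b => l4 (y := L ⊔ zpowers y)
    ⟨le_sup_of_le_left l1, sup_le l2 ((zpowers_le).2 a), by
      have e : L ⊔ zpowers y ≤ centralizer {y} := sup_le (fun l hl => mem_centralizer_singleton_iff.2 (b l hl))
        ((zpowers_le).2 (mem_centralizer_singleton_iff.2 rfl))
      exact sup_le (le_centralizer_iff.1 (sup_le l3 ((zpowers_le).2 b))) ((zpowers_le).2 fun l hl =>
        mem_centralizer_singleton_iff.1 (e hl))⟩ le_sup_left (mem_sup_right (mem_zpowers y))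
  obtain ⟨U, u1, u2, u3⟩ := exists_irr (ρ := ρ.comp L.subtype) (U := ⨅ d ∈ D, fx ρ d) (fun l v hv => by
    simp only [Submodule.mem_iInf, mem_fx] at hv ⊢
    intro d hd
    show ρ d (ρ l v) = ρ l v
    rw [← mul_app, l5 l.2 d hd, mul_app, hv d hd]) fun e => hx (e.le (by simp only [Submodule.mem_iInf]; exact fun d hd => hd.2))
  obtain ⟨j, hj⟩ := cyc_of_irr (fun a b => Subtype.ext (l3 b.2 a a.2)) u3 u2
  obtain ⟨u, hu, u0⟩ := U.exists_mem_ne_zero_of_ne_bot u2
  have l7 : ∀ l ∈ L, ∃ m : ℕ, ∃ d ∈ D, l = j ^ m * d := fun l hl => by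
    obtain ⟨m, hm⟩ := hj ⟨l, hl⟩
    refine ⟨m, (j ^ m)⁻¹ * l, h1 ⟨u, u0, rfl⟩ (fun d hd => ⟨hd.1, ?_⟩) ⟨l2 (mul_mem (inv_mem (pow_mem j.2 m)) hl), ?_⟩, by simp⟩
    · have := u1 hu
      simp only [Submodule.mem_iInf] at this
      exact this d hd
    · show ρ _ u = u
      rw [mul_app, ← show _ = ρ l u from hm u hu]
      exact inv_app _ _
  let f : ↥(N ⊓ centralizer (D : Set A)) →* Z := MonoidHom.mk' (fun p => ⟨⁅(j : A), p⁆, h.comm (commutator_mem_commutator (l2 j.2) p.2.1)⟩)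
    fun a b => Subtype.ext (h.comm_mul a.2.1 (h.comm (commutator_mem_commutator (l2 j.2) b.2.1)))
  obtain ⟨i, hi⟩ := exists_gen f
  refine ⟨x, hx, i, i.2, j, ⟨l2 j.2, l5 j.2⟩, fun p hp => ?_⟩
  obtain ⟨k, hk⟩ := hi ⟨p, hp⟩
  have e : f ((i ^ k)⁻¹ * ⟨p, hp⟩) = 1 := by rw [map_mul, map_inv, hk, inv_mul_cancel]
  have e0 := ((i ^ k)⁻¹ * ⟨p, hp⟩).2
  obtain ⟨m, d, hd, e'⟩ := l7 _ (l6 _ e0.1 fun l hl => by
    obtain ⟨m, d, hd, rfl⟩ := l7 l hl
    exact (((commutatorElement_eq_one_iff_commute.1 (congrArg Subtype.val e)).pow_left m).mul_left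
      (show Commute d _ from e0.2 d hd) :))
  exact ⟨k, m, d, hd, by rw [mul_assoc, ← e']; simp⟩

/-- an element fixing the whole `N`-orbit of a nonzero vector is trivial -/
theorem eq_one_of_fix (hC : centralizer (N : Set A) ≤ Z) {x : V} (hx : x ≠ 0) {g : A} (hg : ∀ n ∈ N, ρ g (ρ n x) = ρ n x) :
    g = 1 := by
  have := h.nn
  have g1 : ρ g x = x := by simpa using hg 1 (one_mem _)
  refine h.eq_one h0 (hC fun n hn => ?_) hx g1
  have a : n⁻¹ * (g * n * g⁻¹) ∈ N := mul_mem (inv_mem hn) (h.nn.conj_mem _ hn g)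
  have b : ∀ m ∈ N, ρ (n⁻¹ * (g * n * g⁻¹)) (ρ m x) = ρ m x := fun m hm => by
    conv_lhs => rw [← hg m hm]
    rw [mul_app, mul_app, mul_app, inv_app, ← mul_app n, hg _ (mul_mem hn hm), mul_app, inv_app]
  have c := h.eq_one h0 (h.nd a fun m hm => h.eq_one h0 (h.comm (commutator_mem_commutator a hm)) hx (by
    rw [commutatorElement_def, mul_app, mul_app, mul_app, ← b _ (inv_mem hm), inv_app, app_inv]
    simpa using b 1 (one_mem _))) hx (by simpa using b 1 (one_mem _))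
  rw [inv_mul_eq_one, eq_mul_inv_iff_mul_eq] at c
  exact c

theorem fix_mul {x : V} {g n p : A} (hg : ρ g x = x) (hn : n ∈ N) (hp : p ∈ centralizer ((N ⊓ St ρ x : Subgroup A) : Set A))
    (e : ρ g (ρ n x) = ρ n x) (e' : ρ g (ρ p x) = ρ p x) : ρ g (ρ (n * p) x) = ρ (n * p) x := by
  have a : n⁻¹ * (g * n * g⁻¹) ∈ N ⊓ St ρ x := ⟨N.mul_mem (inv_mem hn) (h.nn.conj_mem _ hn g), by
    show ρ _ x = x
    rw [mul_app, mul_app, mul_app, show ρ g⁻¹ x = x from (St ρ x).inv_mem hg, e, inv_app]⟩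
  rw [mul_app, ← mul_app g, show g * n = n * (n⁻¹ * (g * n * g⁻¹)) * g by group, mul_app, mul_app, e', ← mul_app _ p, hp _ a,
    mul_app, show ρ _ x = x from a.2]

theorem bs3 [Nontrivial V] (hC : centralizer (N : Set A) ≤ Z) : Bs (Fin 3) ρ ⊤ := by
  have := h.nn
  obtain ⟨x, hx, i, hi, j, hj, hP⟩ := h.exists_wt h0
  by_cases hz : Z = ⊥
  · refine ⟨0, fun _ => trivial, fun a _ u _ => ?_⟩
    have : a ∈ (⊥ : Subgroup A) := hz ▸ hC fun n hn => by
      rw [(mem_bot.1 (hz ▸ h.nd hn fun y hy => mem_bot.1 (hz ▸ h.comm (commutator_mem_commutator hn hy))) : n = 1)]; simp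
    simp [mem_bot.1 this]
  obtain ⟨⟨z, hz1⟩, hz2⟩ := ne_bot_iff_exists_ne_one.1 hz
  set D := N ⊓ St ρ x with hD
  have hZ : Z ≤ centralizer D := le_centralizer_iff.1 (inf_le_left.trans h.cen)
  let P := (centralizer (D : Set A)).subgroupOf N
  have : P.Normal := ⟨fun p hp n => by
    have := mul_mem (hZ (h.comm (commutator_mem_commutator n.2 p.2))) hp
    simpa [commutatorElement_def, P, mem_subgroupOf] using this⟩
  obtain ⟨B, C, hBC⟩ := path_col (N ⧸ P)
  have := Fintype.ofFinite (N ⧸ P)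
  let r : N ⧸ P → N := fun u => if u = 1 then 1 else u.out
  have r1 : ∀ u, (r u : N ⧸ P) = u := fun u => by
    simp only [r]; split_ifs with a
    exacts [a.symm, u.out_eq']
  let α : N ⧸ P → V := fun u => if u = 1 then ρ j x else if u ∈ B ∨ u ∈ C then x else 0
  let β : N ⧸ P → V := fun u => if u = 1 then ρ i x else if u ∈ B then (if u ∈ C then ρ z x else x) else if u ∈ C then 0 else x
  have w1 : ∀ p ∈ centralizer (D : Set A), ∀ v, (∀ d ∈ D, ρ d v = v) → ∀ d ∈ D, ρ d (ρ p v) = ρ p v := fun p hp v hv d hd => by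
    rw [← mul_app, hp d hd, mul_app, hv d hd]
  have w2 : ∀ d ∈ D, ρ d x = x := fun d hd => hd.2
  have w3 : ∀ u, ∀ d ∈ D, ρ d (α u) = α u := fun u => by
    simp only [α]; split_ifs
    exacts [w1 _ hj.2 _ w2, w2, fun _ _ => map_zero _]
  have w4 : ∀ u, ∀ d ∈ D, ρ d (β u) = β u := fun u => by
    simp only [β]; split_ifs
    exacts [w1 _ hi.2 _ w2, w1 _ (hZ hz1) _ w2, w2, fun _ _ => map_zero _, w2]
  refine ⟨![x, ∑ u, ρ (r u) (α u), ∑ u, ρ (r u) (β u)], fun _ => trivial, fun g hg v _ => ?_⟩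
  have g0 : g ∈ St ρ x := hg 0
  have g1 : ∀ g ∈ St ρ x, ∀ d ∈ D, g⁻¹ * d * g ∈ D := fun g hg d hd =>
    ⟨h.nn.conj_mem' _ hd.1 g, (St ρ x).mul_mem ((St ρ x).mul_mem (inv_mem hg) hd.2) hg⟩
  have g2 : ∀ g ∈ St ρ x, ∀ p ∈ centralizer (D : Set A), g * p * g⁻¹ ∈ centralizer (D : Set A) := fun g hg p hp d hd => by
    calc _ = g * (g⁻¹ * d * g * p) * g⁻¹ := by group
      _ = _ := by rw [hp _ (g1 g hg d hd)]; group
  let φ := QuotientGroup.map P P (MulAut.conjNormal g : MulAut N).toMonoidHom fun p hp =>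
    (g2 g g0 _ hp : (MulAut.conjNormal g p : A) ∈ centralizer (D : Set A))
  have φ1 : Function.Injective φ := (injective_iff_map_eq_one φ).2 fun u => QuotientGroup.induction_on u fun n e => by
    simpa [mul_assoc, P, mem_subgroupOf] using g2 _ (inv_mem g0) _ ((QuotientGroup.eq_one_iff (N := P) (MulAut.conjNormal g n)).1 e)
  have φ2 : ∀ u, (g * r u * g⁻¹)⁻¹ * r (φ u) ∈ centralizer (D : Set A) := fun u =>
    (QuotientGroup.eq.1 (show ((MulAut.conjNormal g (r u) : N) : N ⧸ P) = r (φ u) from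
      (congrArg φ (r1 u)).trans (r1 _).symm) : _ ∈ P)
  have gl : ∀ ω : N ⧸ P → V, (∀ u, ∀ d ∈ D, ρ d (ω u) = ω u) → ρ g (∑ u, ρ (r u) (ω u)) = ∑ u, ρ (r u) (ω u) →
      ∀ u, ρ g (ρ (r u) (ω u)) = ρ (r (φ u)) (ω (φ u)) := fun ω hω e u => by
    have := h.indep h0 (D := D) inf_le_left (r := fun u => g * r u * g⁻¹) (fun u => h.nn.conj_mem _ (r u).2 g) (fun u u' e => by
      rw [← r1 u, ← r1 u', QuotientGroup.eq]
      simpa [mul_assoc, P, mem_subgroupOf] using g2 _ (inv_mem g0) _ e) univ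
      (fun u => ρ g (ω u) - ρ ((g * r u * g⁻¹)⁻¹ * r (φ u)) (ω (φ u))) (fun u d hd => by
        rw [map_sub, w1 _ (φ2 u) _ (hω _) d hd, ← mul_app, show d * g = g * (g⁻¹ * d * g) by group, mul_app, hω _ _ (g1 g g0 d hd)])
      (by
        simp only [map_sub, mul_app, app_inv, inv_app, sum_sub_distrib, ← map_sum, e]
        rw [sub_eq_zero]
        exact (Fintype.sum_bijective φ (Finite.injective_iff_bijective.1 φ1) _ _ fun _ => rfl).symm) u (mem_univ _)
    rw [← mul_inv_cancel_left (g * r u * g⁻¹) (r (φ u)), mul_app, ← sub_eq_zero.1 this]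
    simp only [mul_app, inv_app]
  have a1 := gl α w3 (hg 1)
  have a2 := gl β w4 (hg 2)
  have n0 : ∀ a : A, ρ a x ≠ 0 := fun a e => hx (app_inj a (e.trans (map_zero _).symm))
  have zx : ρ z x ≠ x := fun e => hz2 (Subtype.ext (h.eq_one h0 hz1 hx e))
  have c1 : ∀ u, u ≠ 1 → (u ∈ B ↔ ρ (r u) (α u) ≠ 0 ∧ ρ (r u) (β u) ≠ 0) ∧
      (u ∈ C ↔ ρ (r u) (α u) ≠ 0 ∧ ρ (r u) (β u) ≠ ρ (r u) (α u)) := fun u hu => by
    simp only [ne_eq, (app_inj _).eq_iff, map_eq_zero_iff _ (app_inj _), α, β, if_neg hu]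
    by_cases a : u ∈ B <;> by_cases b : u ∈ C <;> simp [a, b, hx, n0, zx, hx.symm]
  have c2 := hBC φ φ1 fun u hu => by
    have hu' : φ u ≠ 1 := fun e => hu (φ1 (e.trans (map_one φ).symm))
    rw [(c1 u hu).1, (c1 u hu).2, (c1 _ hu').1, (c1 _ hu').2, ← a1, ← a2]
    simp only [ne_eq, (app_inj g).eq_iff, map_eq_zero_iff _ (app_inj g), imp_self, and_self]
  simp only [c2] at a1 a2
  have c3 : ∀ p ∈ N ⊓ centralizer (D : Set A), ρ g (ρ p x) = ρ p x → ∀ k : ℕ, ρ g (ρ (p ^ k) x) = ρ (p ^ k) x := fun p hp e k => by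
    induction k with
    | zero => simpa using (show ρ g x = x from g0)
    | succ k ih => rw [pow_succ]; exact h.fix_mul h0 g0 (pow_mem hp.1 k) hp.2 ih e
  rw [h.eq_one_of_fix h0 hC hx (g := g) fun n hn => ?_, map_one, Module.End.one_apply]
  have e0 : (r (⟨n, hn⟩ : N) : A)⁻¹ * n ∈ centralizer (D : Set A) := (QuotientGroup.eq.1 (r1 (⟨n, hn⟩ : N)) : _ ∈ P)
  obtain ⟨k, m, d, hd, e⟩ := hP _ ⟨N.mul_mem (N.inv_mem (r _).2) hn, e0⟩
  rw [← mul_inv_cancel_left (r (⟨n, hn⟩ : N) : A) n]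
  refine h.fix_mul h0 g0 (r _).2 e0 ?_ ?_
  · generalize ((⟨n, hn⟩ : N) : N ⧸ P) = u
    by_cases hu : u = 1
    · simpa [r, hu] using (show ρ g x = x from g0)
    have b1 := a1 u
    have b2 := a2 u
    simp only [α, β, if_neg hu] at b1 b2
    by_cases a : u ∈ B ∨ u ∈ C
    · rwa [if_pos a] at b1
    · rwa [if_neg (not_or.1 a).1, if_neg (not_or.1 a).2] at b2
  · rw [e, mul_app, w2 d hd]
    exact h.fix_mul h0 g0 (pow_mem hi.1 k) (pow_mem hj.2 m) (c3 i hi (by simpa [r, β] using a2 1) k)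
      (c3 j hj (by simpa [r, α] using a1 1) m)

theorem cent_le [Group.IsSolvable A] : centralizer (N : Set A) ≤ Z := fun d hd => by
  have := h.zn
  have := h.nn
  obtain ⟨M, _, _, σ, π, s⟩ := exists_sec N Z h.comm
  obtain ⟨b, -, -, -, -, b5, -⟩ := h.main s
  exact h.nd (b5 d (centralizer_le h.le hd) fun m => by
    obtain ⟨y, hy, rfl⟩ := s.surj m
    rw [s.conj _ _ hy, ← hd y hy, mul_inv_cancel_right]) fun y hy => commutatorElement_eq_one_iff_mul_comm.2 (hd y hy).symm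

end QP

theorem core3 [Group.IsSolvable A] [Nontrivial V] (ih : Th3.{u} (Nat.card V)) (hρ : Function.Injective ρ) (hi : Irr ρ ⊤) :
    Bs (Fin 3) ρ ⊤ := by
  by_cases hI : ∃ T W, Imp ρ T W
  · obtain ⟨T, W, h⟩ := hI
    exact h.b3 ih hi
  have hd : ∀ B : Subgroup A, B.Normal → B ≤ centralizer B → ∀ a ∈ Subring.closure (ρ '' B), a ≠ 0 → Function.Injective a :=
    fun B _ h => (dich hi _ (clos_comm h) clos_conj).resolve_left hI
  obtain ⟨Z, N, h⟩ := exists_QP fun B hB k => cyc_of_dom hρ k (hd B hB k)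
  have h0 : ∀ z ∈ Z, z ≠ 1 → fx ρ z = ⊥ := fun z => fx_eq_bot hρ (hd Z h.zn (h.le.trans h.cen))
  exact h.bs3 h0 (h.cent_le h0)

/-- irreducible modules of solvable groups have bases of size three -/
theorem th3 (n : ℕ) : Th3.{u} n := by
  induction n with
  | zero => exact fun _ _ _ _ _ _ _ _ _ h => absurd h (Nat.not_lt_zero _)
  | succ n ih =>
    intro A V _ _ _ _ _ ρ U hU hi
    rcases subsingleton_or_nontrivial U with h | h
    · exact ⟨0, fun _ => zero_mem _, fun a _ u hu => congrArg Subtype.val (Subsingleton.elim (α := U) ⟨_, hi.1 a u hu⟩ ⟨u, hu⟩)⟩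
    let f := (ρ.subrepresentation U fun g u hu => hi.1 g u hu).toHomUnits
    have := Finite.of_surjective _ f.rangeRestrict_surjective
    have := Group.isSolvable_of_surjective f.rangeRestrict_surjective
    obtain ⟨v, -, k⟩ := core3 (A := f.range) (V := U) (ρ := (Units.coeHom _).comp f.range.subtype)
      (fun A V _ _ _ _ _ ρ W b => ih A V ρ W (by omega))
      (Units.val_injective.comp Subtype.val_injective) ⟨fun _ _ _ => trivial, fun W hW _ =>
        (hi.2 (W.map U.subtype) (by rintro a _ ⟨u, hu, rfl⟩; exact ⟨_, hW ⟨_, a, rfl⟩ u hu, rfl⟩) (U.map_subtype_le W)).imp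
          (fun e => Submodule.map_injective_of_injective U.injective_subtype (e.trans (Submodule.map_bot _).symm)) fun e =>
          Submodule.map_injective_of_injective U.injective_subtype (e.trans (Submodule.map_subtype_top U).symm)⟩
    exact ⟨fun i => v i, fun i => (v i).2, fun a h1 u hu =>
      congrArg Subtype.val (k ⟨_, a, rfl⟩ (fun i => Subtype.ext (h1 i)) ⟨u, hu⟩ trivial)⟩

/-- completely reducible modules of solvable groups have bases of size three -/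
theorem bs3 {A V : Type*} [Group A] [Finite A] [Group.IsSolvable A] [AddCommGroup V] [Finite V] {ρ : Representation ℤ A V}
    (h : CR ρ) : Bs (Fin 3) ρ ⊤ := by
  obtain ⟨B, _, _, ⟨e⟩⟩ := Finite.exists_type_univ_nonempty_mulEquiv A
  have := Group.isSolvable_of_surjective (f := e.toMonoidHom) e.surjective
  obtain ⟨v, -, k⟩ := CR.bs (ρ := ρ.comp e.symm.toMonoidHom) (fun U hU => by
    obtain ⟨W, a, b⟩ := h U fun a u hu => by simpa using hU (e a) u hu
    exact ⟨W, fun g => a _, b⟩) fun X hX => th3 _ B V _ X (Nat.lt_succ_self _) hX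
  exact ⟨v, fun _ => trivial, fun a h1 u _ => by simpa using k (e a) (by simpa using h1) u trivial⟩

end H20.SL
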