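import Cfsg.Agent.H20.SzE
import Cfsg.Agent.H19.SylowCount
import Cfsg.Agent.S0840

/-! Non-commuting solutions of `a * b = x` inside one class of a group of Suzuki type (`Tw.noncomm`). -/

set_option autoImplicit false
set_option linter.unusedSectionVars false

open H05 H19 H12.CC Classical
open scoped ComplexConjugate

namespace H20.CCX
open _root_.Cfsg

variable {G : Type*} [Group G] [Fintype G]

theorem le_of_bnd {a b c d e f : ℂ} {r₁ r₂ r₃ r₄ r₅ : ℝ} (h1 : ‖a‖ ≤ r₁) (h2 : ‖b‖ ≤ r₂) (h3 : ‖c‖ ≤ r₃) (h4 : ‖d‖ ≤ r₄)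
    (h5 : ‖e + f‖ ≤ r₅) (h : r₁ + r₂ + r₃ + r₄ + r₅ ≤ 19 / 20) : 1 / 20 ≤ ‖1 + a + b + c + d + e + f‖ := by
  have h6 := norm_sub_le (1 + a + b + c + d + e + f) (a + b + c + d + (e + f))
  rw [show 1 + a + b + c + d + e + f - (a + b + c + d + (e + f)) = 1 by ring, norm_one] at h6
  linarith [norm_add_le (a + b + c + d) (e + f), norm_add_le (a + b + c) d, norm_add_le (a + b) c, norm_add_le a b]

theorem ncm {A : Subgroup G} (h : AbCC A) {e : ℕ} (he : Nat.card (Subgroup.normalizer (A : Set G)) = e * Nat.card A)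
    {x : G} (hx : x ∈ A) (x1 : x ≠ 1) (hs : 1 / 20 ≤ ‖∑ χ, tm x x χ‖) (hG : 20 * e * Nat.card A ^ 2 < Nat.card G) :
    ∃ a b, IsConj x a ∧ IsConj x b ∧ a * b = x ∧ a * b ≠ b * a := by
  by_contra hn
  push Not at hn
  have h1 := congrArg norm (Cfsg.Agent.S0840.result x x x)
  have h2 : Nat.card {p : G × G // IsConj x p.1 ∧ IsConj x p.2 ∧ p.1 * p.2 = x} ≤ e := by
    rw [← ncard_conj h he hx x1, ← Nat.card_coe_set_eq]
    refine Nat.card_le_card_of_injective (fun p => ⟨p.1.1, ?_, p.2.1⟩) fun p p' e => ?_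
    · rw [← h.cent x hx x1, Subgroup.mem_centralizer_singleton_iff]
      have := hn _ _ p.2.1 p.2.2.1 p.2.2.2
      calc p.1.1 * x = p.1.1 * (p.1.2 * p.1.1) := by rw [← this, p.2.2.2]
        _ = x * p.1.1 := by rw [← mul_assoc, p.2.2.2]
    · have e1 : p.1.1 = p'.1.1 := congrArg Subtype.val e
      exact Subtype.ext (Prod.ext e1 (mul_left_cancel (p.2.2.2.trans (e1 ▸ p'.2.2.2.symm))))
  have h3 := (Subgroup.centralizer ({x} : Set G)).index_mul_card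
  rw [finsum_eq_sum_of_fintype, card_conj_eq_index_centralizer, norm_mul, norm_div, norm_mul, Complex.norm_natCast,
    Complex.norm_natCast, Complex.norm_natCast, ← h3] at h1
  rw [← h3, h.cent x hx x1] at hG
  rw [h.cent x hx x1] at h1
  have a0 : 0 < Nat.card A := Nat.card_pos
  have i0 : 0 < A.index := Nat.pos_of_ne_zero Subgroup.index_ne_zero_of_finite
  have h4 : (20 * e * Nat.card A : ℝ) < A.index := by
    exact_mod_cast lt_of_mul_lt_mul_right (a := Nat.card A) (by rw [mul_assoc, ← sq]; exact hG) a0.le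
  have h5 : (A.index : ℝ) * A.index / (A.index * Nat.card A : ℕ) * (1 / 20) ≤ e :=
    (mul_le_mul_of_nonneg_left hs (by positivity)).trans (h1.ge.trans (by exact_mod_cast h2))
  rw [Nat.cast_mul, mul_div_mul_left _ _ (by positivity), div_mul_eq_mul_div, div_le_iff₀ (by positivity)] at h5
  linarith

section ineq
variable {j : ℝ} (h : 0 ≤ j)
include h

theorem jq (c : ℝ) (hc : c ≤ 1) : c / (8 * j ^ 2 + 16 * j + 8) ^ 2 ≤ 1 / 64 := by
  rw [div_le_div_iff₀ (by positivity) (by positivity)]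
  nlinarith [pow_nonneg h 2, pow_nonneg h 3, pow_nonneg h 4]

theorem jq0 : (8 * j ^ 2 + 16 * j + 5) * (4 * j + 3) / ((8 * j ^ 2 + 16 * j + 8) ^ 2 + 1) ≤ 1 / 2 := by
  rw [div_le_div_iff₀ (by positivity) (by positivity)]
  linarith [pow_nonneg h 2, pow_nonneg h 3, pow_nonneg h 4]

theorem jq1 : (8 * j ^ 2 + 20 * j + 9) * (4 * j + 3) / ((8 * j ^ 2 + 16 * j + 7) * (8 * j ^ 2 + 12 * j + 5)) ≤ 27 / 35 := by
  rw [div_le_div_iff₀ (by positivity) (by positivity)]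
  linarith [pow_nonneg h 2, pow_nonneg h 3, pow_nonneg h 4]

theorem jq2 : (8 * j ^ 2 + 12 * j + 1) * (4 * j + 3) / ((8 * j ^ 2 + 16 * j + 7) * (8 * j ^ 2 + 20 * j + 13)) ≤ 1 / 2 := by
  rw [div_le_div_iff₀ (by positivity) (by positivity)]
  linarith [pow_nonneg h 2, pow_nonneg h 3, pow_nonneg h 4]

theorem jq3 : 1 * 1 / ((8 * j ^ 2 + 16 * j + 7) * (2 * j + 2)) ≤ 1 / 14 := by
  rw [div_le_div_iff₀ (by positivity) (by positivity)]
  linarith [pow_nonneg h 2, pow_nonneg h 3]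

end ineq

namespace Tw
variable {j : ℕ} {A₀ A₁ A₂ : Subgroup G} {St W₁ W₂ : IrrCharacter G} {X P₁ P₂ : Finset (IrrCharacter G)} {σ ρ : G}
  {Z : Subgroup G} (E : Tw j St σ ρ Z) (D : SzD j A₀ A₁ A₂ St) (T : Tab j A₀ A₁ A₂ St W₁ W₂ X P₁ P₂)
  (R₂ : ∀ y ∈ A₂, IsConj y y⁻¹)
include D T

theorem lb_0 {x : G} (hx : x ∈ A₀) (x1 : x ≠ 1) : 1 / 20 ≤ ‖∑ χ, tm x x χ‖ := by
  have hn := T.norm x
  have j0 : (0 : ℝ) ≤ j := by positivity
  rw [D.s0 x hx x1, T.w10 x hx x1, T.w20 x hx x1, D.c0.cent x hx x1, D.n0,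
    Finset.sum_eq_zero (s := P₁) fun χ h => by simp [T.z10 χ h x hx x1],
    Finset.sum_eq_zero (s := P₂) fun χ h => by simp [T.z20 χ h x hx x1]] at hn
  simp only [norm_zero, norm_one] at hn
  push_cast at hn
  rw [T.sum, tm_one, Finset.sum_eq_zero (s := P₁) fun χ h => zl (T.z10 χ h x hx x1),
    Finset.sum_eq_zero (s := P₂) fun χ h => zl (T.z20 χ h x hx x1), zl (T.w10 x hx x1), zl (T.w20 x hx x1)]
  refine le_of_bnd (bnd1 D.deg (b := 1) (by simp [D.s0 x hx x1]) (c := 1) (by simp [D.s0 x hx x1]))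
    (bnd T.dX (b := 4 * j + 3) (by positivity) (fun χ _ => mod_cast norm_le_of_card χ (b := 4 * j + 3) ?_)
      (c := 8 * j ^ 2 + 16 * j + 5) (by linarith)) norm_zero.le norm_zero.le (r₅ := 0) (by simp) ?_
  · rw [D.c0.cent x hx x1, D.n0]; nlinarith
  push_cast
  linarith [jq j0 (1 * 1) (by simp), jq0 j0]

theorem lb_1 {x : G} (hx : x ∈ A₁) (x1 : x ≠ 1) : 1 / 20 ≤ ‖∑ χ, tm x x χ‖ := by
  have j0 : (0 : ℝ) ≤ j := by positivity
  have h1 := T.w11 x hx x1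
  have h2 := T.w21 x hx x1
  rw [T.sum, tm_one, Finset.sum_eq_zero (s := X) fun χ h => zl (x_1 D T h x hx x1),
    Finset.sum_eq_zero (s := P₂) fun χ h => zl (T.z21 χ h x hx x1)]
  refine le_of_bnd (bnd1 D.deg (b := 1) (by simp [D.s1 x hx x1]) (c := 1) (by simp [D.s1 x hx x1])) norm_zero.le
    (bnd T.d1 (b := 4 * j + 3) (by positivity) (fun χ h => (abs_le_of_sq_le_sq' ?_ (by positivity)).2)
      (sum_1 D T hx x1).le) norm_zero.le ((norm_add_le _ _).trans (add_le_add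
      (bnd1 T.dW₁ (b := 1) (by simp [h1]) (c := 1) (by simp [h1])) (bnd1 T.dW₂ (b := 1) (by simp [h2]) (c := 1) (by simp [h2])))) ?_
  · refine (Finset.single_le_sum (f := fun χ : IrrCharacter G => ‖(χ : G → ℂ) x‖ ^ 2) (fun _ _ => sq_nonneg _) h).trans ?_
    rw [sum_1 D T hx x1]
    nlinarith
  push_cast
  linarith [jq j0 (1 * 1) (by simp), jq1 j0, jq3 j0]

include E R₂

theorem lb_2 {x : G} (hx : x ∈ A₂) (x1 : x ≠ 1) : 1 / 20 ≤ ‖∑ χ, tm x x χ‖ := by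
  have j0 : (0 : ℝ) ≤ j := by positivity
  obtain ⟨h1, h2⟩ := E.w_2 D T R₂ hx x1
  have hn := T.norm x
  rw [D.s2 x hx x1, h1, h2, D.c2.cent x hx x1, D.n2,
    Finset.sum_eq_zero (s := X) fun χ h => by simp [x_2 D T h x hx x1],
    Finset.sum_eq_zero (s := P₁) fun χ h => by simp [T.z12 χ h x hx x1]] at hn
  simp only [norm_neg, norm_one] at hn
  push_cast at hn
  rw [T.sum, tm_one, Finset.sum_eq_zero (s := X) fun χ h => zl (x_2 D T h x hx x1),
    Finset.sum_eq_zero (s := P₁) fun χ h => zl (T.z12 χ h x hx x1)]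
  refine le_of_bnd (bnd1 D.deg (b := 1) (by simp [D.s2 x hx x1]) (c := 1) (by simp [D.s2 x hx x1])) norm_zero.le norm_zero.le
    (bnd T.d2 (b := 4 * j + 3) (by positivity) (fun χ _ => mod_cast norm_le_of_card χ (b := 4 * j + 3) ?_)
      (c := 8 * j ^ 2 + 12 * j + 1) (by linarith)) ((norm_add_le _ _).trans (add_le_add
      (bnd1 T.dW₁ (b := 1) (by simp [h1]) (c := 1) (by simp [h1])) (bnd1 T.dW₂ (b := 1) (by simp [h2]) (c := 1) (by simp [h2])))) ?_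
  · rw [D.c2.cent x hx x1, D.n2]; nlinarith
  push_cast
  linarith [jq j0 (1 * 1) (by simp), jq2 j0, jq3 j0]

theorem noncomm {x : G} (x1 : x ≠ 1) (hx : x ∈ A₀ ∨ x ∈ A₁ ∨ x ∈ A₂) :
    ∃ a b, IsConj x a ∧ IsConj x b ∧ a * b = x ∧ a * b ≠ b * a := by
  have p := fun n => Nat.zero_le (j ^ n)
  rcases hx with hx | hx | hx
  · refine ncm D.c0 D.N0 hx x1 (lb_0 D T hx x1) ?_
    rw [D.n0, D.card]; nlinarith [p 2, p 3, p 4, p 5, p 6, p 7, p 8, p 9, p 10]
  · refine ncm D.c1 D.N1 hx x1 (lb_1 D T hx x1) ?_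
    rw [D.n1, D.card]; nlinarith [p 2, p 3, p 4, p 5, p 6, p 7, p 8, p 9, p 10]
  · refine ncm D.c2 D.N2 hx x1 (E.lb_2 D T R₂ hx x1) ?_
    rw [D.n2, D.card]; nlinarith [p 2, p 3, p 4, p 5, p 6, p 7, p 8, p 9, p 10]

end Tw

end H20.CCX
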