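import Mathlib
import Cfsg.Prelude.Def_DegreeGraph
import Cfsg.Agent.H19.SelfC
import Cfsg.Agent.H19.Principal
import Cfsg.Agent.H25.PF13_a
import Cfsg.Agent.H07.Misc1
import Cfsg.Agent.H06.Clifford
import Cfsg.Agent.H06.Monomial

/-! Degree graphs of groups of order 6048 (`H20.U33`): `card_not_dvd_le` (number of `p'`-degree characters is at most
`|C(g)|` for a `p`-element `g`), `graph_of`, `abstract`, `exists_solvable`. -/

set_option autoImplicit false

open H05 Classical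
open scoped ComplexConjugate

namespace H20.U33
open _root_.Cfsg

theorem card_not_dvd_le {G : Type*} [Group G] [Fintype G] {p : ℕ} [hp : Fact p.Prime] {g : G}
    (hg : ∃ k, orderOf g = p ^ k) :
    (Finset.univ.filter fun χ : IrrCharacter G => ¬ p ∣ charDegree (χ : G → ℂ)).card ≤
      Nat.card (Subgroup.centralizer ({g} : Set G)) := by
  set G₀ : Finset G := Finset.univ.filter fun x => Subgroup.zpowers x = Subgroup.zpowers g with hG
  have hpos : 0 < G₀.card := Finset.card_pos.2 ⟨g, by simp [hG]⟩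
  have hcl : ∀ x ∈ G₀, ∀ k : ℕ, k.Coprime (Nat.card G) → x ^ k ∈ G₀ := by
    intro x hx k hk
    simp only [hG, Finset.mem_filter, Finset.mem_univ, true_and] at hx ⊢
    rw [← hx]
    refine Subgroup.eq_of_le_of_card_ge (Subgroup.zpowers_le.2 (Subgroup.npow_mem_zpowers x k)) ?_
    rw [Nat.card_zpowers, Nat.card_zpowers,
      (Nat.Coprime.coprime_dvd_right (orderOf_dvd_natCard x) hk).symm.orderOf_pow]
  have hord : ∀ x ∈ G₀, ∃ k, orderOf x = p ^ k := by
    intro x hx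
    simp only [hG, Finset.mem_filter, Finset.mem_univ, true_and] at hx
    rw [← Nat.card_zpowers, hx, Nat.card_zpowers]
    exact hg
  have hC : ∀ x ∈ G₀, Subgroup.centralizer ({x} : Set G) = Subgroup.centralizer ({g} : Set G) := by
    intro x hx
    simp only [hG, Finset.mem_filter, Finset.mem_univ, true_and] at hx
    have key : ∀ a b : G, Subgroup.zpowers a = Subgroup.zpowers b →
        Subgroup.centralizer ({a} : Set G) ≤ Subgroup.centralizer ({b} : Set G) := by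
      intro a b h c hc
      obtain ⟨n, rfl⟩ := Subgroup.mem_zpowers_iff.1 (h ▸ Subgroup.mem_zpowers b : b ∈ Subgroup.zpowers a)
      rw [Subgroup.mem_centralizer_singleton_iff] at hc ⊢
      exact ((show Commute c a from hc).zpow_right n).eq
    exact le_antisymm (key _ _ hx) (key _ _ hx.symm)
  have h1 : ∀ χ : IrrCharacter G, ¬ p ∣ charDegree (χ : G → ℂ) → (G₀.card : ℝ) ≤ ∑ x ∈ G₀, ‖(χ : G → ℂ) x‖ ^ 2 := by
    intro χ hχ
    have := H25.pf13_galois_sum (H05.Cfsg.IsIrrCharacter.isGeneralizedCharacter χ.2) H05.isGeneralizedCharacter_zero G₀ hcl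
      fun x hx => Or.inl fun h0 => hχ (H07.dvd_deg_of_apply_eq_zero χ.2.isCharacter (hord x hx) h0)
    simpa using this
  have h2 : ∀ x ∈ G₀, ∑ χ : IrrCharacter G, ‖(χ : G → ℂ) x‖ ^ 2 = Nat.card (Subgroup.centralizer ({g} : Set G)) := by
    intro x hx
    have := H05.sum_irr_mul_conj_of_isConj (IsConj.refl x)
    rw [hC x hx] at this
    simp only [Complex.mul_conj, Complex.normSq_eq_norm_sq] at this
    exact_mod_cast this
  have h3 : ((Finset.univ.filter fun χ : IrrCharacter G => ¬ p ∣ charDegree (χ : G → ℂ)).card : ℝ) * G₀.card ≤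
      Nat.card (Subgroup.centralizer ({g} : Set G)) * G₀.card := by
    calc _ = ∑ χ ∈ Finset.univ.filter fun χ : IrrCharacter G => ¬ p ∣ charDegree (χ : G → ℂ), (G₀.card : ℝ) := by simp
      _ ≤ ∑ χ ∈ Finset.univ.filter fun χ : IrrCharacter G => ¬ p ∣ charDegree (χ : G → ℂ),
          ∑ x ∈ G₀, ‖(χ : G → ℂ) x‖ ^ 2 := Finset.sum_le_sum fun χ hχ => h1 χ (Finset.mem_filter.1 hχ).2
      _ ≤ ∑ χ : IrrCharacter G, ∑ x ∈ G₀, ‖(χ : G → ℂ) x‖ ^ 2 :=
          Finset.sum_le_sum_of_subset_of_nonneg (Finset.filter_subset _ _) fun _ _ _ => by positivity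
      _ = ∑ x ∈ G₀, (Nat.card (Subgroup.centralizer ({g} : Set G)) : ℝ) := by
          rw [Finset.sum_comm]; exact Finset.sum_congr rfl h2
      _ = _ := by simp [mul_comm]
  exact_mod_cast le_of_mul_le_mul_right h3 (by exact_mod_cast hpos)

theorem graph_of {G : Type*} [Group G] [Finite G] (hG : Nat.card G = 6048) (h6 : ∃ d ∈ charDegrees G, 6 ∣ d)
    (h14 : ∃ d ∈ charDegrees G, 14 ∣ d) (h21 : ∃ d ∈ charDegrees G, 21 ∣ d) :
    degreePrimes G = {2, 3, 7} ∧
      ∀ p q, (degreeGraph G).Adj p q ↔ p ≠ q ∧ p ∈ ({2, 3, 7} : Set ℕ) ∧ q ∈ ({2, 3, 7} : Set ℕ) := by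
  have key : ∀ p : ℕ, p.Prime → ∀ d ∈ charDegrees G, p ∣ d → p ∈ ({2, 3, 7} : Set ℕ) := by
    rintro p hp _ ⟨χ, rfl⟩ h
    have h1 := h.trans χ.2.charDegree_dvd_card
    rw [hG, show 6048 = 2 ^ 5 * 3 ^ 3 * 7 by norm_num] at h1
    rcases (Nat.Prime.dvd_mul hp).1 h1 with h | h
    · rcases (Nat.Prime.dvd_mul hp).1 h with h | h
      · exact Or.inl ((Nat.prime_dvd_prime_iff_eq hp Nat.prime_two).1 (hp.dvd_of_dvd_pow h))
      · exact Or.inr (Or.inl ((Nat.prime_dvd_prime_iff_eq hp Nat.prime_three).1 (hp.dvd_of_dvd_pow h)))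
    · exact Or.inr (Or.inr ((Nat.prime_dvd_prime_iff_eq hp (by norm_num)).1 h))
  obtain ⟨a, ha, ha'⟩ := h6
  obtain ⟨b, hb, hb'⟩ := h14
  obtain ⟨c, hc, hc'⟩ := h21
  refine ⟨Set.ext fun p => ⟨fun ⟨hp, d, hd, h⟩ => key p hp d hd h, ?_⟩, fun p q => ⟨fun ⟨hne, hp, hq, d, hd, h⟩ =>
    ⟨hne, key p hp d hd ((dvd_mul_right p q).trans h), key q hq d hd ((dvd_mul_left q p).trans h)⟩, ?_⟩⟩
  · rintro (rfl | rfl | rfl)
    · exact ⟨by norm_num, a, ha, Dvd.dvd.trans (by norm_num) ha'⟩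
    · exact ⟨by norm_num, a, ha, Dvd.dvd.trans (by norm_num) ha'⟩
    · exact ⟨by norm_num, b, hb, Dvd.dvd.trans (by norm_num) hb'⟩
  · rintro ⟨hne, rfl | rfl | rfl, rfl | rfl | rfl⟩
    all_goals first
      | exact absurd rfl hne
      | exact ⟨hne, by norm_num, by norm_num, a, ha, ha'⟩
      | exact ⟨hne, by norm_num, by norm_num, b, hb, hb'⟩
      | exact ⟨hne, by norm_num, by norm_num, c, hc, hc'⟩

theorem arX {d : ℕ} {δ : ℤ} (h1 : d ∣ 864) (h6 : ¬ 6 ∣ d) (h2 : d ≠ 1) (hδ : δ = 1 ∨ δ = -1)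
    (h : (d : ℤ) ≡ δ [ZMOD 7]) : δ * d = 8 ∨ δ * d = -27 := by
  have : d ∈ Nat.divisors 864 := Nat.mem_divisors.2 ⟨h1, by norm_num⟩
  have h3 : ∀ d ∈ Nat.divisors 864, ¬ 6 ∣ d → d ≠ 1 → (d % 7 = 1 → d = 8) ∧ (d % 7 = 6 → d = 27) := by decide +kernel
  obtain ⟨h4, h5⟩ := h3 d this h6 h2
  unfold Int.ModEq at h
  rcases hδ with rfl | rfl
  · left; have := h4 (by omega); omega
  · right; have := h5 (by omega); omega

theorem arY {d : ℕ} {δ : ℤ} (h1 : d ∣ 864) (h6 : ¬ 6 ∣ d) (hδ : δ = 1 ∨ δ = -1)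
    (h : (d : ℤ) ≡ δ * 3 [ZMOD 7]) : δ * d = 3 ∨ δ * d = -4 ∨ δ * d = -32 := by
  have : d ∈ Nat.divisors 864 := Nat.mem_divisors.2 ⟨h1, by norm_num⟩
  have h3 : ∀ d ∈ Nat.divisors 864, ¬ 6 ∣ d → (d % 7 = 3 → d = 3) ∧ (d % 7 = 4 → d = 4 ∨ d = 32) := by decide +kernel
  obtain ⟨h4, h5⟩ := h3 d this h6
  unfold Int.ModEq at h
  rcases hδ with rfl | rfl
  · left; have := h4 (by omega); omega
  · right; have := h5 (by omega); omega

theorem seven {G : Type*} [Group G] [Fintype G] (hG : Nat.card G = 6048) (hperf : commutator G = ⊤) {x : G}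
    (hx : orderOf x = 7) (hC : Nat.card (Subgroup.centralizer ({x} : Set G)) = 7) :
    (∃ d ∈ charDegrees G, 6 ∣ d) ∧
      (Finset.univ.filter fun χ : IrrCharacter G => ¬ 7 ∣ charDegree (χ : G → ℂ)).card ≤ 5 := by
  haveI : Fact (Nat.Prime 7) := ⟨by norm_num⟩
  have hC' : Subgroup.centralizer ({x} : Set G) = Subgroup.zpowers x :=
    (Subgroup.eq_of_le_of_card_ge (Subgroup.zpowers_le.2 (Subgroup.mem_centralizer_singleton_iff.2 rfl))
      (by rw [hC, Nat.card_zpowers, hx])).symm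
  obtain ⟨P, H, _, _, _, _, S, y, hK, -, -⟩ := H19.exists_dOne_selfC hx hC'
  obtain ⟨X, Y, δ, ε, hD⟩ := S.exists_desc (H19.irrOne S.K)
  have hH : S.K.index = Nat.card H := by rw [hK, Subgroup.index_bot]
  have h864 : S.K.index * S.N.index = 864 := by
    have := S.card_G
    rw [hG, ← hH] at this
    nlinarith
  have hY := hD.cardY1
  have hN : S.N.index % 7 = 1 := by
    obtain ⟨Q, hQ⟩ := S.exists_sylow
    have h1 := card_sylow_modEq_one 7 G
    rw [Q.card_eq_index_normalizer, show Subgroup.normalizer (Q : Set G) = S.N by rw [S.N_eq, ← hQ]; rfl] at h1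
    exact h1
  have he : S.K.index = 3 := by
    have h1 : S.K.index ∣ 6 := Dvd.intro_left _ hY
    have h2 : S.K.index ≤ 6 := Nat.le_of_dvd (by norm_num) h1
    generalize S.K.index = e at *
    interval_cases e <;> omega
  have hX := hD.cardX1
  rw [he] at hX hY
  have hY2 : Y.card = 2 := by omega
  have hθ : ∀ θ : IrrCharacter S.K, θ = H19.irrOne S.K := fun θ => by
    have : Subsingleton S.K := by rw [hK]; infer_instance
    have : IsMulCommutative S.K := ⟨⟨fun _ _ => Subsingleton.elim _ _⟩⟩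
    exact H19.irr_ext fun k => by rw [Subsingleton.elim k 1, θ.2.apply_one_of_comm, H19.irrOne_apply]
  refine ⟨by_contra fun h6 => ?_, ?_⟩
  · have h6' : ∀ χ : IrrCharacter G, ¬ 6 ∣ charDegree (χ : G → ℂ) := fun χ h => h6 ⟨_, ⟨χ, rfl⟩, h⟩
    have h1 : H19.irrOne G ∈ X := by
      refine ((hD.mem _).1 S.irrOne_mem_Blk).resolve_right fun h => ?_
      have : Y ⊆ {H19.irrOne G} := fun ψ hψ => Finset.mem_singleton.2
        (H19.eq_irrOne_of_perfect hperf (by rw [hD.degY_eq hψ h, H19.charDegree_irrOne]))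
      have := Finset.card_le_card this
      simp only [Finset.card_singleton] at this
      omega
    obtain ⟨ψ, hψ⟩ := hD.Y_nonempty
    have e1 := hD.deg_eq hψ
    rw [← Finset.add_sum_erase _ _ h1, hD.δ_irrOne h1, H19.charDegree_irrOne] at e1
    obtain ⟨a, b, hab, e⟩ := Finset.card_eq_two.1 (show (X.erase (H19.irrOne G)).card = 2 by
      rw [Finset.card_erase_of_mem h1, hX])
    have hX' : ∀ χ ∈ X.erase (H19.irrOne G), δ χ * charDegree (χ : G → ℂ) = 8 ∨ δ χ * charDegree (χ : G → ℂ) = -27 := by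
      intro χ hχ
      obtain ⟨h2, h3⟩ := Finset.mem_erase.1 hχ
      refine arX (h864 ▸ hD.degX_dvd h3) (h6' χ) (fun h => h2 (H19.eq_irrOne_of_perfect hperf h)) (hD.signX χ h3) ?_
      have := hD.degX h3
      rwa [S.T_irrOne, Subgroup.index_top, H19.charDegree_irrOne, Nat.cast_one, mul_one, mul_one] at this
    have ha := hX' a (by simp [e])
    have hb := hX' b (by simp [e])
    have hc := arY (h864 ▸ hD.degY_dvd hψ) (h6' ψ) hD.sign (by
      have := hD.degY hψ
      rwa [he, H19.charDegree_irrOne, Nat.cast_one, mul_one] at this)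
    rw [e, Finset.sum_pair hab] at e1
    push_cast at e1
    omega
  · refine le_trans (Finset.card_le_card (t := X ∪ Y) fun χ hχ => ?_) ((Finset.card_union_le _ _).trans (by omega))
    obtain ⟨θ, h⟩ := S.not_dvd_deg_iff.1 (Finset.mem_filter.1 hχ).2
    rw [hθ θ] at h
    exact Finset.mem_union.2 ((hD.mem _).1 h)

theorem exists_dvd {G : Type*} [Group G] [Fintype G] {p q a b : ℕ} (hp : p.Prime) (hq : q.Prime) (hpq : p ≠ q)
    (ha : (Finset.univ.filter fun χ : IrrCharacter G => ¬ p ∣ charDegree (χ : G → ℂ)).card ≤ a)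
    (hb : (Finset.univ.filter fun χ : IrrCharacter G => ¬ q ∣ charDegree (χ : G → ℂ)).card ≤ b)
    (h : a + b ≤ Nat.card (ConjClasses G)) : ∃ d ∈ charDegrees G, p * q ∣ d := by
  by_contra hc
  set A := Finset.univ.filter fun χ : IrrCharacter G => ¬ p ∣ charDegree (χ : G → ℂ) with hA
  set B := Finset.univ.filter fun χ : IrrCharacter G => ¬ q ∣ charDegree (χ : G → ℂ) with hB
  have h1 : A ∪ B = Finset.univ := Finset.eq_univ_of_forall fun χ => by
    by_contra h2
    simp only [hA, hB, Finset.mem_union, Finset.mem_filter, Finset.mem_univ, true_and, not_or, not_not] at h2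
    exact hc ⟨_, ⟨χ, rfl⟩, ((Nat.coprime_primes hp hq).2 hpq).mul_dvd_of_dvd_of_dvd h2.1 h2.2⟩
  have h2 : 0 < (A ∩ B).card := Finset.card_pos.2 ⟨H19.irrOne G, by
    simp only [hA, hB, Finset.mem_inter, Finset.mem_filter, Finset.mem_univ, true_and, H19.charDegree_irrOne,
      Nat.dvd_one]
    exact ⟨hp.ne_one, hq.ne_one⟩⟩
  have h3 := Finset.card_union_add_card_inter A B
  rw [h1, Finset.card_univ, ← Nat.card_eq_fintype_card, H05.card_irr_eq_card_conjClasses] at h3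
  omega

theorem abstract {G : Type*} [Group G] [Finite G] (hG : Nat.card G = 6048) (hperf : commutator G = ⊤) {x v y : G}
    (hx : orderOf x = 7) (hC : Nat.card (Subgroup.centralizer ({x} : Set G)) = 7)
    (hv : v ^ 3 = 1) (hCv : Nat.card (Subgroup.centralizer ({v} : Set G)) = 9)
    (hy : y ^ 8 = 1) (hCy : Nat.card (Subgroup.centralizer ({y} : Set G)) = 8)
    (hk : 14 ≤ Nat.card (ConjClasses G)) :
    degreePrimes G = {2, 3, 7} ∧
      ∀ p q, (degreeGraph G).Adj p q ↔ p ≠ q ∧ p ∈ ({2, 3, 7} : Set ℕ) ∧ q ∈ ({2, 3, 7} : Set ℕ) := by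
  haveI := Fintype.ofFinite G
  haveI : Fact (Nat.Prime 3) := ⟨by norm_num⟩
  obtain ⟨h6, h7⟩ := seven hG hperf hx hC
  have h3 := card_not_dvd_le (p := 3) (g := v) (by
    obtain ⟨k, -, hk⟩ := (Nat.dvd_prime_pow Nat.prime_three (m := 1)).1 (orderOf_dvd_of_pow_eq_one (n := 3 ^ 1) hv)
    exact ⟨k, hk⟩)
  have h2 := card_not_dvd_le (p := 2) (g := y) (by
    obtain ⟨k, -, hk⟩ := (Nat.dvd_prime_pow Nat.prime_two (m := 3)).1 (orderOf_dvd_of_pow_eq_one (n := 2 ^ 3) hy)
    exact ⟨k, hk⟩)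
  rw [hCv] at h3
  rw [hCy] at h2
  exact graph_of hG h6 (exists_dvd Nat.prime_two (by norm_num) (by norm_num) h2 h7 (by omega))
    (exists_dvd Nat.prime_three (by norm_num) (by norm_num) h3 h7 (by omega))

end H20.U33
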