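import Cfsg.Agent.H20.U33a

/-! The affine group `R ⋊ Rˣ` of a finite commutative ring: `H20.U33.aff_degree`, `H20.U33.exists_solvable`. -/

set_option autoImplicit false

open H05 Classical

namespace H20.U33
open _root_.Cfsg

/-- the action of the units -/
def affφ (R : Type) [CommRing R] : Rˣ →* MulAut (Multiplicative R) where
  toFun u := AddEquiv.toMultiplicative (DistribMulAction.toAddEquiv R u)
  map_one' := by ext; simp
  map_mul' := by intros; ext; simp [mul_smul]

theorem affφ_apply {R : Type} [CommRing R] (u : Rˣ) (x : Multiplicative R) :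
    (affφ R u x).toAdd = u * x.toAdd := rfl

theorem aff_degree (R : Type) [CommRing R] [Finite R] (ψ : AddChar R ℂ)
    (hψ : ∀ u : Rˣ, (∀ x : R, ψ (u * x) = ψ x) → u = 1) :
    Nat.card Rˣ ∈ charDegrees (Multiplicative R ⋊[affφ R] Rˣ) := by
  have : Finite (Multiplicative R ⋊[affφ R] Rˣ) := Finite.of_equiv _ SemidirectProduct.equivProd.symm
  have := Fintype.ofFinite (Multiplicative R ⋊[affφ R] Rˣ)
  set N := (SemidirectProduct.rightHom : Multiplicative R ⋊[affφ R] Rˣ →* Rˣ).ker with hN
  have hr : ∀ n : N, n.1.right = 1 := fun n => n.2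
  let θ : N →* ℂ :=
    { toFun n := ψ n.1.left.toAdd
      map_one' := by simp
      map_mul' := fun a b => by
        rw [Subgroup.coe_mul, SemidirectProduct.mul_left, hr a, map_one, MulAut.one_apply, toAdd_mul,
          AddChar.map_add_eq_mul] }
  have hθ := H05.isIrrCharacter_monoidHom' θ
  have h := H06.isIrr_indFun_of_inertia_le N hθ fun g hg => by
    refine hψ g.right fun x => ?_
    have := (H06.mem_inertia' N).1 hg ⟨SemidirectProduct.inl (Multiplicative.ofAdd x), by simp [hN]⟩
    change ψ (g * SemidirectProduct.inl (Multiplicative.ofAdd x) * g⁻¹ : Multiplicative R ⋊[affφ R] Rˣ).left.toAdd = ψ x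
      at this
    rw [← this]
    congr 1
    simp only [SemidirectProduct.mul_left, SemidirectProduct.mul_right, SemidirectProduct.left_inl,
      SemidirectProduct.right_inl, mul_one, SemidirectProduct.inv_left, toAdd_mul, affφ_apply, toAdd_ofAdd, toAdd_inv,
      mul_neg, Units.mul_inv_cancel_left]
    ring
  refine ⟨⟨_, h⟩, ?_⟩
  change charDegree (indFun N θ) = _
  rw [H06.charDegree_indFun N hθ.isCharacter, H05.charDegree_eq_of_apply_one (n := 1) (by simp), mul_one, hN,
    Subgroup.index_ker, MonoidHom.range_eq_top.2 SemidirectProduct.rightHom_surjective, Subgroup.card_top]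

theorem exists_solvable : ∃ (H : Type) (_ : Group H) (_ : Fintype H), Group.IsSolvable H ∧ Nat.card H = 6048 ∧
    42 ∈ charDegrees H := by
  let F := GaloisField 2 3
  have hF : Nat.card F = 8 := by rw [GaloisField.card 2 3 (by norm_num)]; norm_num
  let R := F × ZMod 18
  have hU : Nat.card Rˣ = 42 := by
    rw [Nat.card_congr (MulEquiv.prodUnits (M := F) (N := ZMod 18)).toEquiv, Nat.card_prod, Nat.card_units, hF,
      Nat.card_eq_fintype_card, ZMod.card_units_eq_totient]
    decide +kernel
  have : Finite (Multiplicative R ⋊[affφ R] Rˣ) := Finite.of_equiv _ SemidirectProduct.equivProd.symm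
  refine ⟨Multiplicative R ⋊[affφ R] Rˣ, inferInstance, Fintype.ofFinite _,
    Group.isSolvable_of_ker_le_range SemidirectProduct.inl SemidirectProduct.rightHom
      SemidirectProduct.range_inl_eq_ker_rightHom.ge, ?_, ?_⟩
  · rw [SemidirectProduct.card, hU, Nat.card_congr Multiplicative.toAdd, Nat.card_prod, hF, Nat.card_zmod]
  · let ψ₁ := AddChar.FiniteField.primitiveChar_to_Complex F
    have h₁ : ψ₁.IsPrimitive := AddChar.FiniteField.primitiveChar_to_Complex_isPrimitive F
    let ψ₂ : AddChar (ZMod 18) ℂ := ZMod.stdAddChar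
    have h₂ : ψ₂.IsPrimitive := ZMod.isPrimitive_stdAddChar 18
    have key : ∀ {S : Type} [CommRing S] (ψ : AddChar S ℂ), ψ.IsPrimitive → ∀ u : S, (∀ x, ψ (u * x) = ψ x) → u = 1 := by
      intro S _ ψ h u hu
      refine sub_eq_zero.1 (by_contra fun h0 => h h0 (AddChar.ext _ _ fun x => ?_))
      rw [AddChar.mulShift_apply, sub_mul, AddChar.map_sub_eq_div, hu, one_mul, AddChar.one_apply]
      exact div_self (ψ.val_isUnit x).ne_zero
    let ψ : AddChar R ℂ :=
      { toFun x := ψ₁ x.1 * ψ₂ x.2
        map_zero_eq_one' := by simp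
        map_add_eq_mul' := fun a b => by
          rw [Prod.fst_add, Prod.snd_add, AddChar.map_add_eq_mul, AddChar.map_add_eq_mul]; ring }
    rw [← hU]
    refine aff_degree R ψ fun u hu => Units.ext (Prod.ext (key ψ₁ h₁ _ fun x => ?_) (key ψ₂ h₂ _ fun x => ?_))
    · have := hu (x, 0)
      change ψ₁ (u.1.1 * x) * ψ₂ (u.1.2 * 0) = ψ₁ x * ψ₂ 0 at this
      simpa using this
    · have := hu (0, x)
      change ψ₁ (u.1.1 * 0) * ψ₂ (u.1.2 * x) = ψ₁ 0 * ψ₂ x at this
      simpa using this

end H20.U33
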